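import Cfsg.Agent.Lib.MI.P4

/-!
Symplectic transvections and subgroups without transvections.
-/

set_option autoImplicit false

namespace Cfsg.Agent.R3S

open Module Cfsg.Agent.Forms Cfsg.Agent.Forms.Form Cfsg.Agent.Cls Cfsg.Agent.Deg Cfsg.Agent.MI

variable {F : Type*} [Field F] {V : Type*} [AddCommGroup V] [Module F V]
  {f : Form (Param.sp F) V} {u y z v e r : V} {l m : F}
  {X : Type*} [MulAction f.Isom X] {ω : X} {g : f.Isom}

theorem str_mul (z : V) (l m : F) : str f z l * str f z m = str f z (l + m) :=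
  Isom.ext fun w => by
    simp only [Isom.mul_apply, str_apply, B_add_left, B_smul_left, sp_B_self]
    module

theorem str_zero (z : V) : str f z 0 = 1 := Isom.ext fun w => by simp [str_apply]

theorem str_zero_left (l : F) : str f (0 : V) l = 1 :=
  Isom.ext fun w => by simp [str_apply]

theorem str_inv (z : V) (l : F) : (str f z l)⁻¹ = str f z (-l) :=
  inv_eq_of_mul_eq_one_right (by rw [str_mul, add_neg_cancel, str_zero])

theorem str_conj (g : f.Isom) (z : V) (l : F) : g * str f z l * g⁻¹ = str f (g.1 z) l :=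
  tr_conj f g z l _ _

theorem str_smul (a : F) (z : V) (l : F) : str f (a • z) l = str f z (a * a * l) :=
  Isom.ext fun w => by
    simp only [str_apply, sp_B_smul_right]
    module

theorem str_neg (z : V) (l : F) : str f (-z) l = str f z l := by
  rw [← neg_one_smul F z, str_smul]; simp

theorem smul_str (hg : g • ω = ω) (z : V) (l : F) :
    g • str f z l • ω = str f (g.1 z) l • ω := by
  rw [← str_conj, mul_smul, mul_smul, inv_smul_eq_iff.2 hg.symm]

theorem mem_tau_iff : l ∈ tau f u ω ↔ str f u l • ω = ω := by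
  rw [mem_tau (f.sp_Q u)]
  exact ⟨fun h => h.smul_eq (isE_str u l), fun h => ⟨_, isE_str u l, h⟩⟩

theorem exists_str_of_range (hf : f.Nondeg) (h : ∀ w, ∃ c : F, g.1 w - w = c • z) :
    ∃ l, g = str f z l := by
  by_cases hz : z = 0
  · refine ⟨0, Isom.ext fun w => ?_⟩
    obtain ⟨c, hc⟩ := h w
    rw [str_zero, Isom.one_apply, ← sub_eq_zero, hc, hz, smul_zero]
  obtain ⟨e, he⟩ := hf.exists_eq_one hz
  obtain ⟨c₀, h₀⟩ := h e
  refine ⟨-c₀, Isom.ext fun w => ?_⟩
  obtain ⟨c, hc⟩ := h w
  have h1 := Isom.map_B g w e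
  rw [sub_eq_iff_eq_add'] at hc h₀
  rw [hc, h₀] at h1
  simp only [B_add_left, B_add_right, B_smul_left, sp_B_smul_right, sp_B_self, he] at h1
  rw [hc, str_apply, show c = -c₀ * f.B w z by linear_combination h1]

variable (f) in
/-- no transvection fixes the point -/
def NoTr (ω : X) : Prop := ∀ z l, str f z l • ω = ω → z = 0 ∨ l = 0

theorem NoTr.eq_of_range (hf : f.Nondeg) (hN : NoTr f ω) (hg : g • ω = ω)
    (h : ∀ w, ∃ c : F, g.1 w - w = c • z) (w : V) : g.1 w = w := by
  obtain ⟨l, rfl⟩ := exists_str_of_range hf h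
  rcases hN z l hg with rfl | rfl <;> simp [str_apply]

theorem NoTr.smul (hN : NoTr f ω) (g : f.Isom) : NoTr f (g • ω) := fun z l h => by
  have := hN (g⁻¹.1 z) l (by
    rw [← str_conj, inv_inv, mul_smul, mul_smul, h, inv_smul_smul])
  rcases this with h | h
  · left
    rw [← Isom.apply_inv g z, h, map_zero]
  · exact Or.inr h

theorem NoTr.tau_eq (hN : NoTr f ω) (hu : u ≠ 0) : tau f u ω = ⊥ :=
  (AddSubgroup.eq_bot_iff_forall _).2 fun l hl => (hN u l (mem_tau_iff.1 hl)).resolve_left hu

theorem NoTr.of_fx (hN : NoTr f ω) (hu : u ≠ 0) (h : Fx f u 0 l ω) : l = 0 :=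
  (hN u l (h.smul_eq (isE_str u l))).resolve_left hu

/-- Frobenius on the kernel of a separable quadratic polynomial -/
theorem pow_card_sq [Fintype F] [Nontrivial V] (h2 : (2 : F) ≠ 0) (G : Module.End F V) {τ : F}
    (h1 : τ ≠ 2) (h1' : τ ≠ -2) {y : V} (hy : G (G y) - τ • G y + y = 0) :
    (G ^ (Fintype.card F ^ 2)) y = G y := by
  obtain ⟨p, hp⟩ := CharP.exists F
  have hpp := CharP.char_is_prime F p
  have := Fact.mk hpp
  obtain ⟨n, -, hn⟩ := FiniteField.card F p
  have : CharP (Module.End F V) p := charP_of_injective_algebraMap (algebraMap F _).injective p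
  set D : Module.End F V := (2 : F) • G - τ • 1 with hD
  have hDD : D (D y) = (τ ^ 2 - 4) • y := by
    simp only [hD, LinearMap.sub_apply, LinearMap.smul_apply, Module.End.one_apply, map_sub,
      map_smul]
    linear_combination (norm := module) (4 : F) • hy
  have hj : ∀ j : ℕ, (D ^ (2 * j)) y = (τ ^ 2 - 4) ^ j • y := fun j => by
    induction j with
    | zero => simp
    | succ j ih =>
      rw [show 2 * (j + 1) = 2 * j + 2 by ring, pow_add, Module.End.mul_apply, pow_two,
        Module.End.mul_apply, hDD, map_smul, ih, smul_smul, pow_succ' (τ ^ 2 - 4)]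
  have hodd : Fintype.card F % 2 = 1 := by
    refine FiniteField.odd_card_of_char_ne_two fun h => ?_
    exact h2 (by simpa [h] using (ringChar.Nat.cast_ringChar (R := F)))
  obtain ⟨j, hj'⟩ : ∃ j, Fintype.card F = 2 * j + 1 := ⟨Fintype.card F / 2, by omega⟩
  have hd : τ ^ 2 - 4 ≠ 0 := by
    rw [show τ ^ 2 - 4 = (τ - 2) * (τ - -2) by ring]
    exact mul_ne_zero (sub_ne_zero.2 h1) (sub_ne_zero.2 h1')
  have e1 : (D ^ (Fintype.card F ^ 2)) y = D y := by
    rw [show Fintype.card F ^ 2 = 1 + 2 * ((Fintype.card F - 1) * (j + 1)) by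
      rw [hj']; simp only [Nat.add_sub_cancel]; ring, pow_add, pow_one, Module.End.mul_apply, hj,
      pow_mul, FiniteField.pow_card_sub_one_eq_one _ hd, one_pow, one_smul]
  have e2 : D ^ (Fintype.card F ^ 2) = (2 : F) • G ^ (Fintype.card F ^ 2) - τ • 1 := by
    have e3 : ∀ a : F, a ^ (Fintype.card F ^ 2) = a := fun a => FiniteField.pow_card_pow 2 a
    have e4 := e3 2
    have e5 := e3 τ
    rw [hn, ← pow_mul] at e4 e5 ⊢
    rw [hD, sub_pow_char_pow_of_commute _ _ (((Commute.one_right G).smul_left _).smul_right _),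
      smul_pow, smul_pow, e4, e5, one_pow]
  rw [e2] at e1
  simp only [hD, LinearMap.sub_apply, LinearMap.smul_apply, sub_left_inj] at e1
  exact smul_right_injective V h2 e1

theorem pow_unip (G : Module.End F V) {y : V} (hy : G (G y - y) = G y - y) (n : ℕ) :
    (G ^ n) y = y + (n : F) • (G y - y) := by
  induction n with
  | zero => simp
  | succ n ih =>
    rw [pow_succ', Module.End.mul_apply, ih, map_add, map_smul, hy]
    push_cast
    module

theorem coe_pow_apply (g : f.Isom) (n : ℕ) (x : V) :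
    (g ^ n).1 x = ((g.1 : V →ₗ[F] V) ^ n) x := by
  induction n generalizing x with
  | zero => rfl
  | succ n ih => rw [pow_succ, pow_succ, Isom.mul_apply, Module.End.mul_apply, ih]; rfl

/-- a semisimple plane element times a transvection has a transvection as a power -/
theorem NoTr.key [Finite F] (hf : f.Nondeg) (h2 : (2 : F) ≠ 0) (hN : NoTr f ω) (hg : g • ω = ω)
    {τ : F} (h1 : τ ≠ 2) (h1' : τ ≠ -2) (hr : g.1 r = r)
    (h : ∀ x, ∃ c : F, g.1 (g.1 (g.1 x - x)) - τ • g.1 (g.1 x - x) + (g.1 x - x) = c • r) (x : V) :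
    g.1 (g.1 (g.1 x - x)) - τ • g.1 (g.1 x - x) + (g.1 x - x) = 0 := by
  cases nonempty_fintype F
  cases subsingleton_or_nontrivial V
  · exact Subsingleton.elim _ _
  obtain ⟨N, hN'⟩ : ∃ N, Fintype.card F ^ 2 = N + 1 :=
    ⟨_, (Nat.succ_pred_eq_of_pos (pow_pos Fintype.card_pos 2)).symm⟩
  have key : ∀ x, (2 - τ) • g.1 (g.1 ((g ^ N).1 x - x)) =
      -(g.1 (g.1 (g.1 x - x)) - τ • g.1 (g.1 x - x) + (g.1 x - x)) := fun x => by
    obtain ⟨c, hc⟩ := h x
    have hc' := congrArg g.1 hc
    rw [map_smul, hr, ← hc] at hc'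
    simp only [map_add, map_sub, map_smul] at hc hc'
    have a1 := pow_card_sq h2 (g.1 : V →ₗ[F] V) h1 h1' (y := g.1 (g.1 x - x) - (g.1 x - x)) (by
      simp only [map_sub, LinearEquiv.coe_coe]
      linear_combination (norm := module) hc')
    have a2 := pow_unip (g.1 : V →ₗ[F] V) (y := g.1 (g.1 x) - τ • g.1 x + x) (by
      simp only [map_sub, map_add, map_smul, LinearEquiv.coe_coe]
      linear_combination (norm := module) hc') (Fintype.card F ^ 2)
    rw [Nat.cast_pow, FiniteField.cast_card_eq_zero, zero_pow two_ne_zero, zero_smul, add_zero] at a2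
    rw [← coe_pow_apply] at a1 a2
    have a3 : (g ^ Fintype.card F ^ 2).1 (g.1 x) = g.1 (g.1 ((g ^ N).1 x)) := by
      rw [hN', ← Isom.mul_apply, ← pow_succ, pow_succ', pow_succ', Isom.mul_apply, Isom.mul_apply]
    simp only [map_add, map_sub, map_smul, LinearEquiv.coe_coe, a3] at a1 a2 ⊢
    linear_combination (norm := module) a2 - a1
  have h3 : (2 - τ) ≠ 0 := sub_ne_zero.2 h1.symm
  have := hN.eq_of_range hf (g := g ^ N) (z := r) (MulAction.mem_stabilizer_iff.1
    ((MulAction.stabilizer f.Isom ω).pow_mem hg N)) (fun w => by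
      obtain ⟨c, hc⟩ := h w
      refine ⟨-c / (2 - τ), g.1.injective (g.1.injective (smul_right_injective V h3 ?_))⟩
      simp only
      rw [key, hc, map_smul, map_smul, hr, hr, smul_smul, mul_div_cancel₀ _ h3, neg_smul]) x
  have h4 := key x
  rw [this, sub_self, map_zero, map_zero, smul_zero] at h4
  exact neg_eq_zero.1 h4.symm

end Cfsg.Agent.R3S
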