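import Cfsg.Agent.Lib.R3S.T9

/-!
Subgroups containing transvections: the orthogonal decomposition.
-/

set_option autoImplicit false

namespace Cfsg.Agent.R3S

open Module Cfsg.Agent.Forms Cfsg.Agent.Forms.Form Cfsg.Agent.Cls Cfsg.Agent.Deg Cfsg.Agent.MI

variable {F : Type*} [Field F] {V : Type*} [AddCommGroup V] [Module F V]
  {f : Form (Param.sp F) V} {u x y z v w e r u₁ u₂ a b c d : V} {l : F}
  {X : Type*} [MulAction f.Isom X] {ω : X} {g : f.Isom}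

theorem exists_avoid (h2 : (2 : F) ≠ 0) {α β γ δ : F} (h : α ≠ 0 ∨ β ≠ 0) (h' : γ ≠ 0 ∨ δ ≠ 0) :
    ∃ s : F, α + s * β ≠ 0 ∧ γ + s * δ ≠ 0 := by
  by_contra hc
  push Not at hc
  have k : ∀ {α β s t : F}, α ≠ 0 ∨ β ≠ 0 → s ≠ t → α + s * β = 0 → α + t * β ≠ 0 :=
    fun {α β s t} h n e e' => by
      have b0 : β = 0 := mul_left_cancel₀ (sub_ne_zero.2 n) (by linear_combination e - e')
      rw [b0, mul_zero, add_zero] at e
      exact h.elim (· e) (· b0)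
  have n1 : (0 : F) ≠ 1 := zero_ne_one
  have n2 : (0 : F) ≠ -1 := fun e => one_ne_zero (by linear_combination e)
  have n3 : (1 : F) ≠ -1 := fun e => h2 (by linear_combination e)
  by_cases a0 : α + 0 * β = 0
  · exact k h' n3 (hc 1 (k h n1 a0)) (hc (-1) (k h n2 a0))
  by_cases a1 : α + 1 * β = 0
  · exact k h' n2 (hc 0 a0) (hc (-1) (k h n3 a1))
  · exact k h' n1 (hc 0 a0) (hc 1 a1)

theorem ne_of_B (h : f.B x y ≠ 0) : y ≠ 0 := fun e => h (by simp [e])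

variable (f ω) in
/-- a common non-orthogonal centre -/
def Nr (x y : V) : Prop := ∃ c, O f ω c ∧ f.B x c ≠ 0 ∧ f.B y c ≠ 0

theorem Nr.symm (h : Nr f ω x y) : Nr f ω y x := let ⟨c, h1, h2, h3⟩ := h; ⟨c, h1, h3, h2⟩

theorem Nr.map (h : Nr f ω x y) (hg : g • ω = ω) : Nr f ω (g.1 x) (g.1 y) :=
  let ⟨c, h1, h2, h3⟩ := h
  ⟨g.1 c, h1.map hg, by rwa [Isom.map_B], by rwa [Isom.map_B]⟩

theorem exists_frame [FiniteDimensional F V] (hf : f.Nondeg) {A : Submodule F V}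
    (h3 : 3 ≤ finrank F A) (hA : ∀ x ∈ A, x ≠ 0 → ∃ y ∈ A, f.B x y ≠ 0) :
    ∃ a₁ ∈ A, ∃ a₂ ∈ A, ∃ a₃ ∈ A, ∃ x ∈ A, f.B a₁ a₂ = 1 ∧ f.B a₃ a₁ = 0 ∧ f.B a₃ a₂ = 0 ∧
      f.B x a₁ = 0 ∧ f.B x a₂ = 0 ∧ f.B x a₃ ≠ 0 := by
  obtain ⟨a₁, a1, a2⟩ := Submodule.exists_mem_ne_zero_of_ne_bot (p := A) fun e => by
    rw [e, finrank_bot] at h3; omega
  obtain ⟨y, y1, y2⟩ := hA a₁ a1 a2
  have b1 : f.B a₁ ((f.B a₁ y)⁻¹ • y) = 1 := by simp [y2]
  have b2 := A.smul_mem (f.B a₁ y)⁻¹ y1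
  generalize (f.B a₁ y)⁻¹ • y = a₂ at b1 b2
  obtain ⟨a₃, c1, c2, c3⟩ := exists_orth_of_lt hf (S := Submodule.span F {a₁, a₂}) (T := A) (by
    have := finrank_pair_le (F := F) a₁ a₂
    omega)
  obtain ⟨x, x1, x2⟩ := hA a₃ c1 c2
  obtain ⟨w, hw, r, hr, rfl⟩ := exists_dec' (show f.B a₁ a₂ ≠ 0 by simp [b1]) x
  rw [B_add_right, c3 w hw, zero_add] at x2
  exact ⟨a₁, a1, a₂, b2, a₃, c1, r, (Submodule.add_mem_iff_right _
    (Submodule.span_le.2 (Set.pair_subset a1 b2) hw)).1 x1, b1, (mem_orth_pair.1 c3).1,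
    (mem_orth_pair.1 c3).2, (mem_orth_pair.1 hr).1, (mem_orth_pair.1 hr).2, B_ne_symm x2⟩

theorem wreath_aux (hf : f.Nondeg) (h2 : (2 : F) ≠ 0) {A B : Submodule F V}
    (hAB : ∀ x ∈ A, ∀ y ∈ B, f.B x y = 0) {a₁ a₂ a₃ b₁ b₂ b₃ b : V} (m1 : a₁ ∈ A) (m2 : a₂ ∈ A)
    (m3 : a₃ ∈ A) (n1 : b₁ ∈ B) (n2 : b₂ ∈ B) (n3 : b₃ ∈ B) (n4 : b ∈ B) {s t : F}
    (hs : s * s = 1) (ht : t ≠ 0) (p1 : f.B a₁ a₂ = s) (p2 : f.B a₃ a₁ = 0) (p3 : f.B a₃ a₂ = 0)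
    (q1 : f.B b₁ b₂ = t) (q2 : f.B b₃ b₁ = 0) (q3 : f.B b₃ b₂ = 0) (q4 : f.B b b₁ = 0)
    (q5 : f.B b b₂ = 0) (q6 : f.B b b₃ ≠ 0) {c₁ c₂ c₃ : F} (hc : c₁ * c₂ = 0 ∨ c₁ * c₂ = 1)
    (hx : x ∈ A) (h : x + ((c₁ * f.B x (a₁ + b₁)) • (a₁ + b₁) + (c₂ * f.B x (a₂ + b₂)) • (a₂ + b₂) +
      (c₃ * f.B x (a₃ + b₃)) • (a₃ + b₃)) ∈ (A : Set V) ∪ B) :
    c₁ * f.B x (a₁ + b₁) = 0 ∧ c₂ * f.B x (a₂ + b₂) = 0 ∧ c₃ * f.B x (a₃ + b₃) = 0 := by
  have s1 := f.sp_symm a₁ a₂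
  have s2 := f.sp_symm b₁ b₂
  rw [p1] at s1
  rw [q1] at s2
  rcases h with h | h
  · have k1 := hAB _ h _ n1
    have k2 := hAB _ h _ n2
    have k3 := hAB _ h _ n4
    generalize c₁ * f.B x (a₁ + b₁) = γ₁ at *
    generalize c₂ * f.B x (a₂ + b₂) = γ₂ at *
    generalize c₃ * f.B x (a₃ + b₃) = γ₃ at *
    simp only [B_add_left, B_smul_left, hAB _ hx _ n1, hAB _ hx _ n2, hAB _ hx _ n4, hAB _ m1 _ n1,
      hAB _ m1 _ n2, hAB _ m1 _ n4, hAB _ m2 _ n1, hAB _ m2 _ n2, hAB _ m2 _ n4, hAB _ m3 _ n1,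
      hAB _ m3 _ n2, hAB _ m3 _ n4, sp_B_self, q1, q2, q3, s2, f.B_eq_zero_symm q4,
      f.B_eq_zero_symm q5] at k1 k2 k3
    exact ⟨mul_right_cancel₀ ht (by linear_combination k2),
      mul_right_cancel₀ ht (by linear_combination -k1),
      mul_right_cancel₀ (B_ne_symm q6) (by linear_combination k3)⟩
  · have k1 := f.B_eq_zero_symm (hAB _ m1 _ h)
    have k2 := f.B_eq_zero_symm (hAB _ m2 _ h)
    have k3 := f.B_eq_zero_symm (hAB _ m3 _ h)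
    have hBA : ∀ y ∈ B, ∀ x ∈ A, f.B y x = 0 := fun y hy x hx => f.B_eq_zero_symm (hAB x hx y hy)
    simp only [B_add_left, B_add_right, B_smul_left, hAB _ hx _ n1, hAB _ hx _ n2, hAB _ hx _ n3,
      hBA _ n1 _ m1, hBA _ n1 _ m2, hBA _ n1 _ m3, hBA _ n2 _ m1, hBA _ n2 _ m2, hBA _ n2 _ m3,
      hBA _ n3 _ m1, hBA _ n3 _ m2, hBA _ n3 _ m3, sp_B_self, p1, p2, p3, s1, f.B_eq_zero_symm p2,
      f.B_eq_zero_symm p3, add_zero] at k1 k2 k3 ⊢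
    have k4 : (1 + c₁ * c₂) * f.B x a₁ = 0 := by
      linear_combination k1 + (c₂ * s) * k2 - c₁ * c₂ * f.B x a₁ * hs
    have k5 : f.B x a₁ = 0 := (mul_eq_zero.1 k4).resolve_left (by
      rcases hc with e | e <;> rw [e]
      · simp
      · rwa [one_add_one_eq_two])
    have k6 : f.B x a₂ = 0 := by rw [k5] at k2; linear_combination k2
    have k7 : f.B x a₃ = 0 := by linear_combination k3
    simp [k5, k6, k7]

namespace RA

variable [Finite V] [Finite F] (R : RA f ω)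
include R

theorem line (hc : O f ω c) (hd : O f ω d) (hb : f.B c d ≠ 0) (s : F) : O f ω (c + s • d) :=
  R.hyp hc hd hb (Submodule.mem_span_pair.2 ⟨1, s, by simp⟩)
    (ne_of_B (f := f) (x := d) (by simpa [sp_B_self] using B_ne_symm hb))

theorem path (hc : O f ω c) (hd : O f ω d) (hb : f.B c d ≠ 0) (h1 : f.B x c ≠ 0)
    (h2 : f.B z d ≠ 0) : Nr f ω x z := by
  obtain ⟨s, s1, s2⟩ := exists_avoid R.two (β := f.B x d) (γ := f.B z c) (Or.inl h1) (Or.inr h2)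
  exact ⟨_, R.line hc hd hb s, by simpa using s1, by simpa using s2⟩

theorem nr_trans (hy : O f ω y) (h : Nr f ω x y) (h' : Nr f ω y z) : Nr f ω x z := by
  obtain ⟨c, c1, c2, c3⟩ := h
  obtain ⟨d, d1, d2, d3⟩ := h'
  by_cases hb : f.B c d = 0
  · obtain ⟨s, s1, s2⟩ := exists_avoid R.two (β := f.B x y) (γ := f.B c d) (Or.inl c2) (Or.inr d2)
    exact R.path (R.line c1 hy (B_ne_symm c3) s) d1 (by simpa using s2) (by simpa using s1) d3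
  · exact R.path c1 d1 hb c2 d3

theorem nr_of_B (hx : O f ω x) (hy : O f ω y) (h : f.B x y ≠ 0) : Nr f ω x y :=
  ⟨_, R.line hx hy h 1, by simpa [sp_B_self] using h, by simpa [sp_B_self] using B_ne_symm h⟩

theorem three_aux (hx : O f ω x) (hb : f.B y x = 0) (c1 : O f ω c) (c2 : f.B x c ≠ 0)
    (c3 : f.B y c ≠ 0) (c4 : f.B (x + y) c = 0) (d1 : O f ω d) (d2 : f.B (x + y) d ≠ 0)
    (d3 : f.B x d ≠ 0) : ∃ e, O f ω e ∧ f.B x e ≠ 0 ∧ f.B y e ≠ 0 ∧ f.B (x + y) e ≠ 0 := by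
  by_cases d4 : f.B y d = 0
  swap
  · exact ⟨d, d1, d3, d4, d2⟩
  have key : ∀ c, O f ω c → f.B x c ≠ 0 → f.B y c ≠ 0 → f.B (x + y) c = 0 → f.B c d ≠ 0 →
      ∃ e, O f ω e ∧ f.B x e ≠ 0 ∧ f.B y e ≠ 0 ∧ f.B (x + y) e ≠ 0 := fun c c1 c2 c3 c4 c5 => by
    obtain ⟨s, s1, s2⟩ := exists_avoid R.two (β := f.B x d) (γ := f.B (x + y) c) (Or.inl c2)
      (Or.inr d2)
    exact ⟨_, R.line c1 d1 c5 s, by simpa using s1, by simpa [d4] using c3, by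
      rwa [B_add_right, sp_B_smul_right]⟩
  by_cases h : f.B c d = 0
  · exact key _ (R.line c1 hx (B_ne_symm c2) 1) (by simpa [sp_B_self] using c2)
      (by simpa [hb] using c3) (by rw [B_add_right, c4]; simp [sp_B_self, hb]) (by simpa [h] using d3)
  · exact key c c1 c2 c3 c4 h

theorem add (hx : O f ω x) (hy : O f ω y) (h : Nr f ω x y) (h0 : x + y ≠ 0) :
    O f ω (x + y) ∧ Nr f ω (x + y) x := by
  by_cases hb : f.B x y = 0
  swap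
  · exact ⟨by simpa using R.line hx hy hb 1, y, hy, by simpa [sp_B_self] using hb, hb⟩
  obtain ⟨e, e1, e2, e3, e4⟩ :
      ∃ e, O f ω e ∧ f.B x e ≠ 0 ∧ f.B y e ≠ 0 ∧ f.B (x + y) e ≠ 0 := by
    obtain ⟨c, c1, c2, c3⟩ := h
    by_cases c4 : f.B (x + y) c = 0
    swap
    · exact ⟨c, c1, c2, c3, c4⟩
    obtain ⟨d, d1, d2⟩ := R.exists_O hx _ h0
    by_cases d3 : f.B x d = 0
    · rw [add_comm] at c4 d2 ⊢
      obtain ⟨e, e1, e2, e3, e4⟩ := R.three_aux hy hb c1 c3 c2 c4 d1 d2 (by simpa [d3] using d2)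
      exact ⟨e, e1, e3, e2, e4⟩
    · exact R.three_aux hx (f.B_eq_zero_symm hb) c1 c2 c3 c4 d1 d2 d3
  refine ⟨R.hyp e1 (R.line (R.line e1 hx (B_ne_symm e2) 1) hy (by simpa [hb] using B_ne_symm e3) 1)
    (by simpa [sp_B_self] using B_ne_symm e4) (Submodule.mem_span_pair.2 ⟨-1, 1, by module⟩) h0,
    e, e1, e4, e2⟩

/-- the connected component of a centre -/
def cls (ha : O f ω a) : Submodule F V where
  carrier := {x | x = 0 ∨ O f ω x ∧ Nr f ω x a}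
  zero_mem' := Or.inl rfl
  add_mem' := by
    rintro x y (rfl | hx) (rfl | hy)
    · simp
    · exact Or.inr (by rwa [zero_add])
    · exact Or.inr (by rwa [add_zero])
    · refine or_iff_not_imp_left.2 fun h0 => ?_
      obtain ⟨h1, h2⟩ := R.add hx.1 hy.1 (R.nr_trans ha hx.2 hy.2.symm) h0
      exact ⟨h1, R.nr_trans hx.1 h2 hx.2⟩
  smul_mem' := by
    rintro s x (rfl | ⟨hx, c, c1, c2, c3⟩)
    · simp
    · by_cases hs : s = 0
      · simp [hs]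
      · exact Or.inr ⟨hx.smul hs, c, c1, by simp [hs, c2], c3⟩

theorem self_mem (ha : O f ω a) : a ∈ R.cls ha :=
  let ⟨c, c1, c2⟩ := R.exists_O ha a ha.1
  Or.inr ⟨ha, c, c1, c2, c2⟩

theorem mem_of_B (ha : O f ω a) (hx : x ∈ R.cls ha) (hy : O f ω y) (h : f.B x y ≠ 0) :
    y ∈ R.cls ha := by
  rcases hx with rfl | hx
  · simp at h
  · exact Or.inr ⟨hy, R.nr_trans hx.1 (R.nr_of_B hx.1 hy h).symm hx.2⟩

theorem exists_B (ha : O f ω a) (x : V) (hx : x ∈ R.cls ha) (h0 : x ≠ 0) :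
    ∃ y ∈ R.cls ha, f.B x y ≠ 0 :=
  let ⟨c, c1, c2⟩ := R.exists_O ha x h0
  ⟨c, R.mem_of_B ha hx c1 c2, c2⟩

theorem mem_of_common (ha : O f ω a) (hb : O f ω b) (h1 : y ∈ R.cls ha) (h2 : y ∈ R.cls hb)
    (h0 : y ≠ 0) : b ∈ R.cls ha :=
  Or.inr ⟨hb, R.nr_trans (h1.resolve_left h0).1 (h2.resolve_left h0).2.symm (h1.resolve_left h0).2⟩

theorem perp (ha : O f ω a) (hb : O f ω b) (h : b ∉ R.cls ha) (x : V) (hx : x ∈ R.cls ha) (y : V)
    (hy : y ∈ R.cls hb) : f.B x y = 0 := by_contra fun h' =>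
  h (R.mem_of_common ha hb (R.mem_of_B ha hx (hy.resolve_left (ne_of_B h')).1 h') hy (ne_of_B h'))

theorem not_mem_symm (ha : O f ω a) (hb : O f ω b) (h : b ∉ R.cls ha) : a ∉ R.cls hb :=
  fun h' => h (R.mem_of_common ha hb (R.self_mem ha) h' ha.1)

theorem exists_move (ha : O f ω a) (h : R.cls ha ≠ ⊤) :
    ∃ g : f.Isom, g • ω = ω ∧ g.1 a ∉ R.cls ha := by
  by_contra hc
  push Not at hc
  refine h (R.irred (fun g hg v hv => ?_) ((Submodule.ne_bot_iff _).2 ⟨a, R.self_mem ha, ha.1⟩))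
  rcases hv with rfl | hv
  · simp
  · have := (hc g hg).resolve_left (ha.map hg).1
    exact Or.inr ⟨hv.1.map hg, R.nr_trans this.1 (hv.2.map hg) this.2⟩

theorem mem_or (ha : O f ω a) (hb : O f ω b) (h : b ∉ R.cls ha) (hc : O f ω c) :
    c ∈ R.cls ha ∨ c ∈ R.cls hb := by
  by_contra h'
  push Not at h'
  obtain ⟨a', a1, a2⟩ := R.exists_B ha a (R.self_mem ha) ha.1
  obtain ⟨b', b1, b2⟩ := R.exists_B hb b (R.self_mem hb) hb.1
  obtain ⟨c', c1, c2⟩ := R.exists_B hc c (R.self_mem hc) hc.1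
  have ab := R.perp ha hb h
  have ac := R.perp ha hc h'.1
  have bc := R.perp hb hc h'.2
  have ma := R.self_mem ha
  have mb := R.self_mem hb
  have mc := R.self_mem hc
  have p1 : f.B a' (a + b) ≠ 0 := by simpa [ab _ a1 _ mb] using B_ne_symm a2
  have p2 : f.B b' (a + b) ≠ 0 := by simpa [f.B_eq_zero_symm (ab _ ma _ b1)] using B_ne_symm b2
  have q1 : f.B a' (a + b + c) ≠ 0 := by simpa [ac _ a1 _ mc] using p1
  have q2 : f.B b' (a + b + c) ≠ 0 := by simpa [bc _ b1 _ mc] using p2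
  have q3 : f.B c' (a + b + c) ≠ 0 := by
    simpa [f.B_eq_zero_symm (ac _ ma _ c1), f.B_eq_zero_symm (bc _ mb _ c1)] using B_ne_symm c2
  obtain ⟨g, s, g1, g2, g3⟩ := R.cj ha (ne_of_B p1) (ne_of_B q1)
    (fun o => h (R.mem_of_common ha hb (R.mem_of_B ha a1 o p1) (R.mem_of_B hb b1 o p2) o.1))
    (fun o => h (R.mem_of_common ha hb (R.mem_of_B ha a1 o q1) (R.mem_of_B hb b1 o q2) o.1))
  have key : ∀ {d d' : V} (hd : O f ω d), d' ∈ R.cls hd → f.B d' (a + b + c) ≠ 0 →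
      g.1 a ∈ R.cls hd ∨ g.1 b ∈ R.cls hd := fun {d d'} hd d1 d2 => by
    have : f.B d' (g.1 a) + f.B d' (g.1 b) ≠ 0 := by
      rw [← B_add_right, ← map_add, g3, sp_B_smul_right]
      exact mul_ne_zero g2 d2
    by_cases e : f.B d' (g.1 a) = 0
    · exact Or.inr (R.mem_of_B hd d1 (hb.map g1) (by rwa [e, zero_add] at this))
    · exact Or.inl (R.mem_of_B hd d1 (ha.map g1) e)
  have na := (ha.map g1).1
  have nb := (hb.map g1).1
  rcases key ha a1 q1 with k1 | k1 <;> rcases key hb b1 q2 with k2 | k2 <;>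
    rcases key hc c1 q3 with k3 | k3
  · exact h (R.mem_of_common ha hb k1 k2 na)
  · exact h (R.mem_of_common ha hb k1 k2 na)
  · exact h'.1 (R.mem_of_common ha hc k1 k3 na)
  · exact h'.2 (R.mem_of_common hb hc k2 k3 nb)
  · exact h'.2 (R.mem_of_common hb hc k2 k3 na)
  · exact h'.1 (R.mem_of_common ha hc k1 k3 nb)
  · exact h (R.mem_of_common ha hb k1 k2 nb)
  · exact h (R.mem_of_common ha hb k1 k2 nb)

theorem finrank_le (ha : O f ω a) (hb : O f ω b) (hg : g • ω = ω) (h : g.1 a ∈ R.cls hb) :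
    finrank F (R.cls ha) ≤ finrank F (R.cls hb) := by
  rw [← LinearEquiv.finrank_map_eq g.1]
  refine Submodule.finrank_mono ?_
  rintro _ ⟨x, rfl | hx, rfl⟩
  · simp
  · have := h.resolve_left (ha.map hg).1
    exact Or.inr ⟨hx.1.map hg, R.nr_trans this.1 (hx.2.map hg) this.2⟩

theorem false (ha : O f ω a) (z0 : z ≠ 0) (hz : ¬ O f ω z) : False := by
  obtain ⟨g, g1, g2⟩ := R.exists_move ha fun e =>
    hz ((e.ge (Submodule.mem_top (x := z))).resolve_left z0).1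
  have hb := ha.map g1
  have d1 := R.finrank_le ha hb g1 (R.self_mem hb)
  have d2 := R.finrank_le hb ha (g := g⁻¹) (inv_smul_eq_iff.2 g1.symm)
    (by rw [Isom.inv_apply]; exact R.self_mem ha)
  have d3 : f.orth (R.cls ha ⊔ R.cls hb) = ⊥ := (Submodule.eq_bot_iff _).2 fun x hx =>
    by_contra fun x0 => by
      obtain ⟨c, c1, c2⟩ := R.exists_O ha x x0
      exact c2 (hx c ((R.mem_or ha hb g2 c1).elim (Submodule.mem_sup_left ·)
        (Submodule.mem_sup_right ·)))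
  have d4 := R.nd.finrank_add_orth (R.cls ha ⊔ R.cls hb)
  have d5 := Submodule.finrank_add_le_finrank_add_finrank (R.cls ha) (R.cls hb)
  have d6 := R.dim
  rw [d3, finrank_bot] at d4
  obtain ⟨a₁, m1, a₂, m2, a₃, m3, x, m4, p1, p2, p3, p4, p5, p6⟩ :=
    exists_frame R.nd (A := R.cls ha) (by omega) (R.exists_B ha)
  obtain ⟨b₂, n2, b₁, n1, b₃, n3, y, n4, q1, q3, q2, q5, q4, q6⟩ :=
    exists_frame R.nd (A := R.cls hb) (by omega) (R.exists_B hb)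
  have ab := R.perp ha hb g2
  have ba := R.perp hb ha (R.not_mem_symm ha hb g2)
  have q7 : f.B b₁ b₂ = -1 := by rw [f.sp_symm, q1]
  have p7 : f.B a₂ a₁ = -1 := by rw [f.sp_symm, p1]
  refine R.rk.chain (D := (R.cls ha : Set V) ∪ R.cls hb) (z₁ := a₁ + b₁) (z₂ := a₂ + b₂)
    (z₃ := a₃ + b₃) (fun k hk v hv => ?_) ?_ ?_ ?_ (fun c₁ c₂ c₃ hc v hv hm => ?_) (Or.inl m2)
    (Or.inl m1) (Or.inl m4) ?_ ?_ ?_ ?_ ?_ ?_
  · rcases hv with (rfl | hv) | (rfl | hv)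
    · exact Or.inl (Or.inl (map_zero _))
    · exact R.mem_or ha hb g2 (hv.1.map hk)
    · exact Or.inl (Or.inl (map_zero _))
    · exact R.mem_or ha hb g2 (hv.1.map hk)
  · simp [p7, q1, ab _ m2 _ n1, ba _ n2 _ m1]
  · simp [p2, q2, ab _ m3 _ n1, ba _ n3 _ m1]
  · simp [p3, q3, ab _ m3 _ n2, ba _ n3 _ m2]
  · rcases hv with hv | hv
    · exact wreath_aux R.nd R.two ab m1 m2 m3 n1 n2 n3 n4 (one_mul 1) (neg_ne_zero.2 one_ne_zero)
        p1 p2 p3 q7 q2 q3 q4 q5 q6 hc hv hm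
    · rw [add_comm a₁, add_comm a₂, add_comm a₃] at hm ⊢
      exact wreath_aux R.nd R.two ba n1 n2 n3 m1 m2 m3 m4 (by simp) one_ne_zero
        q7 q2 q3 p1 p2 p3 p4 p5 p6 hc hv hm.symm
  · simp [p7, ab _ m2 _ n1]
  · simp [sp_B_self, ab _ m1 _ n1]
  · simp [p1, ab _ m1 _ n2]
  · simp [p4, ab _ m4 _ n1]
  · simp [p5, ab _ m4 _ n2]
  · simp [p6, ab _ m4 _ n3]

end RA

end Cfsg.Agent.R3S
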