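import Cfsg.Agent.Lib.R3S.T10

/-!
Primitive rank three actions of symplectic groups in odd characteristic.
-/

set_option autoImplicit false

namespace Cfsg.Agent.R3S

open Module Cfsg.Agent.Forms Cfsg.Agent.Forms.Form Cfsg.Agent.Cls Cfsg.Agent.Deg Cfsg.Agent.MI
open MulAction LinearAlgebra.Projectivization

section general

variable {G X Y : Type*} [Group G] [MulAction G X] [MulAction G Y]

theorem sum_fix [Fintype G] [Finite X] [Finite Y] :
    ∑ g : G, Nat.card (fixedBy X g) * Nat.card (fixedBy Y g) =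
      Nat.card (orbitRel.Quotient G (X × Y)) * Nat.card G := by
  classical
  cases nonempty_fintype X
  cases nonempty_fintype Y
  have := sum_card_fixedBy_eq_card_orbits_mul_card_group G (X × Y)
  simp only [← Nat.card_eq_fintype_card] at this
  rw [← this]
  refine Finset.sum_congr rfl fun g _ => ?_
  rw [← Nat.card_prod]
  exact Nat.card_congr ((Equiv.subtypeProdEquivProd).symm.trans (Equiv.subtypeEquivRight fun p => by
    simp [Prod.ext_iff]))

theorem card_eq_of_orbits [Finite G] [Finite X] [Finite Y]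
    (h : Nat.card (orbitRel.Quotient G (X × X)) + Nat.card (orbitRel.Quotient G (Y × Y)) ≤
      2 * Nat.card (orbitRel.Quotient G (X × Y))) : Nat.card X = Nat.card Y := by
  cases nonempty_fintype G
  have h1 := sum_fix (G := G) (X := X) (Y := X)
  have h2 := sum_fix (G := G) (X := Y) (Y := Y)
  have h3 := sum_fix (G := G) (X := X) (Y := Y)
  have h4 : ∑ g : G, ((Nat.card (fixedBy X g) : ℤ) - Nat.card (fixedBy Y g)) ^ 2 ≤ 0 := by
    zify at h h1 h2 h3
    simp only [sub_sq]
    simp only [Finset.sum_add_distrib, Finset.sum_sub_distrib, pow_two, mul_assoc,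
      ← Finset.mul_sum, h1, h2, h3]
    nlinarith [Int.natCast_nonneg (Nat.card G)]
  have h5 := (Finset.single_le_sum (f := fun g : G =>
    ((Nat.card (fixedBy X g) : ℤ) - Nat.card (fixedBy Y g)) ^ 2) (fun _ _ => sq_nonneg _)
    (Finset.mem_univ 1)).trans h4
  simp only [fixedBy_one_eq_univ, Nat.card_univ] at h5
  exact_mod_cast sub_eq_zero.1 (pow_eq_zero_iff two_ne_zero |>.1 (le_antisymm h5 (sq_nonneg _)))

theorem card_orbits_le [IsPretransitive G X] [Finite X] (x : X) :
    Nat.card (orbitRel.Quotient G (X × X)) ≤ Nat.card (orbitRel.Quotient (stabilizer G x) X) := by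
  refine Nat.card_le_card_of_surjective (fun c => Quotient.mk _ (x, c.out)) fun c => ?_
  obtain ⟨⟨a, b⟩, rfl⟩ := Quotient.exists_rep c
  obtain ⟨g, rfl⟩ := exists_smul_eq G x a
  obtain ⟨h, hh⟩ := Quotient.mk_out (s := orbitRel (stabilizer G x) X) (g⁻¹ • b)
  refine ⟨Quotient.mk _ (g⁻¹ • b), Quotient.sound ⟨h * g⁻¹, Prod.ext ?_ ?_⟩⟩
  · change ((h : G) * g⁻¹) • g • x = x
    rw [mul_smul, inv_smul_smul, h.2]
  · change ((h : G) * g⁻¹) • b = _
    rw [mul_smul]
    exact hh

theorem pigeon {α : Type*} [Finite α] (h : Nat.card α ≤ 3) (a b c d : α) :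
    a = b ∨ a = c ∨ a = d ∨ b = c ∨ b = d ∨ c = d := by
  classical
  by_contra hc
  push Not at hc
  cases nonempty_fintype α
  have := Finset.card_le_univ {a, b, c, d}
  rw [Finset.card_eq_four.2 ⟨a, b, c, d, hc.1, hc.2.1, hc.2.2.1, hc.2.2.2.1, hc.2.2.2.2.1,
    hc.2.2.2.2.2, rfl⟩, ← Nat.card_eq_fintype_card] at this
  omega

theorem three_le {α : Type*} [Finite α] {a b c : α} (h1 : a ≠ b) (h2 : a ≠ c) (h3 : b ≠ c) :
    3 ≤ Nat.card α := by
  classical
  cases nonempty_fintype α
  have := Finset.card_le_univ {a, b, c}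
  rwa [Finset.card_eq_three.2 ⟨a, b, c, h1, h2, h3, rfl⟩, ← Nat.card_eq_fintype_card] at this

end general

variable {F : Type*} [Field F] {V : Type*} [AddCommGroup V] [Module F V]
  {f : Form (Param.sp F) V} {X : Type*} [MulAction f.Isom X] {ω : X} [Finite F] [Finite V]

theorem card_orbits_proj (hf : f.Nondeg) (h3 : 3 ≤ finrank F V) :
    Nat.card (orbitRel.Quotient f.Isom (ℙ F V × ℙ F V)) ≤ 3 := by
  have : Nontrivial V := (finrank_pos_iff (R := F)).1 (by omega)
  obtain ⟨u, hu⟩ := exists_ne (0 : V)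
  obtain ⟨e, he⟩ := hf.exists_hypPair (f.sp_Q u) hu
  obtain ⟨y, y1, -, y2⟩ := exists_mem_Cs_sp hf h3 hu
  have e0 : e ≠ 0 := ne_of_B (f := f) (x := u) (by simp [he.Bue])
  have y0 : y ≠ 0 := by rintro rfl; exact y2 (zero_mem _)
  refine (Nat.card_le_card_of_surjective (fun i : Fin 3 => Quotient.mk _
    (Projectivization.mk F u hu, ![Projectivization.mk F u hu, Projectivization.mk F e e0,
      Projectivization.mk F y y0] i)) fun c => ?_).trans (by simp)
  obtain ⟨⟨a, b⟩, rfl⟩ := Quotient.exists_rep c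
  induction a using Projectivization.ind with | h a ha =>
  induction b using Projectivization.ind with | h b hb =>
  have key : ∀ (g : f.Isom) (v : V) (hv : v ≠ 0) (s : F), g.1 a = u → g.1 (s • b) = v →
      Quotient.mk (orbitRel f.Isom (ℙ F V × ℙ F V))
        (Projectivization.mk F u hu, Projectivization.mk F v hv) =
      Quotient.mk _ (Projectivization.mk F a ha, Projectivization.mk F b hb) :=
    fun g v hv s h1 h2 => Quotient.sound ⟨g, Prod.ext
      ((Projectivization.mk_eq_mk_iff' F _ _ _ _).2 ⟨1, by rw [one_smul]; exact h1.symm⟩)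
      ((Projectivization.mk_eq_mk_iff' F _ _ _ _).2 ⟨s, by rw [← h2, map_smul]; rfl⟩).symm⟩
  by_cases h1 : a ∈ F ∙ b
  · obtain ⟨s, hs⟩ := Submodule.mem_span_singleton.1 h1
    obtain ⟨g, hg⟩ := hf.witt_one ha hu (by simp only [sp_B_self]) (by simp only [sp_Q])
    exact ⟨0, key g u hu s hg (hs ▸ hg)⟩
  by_cases h2 : f.B a b = 0
  · obtain ⟨g, g1, g2⟩ := hf.witt_two (x := a) (x' := b) (y := u) (y' := y)
      ((LinearIndependent.pair_iff' ha).2 fun s e =>
        not_mem_span_symm hb h1 (Submodule.mem_span_singleton.2 ⟨s, e⟩))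
      ((LinearIndependent.pair_iff' hu).2 fun s e => y2 (Submodule.mem_span_singleton.2 ⟨s, e⟩))
      (by simp only [sp_B_self]) (by simp only [sp_B_self]) (by rw [h2, f.B_eq_zero_symm y1])
      (by simp only [sp_Q]) (by simp only [sp_Q])
    exact ⟨2, key g y y0 1 g1 (by rwa [one_smul])⟩
  · obtain ⟨g, g1, g2⟩ := hf.witt_hypPair (hypPair_of_ne (f.sp_Q a) (f.sp_Q b) h2) he
    exact ⟨1, key g e e0 _ g1 g2⟩

theorem card_of_not_cj [Finite X] [IsPretransitive f.Isom X] (hf : f.Nondeg) (h3 : 3 ≤ finrank F V)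
    (hr : Nat.card (orbitRel.Quotient (stabilizer f.Isom ω) X) ≤ 3) {x y z : V} (hx : x ≠ 0)
    (hy : y ≠ 0) (hz : z ≠ 0) (h1 : ¬ Cj f ω x y) (h2 : ¬ Cj f ω x z) (h3' : ¬ Cj f ω y z) :
    Nat.card X * (Nat.card F - 1) = Nat.card V - 1 := by
  have key : ∀ {x y : V} (hx : x ≠ 0) (hy : y ≠ 0), ¬ Cj f ω x y →
      Quotient.mk (orbitRel f.Isom (X × ℙ F V)) (ω, Projectivization.mk F x hx) ≠
        Quotient.mk _ (ω, Projectivization.mk F y hy) := fun {x y} hx hy h e => by
    obtain ⟨g, hg⟩ := Quotient.exact e.symm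
    obtain ⟨s, hs⟩ := (Projectivization.mk_eq_mk_iff F _ _ _ _).1 (congrArg Prod.snd hg)
    exact h ⟨g, s, congrArg Prod.fst hg, s.ne_zero, hs.symm⟩
  have a1 : 3 ≤ Nat.card (orbitRel.Quotient f.Isom (X × ℙ F V)) :=
    three_le (key hx hy h1) (key hx hz h2) (key hy hz h3')
  have a2 := card_orbits_proj hf h3
  have a3 := card_orbits_le (G := f.Isom) ω
  rw [card_eq_of_orbits (G := f.Isom) (X := X) (Y := ℙ F V) (by omega), Projectivization.card F V]

omit [Finite F] in
theorem card_le_of_cover [Finite X] (h2 : (2 : F) ≠ 0) {l l' : F}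
    (h : ∀ x : X, x = ω ∨ (∃ v, v ≠ 0 ∧ x = str f v l • ω) ∨ ∃ v, v ≠ 0 ∧ x = str f v l' • ω) :
    Nat.card X ≤ Nat.card V := by
  classical
  cases nonempty_fintype X
  cases nonempty_fintype V
  have key : ∀ l : F, 2 * ((Finset.univ.erase (0 : V)).image fun v => str f v l • ω).card ≤
      (Finset.univ.erase (0 : V)).card := fun l => Finset.mul_card_image_le_card _ _ fun x hx => by
    obtain ⟨v, hv, rfl⟩ := Finset.mem_image.1 hx
    have v0 := (Finset.mem_erase.1 hv).1
    rw [← Finset.card_pair (show v ≠ -v from fun e => v0 (smul_right_injective V h2 (by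
      simp only [two_smul, add_zero]; exact add_eq_zero_iff_eq_neg.2 e)))]
    refine Finset.card_le_card (Finset.insert_subset ?_ (Finset.singleton_subset_iff.2 ?_))
    · simp [v0]
    · simp [v0, str_neg]
  have k1 := key l
  have k2 := key l'
  have k3 := (Finset.card_le_card (s := Finset.univ) (t := insert ω
    (((Finset.univ.erase (0 : V)).image fun v => str f v l • ω) ∪
      ((Finset.univ.erase (0 : V)).image fun v => str f v l' • ω))) fun x _ => by
      rcases h x with rfl | ⟨v, hv, rfl⟩ | ⟨v, hv, rfl⟩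
      · simp
      · exact Finset.mem_insert_of_mem (Finset.mem_union_left _
          (Finset.mem_image.2 ⟨v, by simp [hv], rfl⟩))
      · exact Finset.mem_insert_of_mem (Finset.mem_union_right _
          (Finset.mem_image.2 ⟨v, by simp [hv], rfl⟩))).trans
    ((Finset.card_insert_le _ _).trans (Nat.add_le_add_right (Finset.card_union_le _ _) 1))
  have k4 := Finset.card_erase_add_one (Finset.mem_univ (0 : V))
  rw [Finset.card_univ, ← Nat.card_eq_fintype_card] at k3 k4
  omega

theorem main [Finite X] [IsPreprimitive f.Isom X] (hf : f.Nondeg) (h2 : (2 : F) ≠ 0) {j : ℕ}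
    (hd : finrank F V = 2 * j + 6) (hn : ∀ x : X, negI f • x = x)
    (hr : Nat.card (orbitRel.Quotient (stabilizer f.Isom ω) X) = 3) :
    Nat.card X * (Nat.card F - 1) = Nat.card V - 1 := by
  by_contra hc
  have : Nontrivial (Quotient (orbitRel (stabilizer f.Isom ω) X)) :=
    Finite.one_lt_card_iff_nontrivial.1 (lt_of_lt_of_eq (by norm_num) hr.symm)
  have : Nontrivial X := (Quotient.mk_surjective (s := orbitRel (stabilizer f.Isom ω) X)).nontrivial
  have hmax := IsPreprimitive.isCoatom_stabilizer_of_isPreprimitive f.Isom ω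
  have pg : ∀ {x y : X}, Quotient.mk (orbitRel (stabilizer f.Isom ω) X) x = Quotient.mk _ y →
      ∃ h : f.Isom, h • ω = ω ∧ h • x = y := fun e =>
    let ⟨h, hh⟩ := Quotient.exact e.symm
    ⟨h, h.2, hh⟩
  have dc : ∀ {g g' : f.Isom}, Quotient.mk (orbitRel (stabilizer f.Isom ω) X) (g • ω) =
      Quotient.mk _ (g' • ω) → DC ω g g' := fun {g g'} e =>
    let ⟨h, h1, h2⟩ := pg e
    ⟨h, g⁻¹ * h⁻¹ * g', h1, by rw [mul_smul, ← h2, mul_smul, inv_smul_smul, inv_smul_smul], by group⟩
  have rk : Rk f ω := fun g₀ g₁ g₂ g₃ => (pigeon hr.le _ _ _ _).imp dc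
    (Or.imp dc (Or.imp dc (Or.imp dc (Or.imp dc dc))))
  by_cases hN : NoTr f ω
  · refine R0.false (f := f) (ω := ω) ⟨hf, h2, by omega, hN, fun z l z' l' a b c d => by_contra fun h => ?_, hmax, rk⟩
    refine R1.false (f := f) (X := X) (j := j) ⟨hf, h2, hd, fun x => ?_, card_le_of_cover (f := f) (ω := ω) h2 (l := l)
      (l' := l') fun x => ?_, hn⟩ ω
    · obtain ⟨g, rfl⟩ := exists_smul_eq f.Isom ω x
      exact hN.smul g
    · have k : ∀ {z : V} {l : F}, z ≠ 0 → l ≠ 0 → Quotient.mk (orbitRel (stabilizer f.Isom ω) X) ω ≠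
          Quotient.mk _ (str f z l • ω) := fun a b e =>
        let ⟨h, h1, h2⟩ := pg e
        (hN _ _ (h2.symm.trans h1)).elim a b
      have k' : ∀ {z : V} {l : F}, z ≠ 0 → Quotient.mk (orbitRel (stabilizer f.Isom ω) X)
          (str f z l • ω) = Quotient.mk _ x → ∃ v, v ≠ 0 ∧ x = str f v l • ω := fun a e =>
        let ⟨h, h1, h2⟩ := pg e
        ⟨_, by simpa using a, h2.symm.trans (smul_str h1 _ _)⟩
      rcases pigeon hr.le (Quotient.mk _ ω) (Quotient.mk _ (str f z l • ω))
        (Quotient.mk _ (str f z' l' • ω)) (Quotient.mk _ x) with e | e | e | e | e | e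
      · exact absurd e (k a b)
      · exact absurd e (k c d)
      · obtain ⟨h, h1, h2⟩ := pg e
        exact Or.inl (h2.symm.trans h1)
      · exact absurd (pg e) h
      · exact Or.inr (Or.inl (k' a e))
      · exact Or.inr (Or.inr (k' c e))
  unfold NoTr at hN
  push Not at hN
  obtain ⟨a, l, a1, a2, a3⟩ := hN
  obtain ⟨Y, S, -⟩ := exists_sys hf sp_big (G := ⊤) (fun _ _ => trivial) (sp_gen hf)
    ((stabilizer f.Isom ω).subgroupOf ⊤) fun e => hmax.1 (top_le_iff.1 (Subgroup.subgroupOf_eq_top.1 e))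
  obtain ⟨y, hy⟩ := S.ne
  obtain ⟨z, z0, hz⟩ := S.sp_tau_bot h2 (by omega) hy
  obtain ⟨g, rfl⟩ := QuotientGroup.mk_surjective y
  refine RA.false (f := f) (ω := ω) ⟨hf, h2, by omega, rk, fun x y z hx hy hz => by_contra fun h => ?_⟩
    ⟨a2, l, a3, a1⟩ (z := g⁻¹.1 z) (by simpa using z0) fun ⟨_, m, m1, m2⟩ => m1 ?_
  · push Not at h
    exact hc (card_of_not_cj hf (by omega) hr.le hx hy hz h.1 h.2.1 h.2.2)
  · rw [← AddSubgroup.mem_bot, ← hz, mem_tau_iff]
    change QuotientGroup.mk (str f z m * g) = _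
    rw [eq_comm, QuotientGroup.eq, Subgroup.subgroupOf_map_subtype, inf_top_eq, ← mul_assoc]
    have := str_conj g⁻¹ z m
    rw [inv_inv] at this
    rw [this]
    exact m2

end Cfsg.Agent.R3S
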