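import Cfsg.Agent.Lib.R3S.T1

/-!
Three transvections in one coset of a subgroup without transvections.
-/

set_option autoImplicit false

namespace Cfsg.Agent.R3S

open Module Cfsg.Agent.Forms Cfsg.Agent.Forms.Form Cfsg.Agent.Cls Cfsg.Agent.Deg Cfsg.Agent.MI

variable {F : Type*} [Field F] {V : Type*} [AddCommGroup V] [Module F V]
  {f : Form (Param.sp F) V} {u y z v e r u₁ u₂ u₃ : V} {l m l₁ l₂ l₃ : F}
  {X : Type*} [MulAction f.Isom X] {ω : X} {g a : f.Isom}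

theorem exists_dec (hb : f.B u₁ u₂ ≠ 0) (x : V) :
    ∃ (s t : F) (r : V), f.B r u₁ = 0 ∧ f.B r u₂ = 0 ∧ x = s • u₁ + t • u₂ + r := by
  refine ⟨f.B x u₂ / f.B u₁ u₂, -f.B x u₁ / f.B u₁ u₂,
    x - (f.B x u₂ / f.B u₁ u₂) • u₁ - (-f.B x u₁ / f.B u₁ u₂) • u₂, ?_, ?_, by abel⟩
  · simp only [B_sub_left, B_smul_left, sp_B_self, f.sp_symm u₁ u₂]
    field_simp
    ring
  · simp only [B_sub_left, B_smul_left, sp_B_self]
    field_simp
    ring

/-- trace on a hyperbolic plane -/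
noncomputable def tw (u₁ u₂ : V) (g : f.Isom) : F :=
  (f.B (g.1 u₁) u₂ + f.B u₁ (g.1 u₂)) / f.B u₁ u₂

theorem cayley (hb : f.B u₁ u₂ ≠ 0) (r1 : f.B r u₁ = 0) (r2 : f.B r u₂ = 0) (hr : g.1 r = r)
    (h : ∀ x, ∃ s t c : F, g.1 x - x = s • u₁ + t • u₂ + c • r) (s t : F) :
    ∃ c : F, g.1 (g.1 (s • u₁ + t • u₂)) - tw u₁ u₂ g • g.1 (s • u₁ + t • u₂) +
      (s • u₁ + t • u₂) = c • r := by
  obtain ⟨A, C, p, h1⟩ := h u₁
  obtain ⟨B, D, q, h2⟩ := h u₂
  rw [sub_eq_iff_eq_add'] at h1 h2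
  have r1' := f.B_eq_zero_symm r1
  have r2' := f.B_eq_zero_symm r2
  have e1 : tw u₁ u₂ g = A + D + 2 := by
    simp only [tw, h1, h2, B_add_left, B_add_right, B_smul_left, sp_B_smul_right, sp_B_self, r1',
      r2]
    field_simp
    ring
  have e2 : (A + 1) * (D + 1) - B * C = 1 := by
    have := Isom.map_B g u₁ u₂
    simp only [h1, h2, B_add_left, B_add_right, B_smul_left, sp_B_smul_right, sp_B_self, r1', r2,
      r1, r2', f.sp_symm u₁ u₂] at this
    exact mul_right_cancel₀ hb (by linear_combination this)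
  refine ⟨s * (q * C - p * D) + t * (p * B - q * A), ?_⟩
  simp only [map_add, map_smul, h1, h2, hr, e1]
  linear_combination (norm := module) (-(s * e2)) • u₁ + (-(t * e2)) • u₂

theorem exists_of_fix [FiniteDimensional F V] (hf : f.Nondeg)
    (ha : ∀ y, f.B y u₁ = 0 → f.B y u₂ = 0 → a.1 y = y) (x : V) :
    ∃ s t : F, a.1 x - x = s • u₁ + t • u₂ := by
  obtain ⟨s, t, h⟩ := mem_span_pair_of_perp hf (y := u₁) (z := u₂) (a := a.1 x - x)
    fun y h1 h2 => by rw [B_sub_left, ← Isom.map_B a x y, ha y h1 h2, sub_self]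
  exact ⟨s, t, h.symm⟩

theorem cayley₀ [FiniteDimensional F V] (hf : f.Nondeg) (hb : f.B u₁ u₂ ≠ 0)
    (ha : ∀ y, f.B y u₁ = 0 → f.B y u₂ = 0 → a.1 y = y) (s t : F) :
    a.1 (a.1 (s • u₁ + t • u₂)) - tw u₁ u₂ a • a.1 (s • u₁ + t • u₂) + (s • u₁ + t • u₂) = 0 := by
  obtain ⟨c, hc⟩ := cayley hb (r := 0) (g := a) (by simp) (by simp) (map_zero _)
    (fun x => by
      obtain ⟨s, t, h⟩ := exists_of_fix hf ha x
      exact ⟨s, t, 0, by simpa using h⟩) s t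
  simpa using hc

theorem tw_rec [FiniteDimensional F V] (hf : f.Nondeg) (hb : f.B u₁ u₂ ≠ 0)
    (ha : ∀ y, f.B y u₁ = 0 → f.B y u₂ = 0 → a.1 y = y) (k : f.Isom) :
    tw u₁ u₂ (a * (a * k)) = tw u₁ u₂ a * tw u₁ u₂ (a * k) - tw u₁ u₂ k := by
  have key : ∀ x, a.1 (a.1 x) - tw u₁ u₂ a • a.1 x + x ∈ f.orth (Submodule.span F {u₁, u₂}) := by
    intro x
    obtain ⟨s, t, r, r1, r2, rfl⟩ := exists_dec hb x
    have := cayley₀ hf hb ha s t
    have e : a.1 (a.1 (s • u₁ + t • u₂ + r)) - tw u₁ u₂ a • a.1 (s • u₁ + t • u₂ + r) +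
        (s • u₁ + t • u₂ + r) = (2 - tw u₁ u₂ a) • r := by
      rw [map_add _ _ r, map_add _ _ (a.1 r), ha r r1 r2, ha r r1 r2]
      linear_combination (norm := module) this
    rw [e]
    exact Submodule.smul_mem _ _ (mem_orth_pair.2 ⟨r1, r2⟩)
  have k1 := (mem_orth_pair.1 (key (k.1 u₁))).2
  have k2 := f.B_eq_zero_symm (mem_orth_pair.1 (key (k.1 u₂))).1
  simp only [B_add_left, B_sub_left, B_smul_left, B_add_right, B_sub_right, sp_B_smul_right] at k1 k2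
  generalize tw u₁ u₂ a = τ at k1 k2 ⊢
  simp only [tw, Isom.mul_apply]
  field_simp
  linear_combination k1 + k2

variable [Finite F] [FiniteDimensional F V]

theorem NoTr.core (hf : f.Nondeg) (h2 : (2 : F) ≠ 0) (hN : NoTr f ω) (hb : f.B u₁ u₂ ≠ 0)
    (ha : ∀ y, f.B y u₁ = 0 → f.B y u₂ = 0 → a.1 y = y) (ht : tw u₁ u₂ a ≠ 2)
    (h3 : u₃ ∉ Submodule.span F {u₁, u₂}) (hm : m ≠ 0) (hg : (a * str f u₃ m) • ω = ω) :
    tw u₁ u₂ (a * str f u₃ m) ^ 2 = 4 := by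
  by_contra hc
  have h1 : tw u₁ u₂ (a * str f u₃ m) ≠ 2 := fun h => hc (by rw [h]; norm_num)
  have h1' : tw u₁ u₂ (a * str f u₃ m) ≠ -2 := fun h => hc (by rw [h]; norm_num)
  obtain ⟨α, β, r, r1, r2, e3⟩ := exists_dec hb u₃
  have r0 : r ≠ 0 := by
    rintro rfl
    exact h3 (Submodule.mem_span_pair.2 ⟨α, β, by rw [e3, add_zero]⟩)
  have r3 : f.B r u₃ = 0 := by simp [e3, r1, r2, sp_B_self]
  have hr : (a * str f u₃ m).1 r = r := by rw [Isom.mul_apply, str_orth r3, ha r r1 r2]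
  have hM : ∀ x, ∃ s t : F, (a * str f u₃ m).1 x - x = s • u₁ + t • u₂ + (m * f.B x u₃) • r :=
    fun x => by
      obtain ⟨s, t, h⟩ := exists_of_fix hf ha ((str f u₃ m).1 x)
      refine ⟨s + m * f.B x u₃ * α, t + m * f.B x u₃ * β, ?_⟩
      rw [Isom.mul_apply, sub_eq_iff_eq_add.1 h, str_apply]
      generalize f.B x u₃ = b
      rw [e3]
      module
  have hC := cayley hb r1 r2 hr fun x => let ⟨s, t, h⟩ := hM x; ⟨s, t, _, h⟩
  generalize hG : a * str f u₃ m = G at *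
  generalize tw u₁ u₂ G = τ at *
  have key := hN.key hf h2 hg h1 h1' hr fun x => by
    obtain ⟨s, t, h⟩ := hM x
    obtain ⟨c, hc⟩ := hC s t
    refine ⟨c + m * f.B x u₃ * (2 - τ), ?_⟩
    rw [h, map_add _ (s • u₁ + t • u₂), map_smul, hr, map_add _ (G.1 _), map_smul, hr]
    linear_combination (norm := module) hc
  obtain ⟨y₀, hy₀⟩ := hf.exists_ne_zero r0
  obtain ⟨s₀, t₀, y, y1, y2, rfl⟩ := exists_dec hb y₀
  have hy : f.B y u₃ ≠ 0 := by
    simp only [B_add_right, sp_B_smul_right, r1, r2, mul_zero, zero_add] at hy₀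
    simpa [e3, y1, y2, f.sp_symm r y] using hy₀
  -- solve `(a - 1) w = - a (α u₁ + β u₂)`
  have h4 : tw u₁ u₂ a - 2 ≠ 0 := sub_ne_zero.2 ht
  obtain ⟨s, t, hst⟩ := exists_of_fix hf ha (α • u₁ + β • u₂)
  obtain ⟨s', t', hst'⟩ := exists_of_fix hf ha ((α + s) • u₁ + (β + t) • u₂)
  have c1 := cayley₀ hf hb ha (α + s) (β + t)
  set w₃ := (α + s) • u₁ + (β + t) • u₂ with hw₃
  have e4 : a.1 u₃ = w₃ + r := by
    rw [e3, map_add _ _ r, ha r r1 r2, sub_eq_iff_eq_add.1 hst, hw₃]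
    module
  set w := (-(tw u₁ u₂ a - 2)⁻¹) • (a.1 w₃ - (tw u₁ u₂ a - 1) • w₃) with hw
  have e5 : a.1 w - w = -w₃ := by
    apply smul_right_injective V h4
    simp only [hw, map_smul, map_sub, smul_sub, smul_smul, mul_neg, neg_mul,
      mul_inv_cancel₀ h4, mul_inv_cancel_left₀ h4]
    linear_combination (norm := module) -c1
  set c := (m⁻¹ - f.B w u₃) / f.B y u₃ with hc'
  have e6 : G.1 (c • y + w) - (c • y + w) = r := by
    have e7 : m * f.B (c • y + w) u₃ = 1 := by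
      rw [B_add_left, B_smul_left, hc']
      field_simp
      ring
    rw [← hG, Isom.mul_apply, str_apply, e7, one_smul, map_add, map_add, map_smul, ha y y1 y2, e4]
    linear_combination (norm := module) e5
  have := key (c • y + w)
  rw [e6, hr, hr, show r - τ • r + r = (2 - τ) • r by module] at this
  exact r0 ((smul_eq_zero.1 this).resolve_left (sub_ne_zero.2 h1.symm))

omit [Finite F] [FiniteDimensional F V] in
theorem NoTr.ne_neg_four (hf : f.Nondeg) (h2 : (2 : F) ≠ 0) (hN : NoTr f ω)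
    (h : str f u₁ l₁ • ω = str f u₂ l₂ • ω) : l₁ * l₂ * f.B u₁ u₂ ^ 2 ≠ -4 := fun hx => by
  have hg : (str f u₁ (-l₁) * str f u₂ l₂) • ω = ω := by
    rw [mul_smul, ← h, ← str_inv, inv_smul_smul]
  have hb : f.B u₁ u₂ ≠ 0 := fun h => by
    rw [h] at hx
    exact mul_ne_zero h2 h2 (by linear_combination hx)
  have := hN.eq_of_range hf (z := (2 : F) • u₂ + (l₁ * f.B u₁ u₂) • u₁)
    (show ((str f u₁ (-l₁) * str f u₂ l₂) * (str f u₁ (-l₁) * str f u₂ l₂)) • ω = ω by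
      rw [mul_smul, hg, hg]) (fun w => ⟨-(l₂ * f.B w u₂ + l₁ * l₂ * f.B u₁ u₂ * f.B w u₁ / 2), by
      simp only [Isom.mul_apply, str_apply, B_add_left, B_smul_left, sp_B_self, f.sp_symm u₁ u₂]
      generalize f.B u₁ u₂ = b at hx
      match_scalars
      · ring
      · field_simp
        linear_combination (l₂ * f.B w u₂) * hx
      · field_simp
        linear_combination (-l₁ * f.B w u₁ + 2 * l₁ * l₂ * b * f.B w u₂) * hx⟩) u₂
  have := congrArg (fun x => f.B u₁ x) this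
  simp only [Isom.mul_apply, str_apply, B_add_left, B_smul_left, sp_B_self, f.sp_symm u₁ u₂,
    B_add_right, sp_B_smul_right] at this
  exact mul_ne_zero (mul_ne_zero h2 h2) hb (by linear_combination (-1) * this + f.B u₁ u₂ * hx)

end Cfsg.Agent.R3S
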