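import Cfsg.Agent.Lib.R3S.T2

/-!
The trace conditions for three equivalent transvections.
-/

set_option autoImplicit false

namespace Cfsg.Agent.R3S

open Module Cfsg.Agent.Forms Cfsg.Agent.Forms.Form Cfsg.Agent.Cls Cfsg.Agent.Deg Cfsg.Agent.MI

variable {F : Type*} [Field F] {V : Type*} [AddCommGroup V] [Module F V]
  {f : Form (Param.sp F) V} {u y z v e r u₁ u₂ u₃ : V} {l m l₁ l₂ l₃ : F}
  {X : Type*} [MulAction f.Isom X] {ω : X} {g a : f.Isom}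

theorem tw_pair₁ (hb : f.B u₁ u₂ ≠ 0) (v : V) (a c : F) :
    tw u₁ u₂ (str f u₁ a * str f v c) = 2 - a * c * f.B u₁ v ^ 2 := by
  simp only [tw, Isom.mul_apply, str_apply, B_add_left, B_add_right, B_smul_left, sp_B_smul_right,
    sp_B_self, f.sp_symm u₁ v, f.sp_symm u₂ v, f.sp_symm u₁ u₂]
  field_simp
  ring

theorem tw_pair₂ (hb : f.B u₁ u₂ ≠ 0) (v : V) (a c : F) :
    tw u₁ u₂ (str f u₂ a * str f v c) = 2 - a * c * f.B u₂ v ^ 2 := by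
  simp only [tw, Isom.mul_apply, str_apply, B_add_left, B_add_right, B_smul_left, sp_B_smul_right,
    sp_B_self, f.sp_symm u₁ v, f.sp_symm u₂ v, f.sp_symm u₁ u₂]
  field_simp
  ring

theorem eqv_mem (h : str f u₁ l₁ • ω = str f u₂ l₂ • ω) :
    (str f u₁ (-l₁) * str f u₂ l₂) • ω = ω := by
  rw [mul_smul, ← h, ← str_inv, inv_smul_smul]

theorem pair_fix (l₁ l₂ : F) (y : V) (h1 : f.B y u₁ = 0) (h2 : f.B y u₂ = 0) :
    (str f u₁ l₁ * str f u₂ l₂).1 y = y := by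
  rw [Isom.mul_apply, str_orth h2, str_orth h1]

theorem not_mem_swap (hb : f.B u₁ u₂ ≠ 0) (hb' : f.B u₁ u₃ ≠ 0)
    (h3 : u₃ ∉ Submodule.span F {u₁, u₂}) : u₂ ∉ Submodule.span F {u₁, u₃} := fun h => by
  obtain ⟨s, t, rfl⟩ := Submodule.mem_span_pair.1 h
  have ht : t ≠ 0 := by
    rintro rfl
    simp [sp_B_self] at hb
  exact h3 (Submodule.mem_span_pair.2 ⟨-(s / t), t⁻¹, by
    match_scalars <;> field_simp <;> ring⟩)

variable [Finite F] [FiniteDimensional F V]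

theorem NoTr.triple (hf : f.Nondeg) (h2 : (2 : F) ≠ 0) (hN : NoTr f ω)
    (e2 : str f u₁ l₁ • ω = str f u₂ l₂ • ω) (e3 : str f u₁ l₁ • ω = str f u₃ l₃ • ω)
    (n1 : l₁ ≠ 0) (n2 : l₂ ≠ 0) (n3 : l₃ ≠ 0) (hb : f.B u₁ u₂ ≠ 0)
    (h3 : u₃ ∉ Submodule.span F {u₁, u₂}) :
    (l₁ * l₂ * f.B u₁ u₂ ^ 2 = -2 ∨ l₁ * l₂ * f.B u₁ u₂ ^ 2 = -3) ∧
    ((l₁ * l₂ * f.B u₁ u₂ ^ 2 + 2) * (l₁ * l₃ * f.B u₁ u₃ ^ 2 + 2) -
      (l₂ * l₃ * f.B u₂ u₃ ^ 2 + 2)) ^ 2 = 4 := by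
  have x4 := hN.ne_neg_four hf h2 e2
  have x0 : l₁ * l₂ * f.B u₁ u₂ ^ 2 ≠ 0 := mul_ne_zero (mul_ne_zero n1 n2) (pow_ne_zero 2 hb)
  have m2 := eqv_mem e2
  have m3 := eqv_mem e3
  have hh := pair_fix (f := f) (u₁ := u₁) (u₂ := u₂) (-l₁) l₂
  have t1 : tw u₁ u₂ (str f u₁ (-l₁) * str f u₂ l₂) = l₁ * l₂ * f.B u₁ u₂ ^ 2 + 2 := by
    rw [tw_pair₁ hb]; ring
  have hs : ∀ y, f.B y u₁ = 0 → f.B y u₂ = 0 → (str f u₁ (-l₁)).1 y = y := fun y h _ => str_orth h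
  have b0 : tw u₁ u₂ (str f u₁ (-l₁)) = 2 := by
    have := tw_pair₁ hb u₁ (-l₁) 0
    rwa [str_zero, mul_one, mul_zero, zero_mul, sub_zero] at this
  have bm : tw u₁ u₂ ((str f u₁ (-l₁) * str f u₂ l₂)⁻¹ * str f u₁ (-l₁)) = 2 := by
    have := tw_pair₂ hb u₁ (-l₂) 0
    rw [str_zero, mul_one, mul_zero, zero_mul, sub_zero] at this
    rw [mul_inv_rev, inv_mul_cancel_right, str_inv, this]
  have a0 : tw u₁ u₂ (str f u₁ (-l₁) * str f u₃ l₃) = l₁ * l₃ * f.B u₁ u₃ ^ 2 + 2 := by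
    rw [tw_pair₁ hb]; ring
  have am : tw u₁ u₂ ((str f u₁ (-l₁) * str f u₂ l₂)⁻¹ * (str f u₁ (-l₁) * str f u₃ l₃)) =
      l₂ * l₃ * f.B u₂ u₃ ^ 2 + 2 := by
    rw [mul_inv_rev, mul_assoc, inv_mul_cancel_left, str_inv, tw_pair₂ hb]; ring
  have hrec := tw_rec hf hb hh
  rw [t1] at hrec
  generalize l₁ * l₂ * f.B u₁ u₂ ^ 2 = x at *
  generalize l₁ * l₃ * f.B u₁ u₃ ^ 2 = y at *
  generalize l₂ * l₃ * f.B u₂ u₃ ^ 2 = z at *
  generalize str f u₁ (-l₁) * str f u₂ l₂ = h at *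
  generalize str f u₁ (-l₁) = s at *
  have b1 := hrec (h⁻¹ * s)
  rw [mul_inv_cancel_left, b0, bm] at b1
  have b2 := hrec s
  rw [b1, b0] at b2
  have b3 := hrec (h * s)
  rw [b2, b1] at b3
  have a1 := hrec (h⁻¹ * (s * str f u₃ l₃))
  rw [mul_inv_cancel_left, a0, am] at a1
  have a3 := hrec (h * (s * str f u₃ l₃))
  have f1 : ∀ y, f.B y u₁ = 0 → f.B y u₂ = 0 → (h * s).1 y = y := fun y p q => by
    rw [Isom.mul_apply, hs y p q, hh y p q]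
  have f2 : ∀ y, f.B y u₁ = 0 → f.B y u₂ = 0 → (h * (h * s)).1 y = y := fun y p q => by
    rw [Isom.mul_apply, f1 y p q, hh y p q]
  have f3 : ∀ y, f.B y u₁ = 0 → f.B y u₂ = 0 → (h * (h * (h * s))).1 y = y := fun y p q => by
    rw [Isom.mul_apply, f2 y p q, hh y p q]
  have c1 := hN.core hf h2 hb f1 (by
    rw [b1]; exact fun e => mul_ne_zero h2 x0 (by linear_combination e)) h3 n3 (by
    rw [mul_assoc, mul_smul, m3, m2])
  refine ⟨?_, by rw [← a1, ← mul_assoc, c1]⟩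
  by_contra hc
  push Not at hc
  have x2 : x + 2 ≠ 0 := fun e => hc.1 (by linear_combination e)
  have x3 : x + 3 ≠ 0 := fun e => hc.2 (by linear_combination e)
  have c2 := hN.core hf h2 hb f2 (by
    rw [b2]; exact fun e => mul_ne_zero h2 (mul_ne_zero x0 x3) (by linear_combination e)) h3 n3 (by
    rw [mul_assoc, mul_assoc, mul_smul, mul_smul, m3, m2, m2])
  have c3 := hN.core hf h2 hb f3 (by
    rw [b3]
    exact fun e => mul_ne_zero h2 (mul_ne_zero x2 (mul_ne_zero x0 x3)) (by linear_combination e))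
    h3 n3 (by rw [mul_assoc, mul_assoc, mul_assoc, mul_smul, mul_smul, mul_smul, m3, m2, m2, m2])
  simp only [mul_assoc] at c1 c2 c3
  rw [a3] at c3
  generalize tw u₁ u₂ (h * (h * (s * str f u₃ l₃))) = A at c2 c3
  generalize tw u₁ u₂ (h * (s * str f u₃ l₃)) = C at c1 c3
  have e1 : (x + 2) * A * ((x + 2) * A - 2 * C) = 0 := by linear_combination c3 - c1
  have A0 : A ≠ 0 := by
    rintro rfl
    exact mul_ne_zero h2 h2 (by linear_combination -c2)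
  have e2 := (mul_eq_zero.1 e1).resolve_left (mul_ne_zero x2 A0)
  have e3 : 2 * 2 * (x * (x + 4)) = 0 := by
    linear_combination ((x + 2) * A + 2 * C) * e2 - (x + 2) ^ 2 * c2 + 4 * c1
  exact mul_ne_zero (mul_ne_zero h2 h2) (mul_ne_zero x0 fun e => x4 (by linear_combination e)) e3

theorem NoTr.eq_neg_two (hf : f.Nondeg) (h2 : (2 : F) ≠ 0) (hN : NoTr f ω)
    (e2 : str f u₁ l₁ • ω = str f u₂ l₂ • ω) (e3 : str f u₁ l₁ • ω = str f u₃ l₃ • ω)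
    (n1 : l₁ ≠ 0) (n2 : l₂ ≠ 0) (n3 : l₃ ≠ 0) (hb : f.B u₁ u₂ ≠ 0)
    (h3 : u₃ ∉ Submodule.span F {u₁, u₂}) (p1 : f.B u₁ u₃ = 0) (p2 : f.B u₂ u₃ = 0) :
    l₁ * l₂ * f.B u₁ u₂ ^ 2 = -2 := by
  have := (hN.triple hf h2 e2 e3 n1 n2 n3 hb h3).2
  rw [p1, p2] at this
  have x0 : l₁ * l₂ * f.B u₁ u₂ ^ 2 ≠ 0 := mul_ne_zero (mul_ne_zero n1 n2) (pow_ne_zero 2 hb)
  generalize l₁ * l₂ * f.B u₁ u₂ ^ 2 = x at *
  exact mul_left_cancel₀ (mul_ne_zero (mul_ne_zero h2 h2) x0) (by linear_combination this)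

omit [Finite F] [FiniteDimensional F V] in
theorem sq_aux {x y z : F} (h2 : (2 : F) ≠ 0) (x0 : x ≠ 0) (y0 : y ≠ 0) (hx : x = -2 ∨ x = -3)
    (hy : y = -2 ∨ y = -3) (hz : z = 0 ∨ z = -2 ∨ z = -3)
    (c1 : ((x + 2) * (y + 2) - (z + 2)) ^ 2 = 4) (c2 : ((x + 2) * (z + 2) - (y + 2)) ^ 2 = 4)
    (c3 : ((y + 2) * (z + 2) - (x + 2)) ^ 2 = 4) : x = -3 ∧ y = -3 ∧ z = -3 := by
  have h4 : (4 : F) ≠ 0 := by rw [show (4 : F) = 2 * 2 by norm_num]; exact mul_ne_zero h2 h2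
  rcases hx with rfl | rfl <;> rcases hy with rfl | rfl <;> rcases hz with rfl | rfl | rfl
  · exact absurd (by linear_combination -c2) h4
  · exact absurd (by linear_combination -c2) h4
  · exact absurd (by linear_combination -c2) h4
  · exact absurd (by linear_combination c2) y0
  · exact absurd (by linear_combination c2) y0
  · exact absurd (by linear_combination c2) y0
  · exact absurd (by linear_combination c3) x0
  · exact absurd (by linear_combination c3) x0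
  · exact absurd (by linear_combination c1) x0
  · exact absurd (by linear_combination c1) x0
  · exact absurd (by linear_combination c1) x0
  · exact ⟨rfl, rfl, rfl⟩

theorem NoTr.isSquare_aux (hf : f.Nondeg) (h2 : (2 : F) ≠ 0) (hN : NoTr f ω)
    (e2 : str f u₁ l₁ • ω = str f u₂ l₂ • ω) (e3 : str f u₁ l₁ • ω = str f u₃ l₃ • ω)
    (n1 : l₁ ≠ 0) (n2 : l₂ ≠ 0) (n3 : l₃ ≠ 0) (hb : f.B u₁ u₂ ≠ 0)
    (h3 : u₃ ∉ Submodule.span F {u₁, u₂}) (hb' : f.B u₁ u₃ ≠ 0) : IsSquare (l₁ * l₂) := by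
  have h3' := not_mem_swap hb hb' h3
  have s12 := f.sp_symm u₁ u₂
  have s13 := f.sp_symm u₁ u₃
  have s23 := f.sp_symm u₂ u₃
  obtain ⟨hx, c1⟩ := hN.triple hf h2 e2 e3 n1 n2 n3 hb h3
  obtain ⟨-, c2⟩ := hN.triple hf h2 e2.symm (e2.symm.trans e3) n2 n1 n3 (B_ne_symm hb)
    (by rwa [Set.pair_comm])
  obtain ⟨hy, -⟩ := hN.triple hf h2 e3 e2 n1 n3 n2 hb' h3'
  obtain ⟨-, c3⟩ := hN.triple hf h2 e3.symm (e3.symm.trans e2) n3 n1 n2 (B_ne_symm hb')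
    (by rwa [Set.pair_comm])
  have hz : l₂ * l₃ * f.B u₂ u₃ ^ 2 = 0 ∨ l₂ * l₃ * f.B u₂ u₃ ^ 2 = -2 ∨
      l₂ * l₃ * f.B u₂ u₃ ^ 2 = -3 := by
    by_cases h : f.B u₂ u₃ = 0
    · left; simp [h]
    · right
      exact (hN.triple hf h2 (e2.symm.trans e3) e2.symm n2 n3 n1 h
        (not_mem_swap (B_ne_symm hb) h (by rwa [Set.pair_comm]))).1
  have y0 : l₁ * l₃ * f.B u₁ u₃ ^ 2 ≠ 0 := mul_ne_zero (mul_ne_zero n1 n3) (pow_ne_zero 2 hb')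
  obtain ⟨-, r2, r3⟩ := sq_aux h2 (mul_ne_zero (mul_ne_zero n1 n2) (pow_ne_zero 2 hb)) y0 hx hy hz c1
    (by rw [s12] at c2; linear_combination c2) (by rw [s13, s23] at c3; linear_combination c3)
  have h3 : (3 : F) ≠ 0 := fun e => y0 (by linear_combination r2 - e)
  refine ⟨l₁ * l₂ * l₃ * f.B u₁ u₃ * f.B u₂ u₃ / 3, ?_⟩
  field_simp
  linear_combination (-(l₂ * l₃ * f.B u₂ u₃ ^ 2)) * r2 + 3 * r3

theorem NoTr.isSquare (hf : f.Nondeg) (h2 : (2 : F) ≠ 0) (hN : NoTr f ω)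
    (e2 : str f u₁ l₁ • ω = str f u₂ l₂ • ω) (e3 : str f u₁ l₁ • ω = str f u₃ l₃ • ω)
    (n1 : l₁ ≠ 0) (n2 : l₂ ≠ 0) (n3 : l₃ ≠ 0) (hb : f.B u₁ u₂ ≠ 0)
    (h3 : u₃ ∉ Submodule.span F {u₁, u₂}) : IsSquare (l₁ * l₂) := by
  by_cases p1 : f.B u₁ u₃ = 0
  swap
  · exact hN.isSquare_aux hf h2 e2 e3 n1 n2 n3 hb h3 p1
  by_cases p2 : f.B u₂ u₃ = 0
  swap
  · rw [mul_comm]
    exact hN.isSquare_aux hf h2 e2.symm (e2.symm.trans e3) n2 n1 n3 (B_ne_symm hb)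
      (by rwa [Set.pair_comm]) p2
  have hx := hN.eq_neg_two hf h2 e2 e3 n1 n2 n3 hb h3 p1 p2
  have a1 : tw u₁ u₂ (str f u₁ l₁ * str f u₂ l₂) = 4 := by
    rw [tw_pair₁ hb, hx]; norm_num
  have := hN.core hf h2 hb (pair_fix (f := f) l₁ l₂) (m := -l₃ + -l₃)
    (by rw [a1]; exact fun e => h2 (by linear_combination e)) h3
    (fun e => mul_ne_zero h2 n3 (by linear_combination -e)) (by
      have c1 : str f u₃ (-l₃) * str f u₁ l₁ = str f u₁ l₁ * str f u₃ (-l₃) := by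
        rw [← mul_inv_eq_iff_eq_mul, str_conj, str_orth p1]
      have c2 : str f u₃ (-l₃) * str f u₂ l₂ = str f u₂ l₂ * str f u₃ (-l₃) := by
        rw [← mul_inv_eq_iff_eq_mul, str_conj, str_orth p2]
      have m1 := eqv_mem e3.symm
      have m2 := eqv_mem (e3.symm.trans e2)
      rw [← str_mul, show str f u₁ l₁ * str f u₂ l₂ * (str f u₃ (-l₃) * str f u₃ (-l₃)) =
        (str f u₃ (-l₃) * str f u₁ l₁) * (str f u₃ (-l₃) * str f u₂ l₂) by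
          rw [c1, c2, mul_assoc, mul_assoc, ← mul_assoc (str f u₃ _) (str f u₂ _), c2, mul_assoc],
        mul_smul, m2, m1])
  have a2 : tw u₁ u₂ (str f u₁ l₁ * str f u₂ l₂ * str f u₃ (-l₃ + -l₃)) = 4 := by
    rw [← a1]
    simp only [tw, Isom.mul_apply, str_orth p1, str_orth p2]
  rw [a2] at this
  have h3 : (3 : F) = 0 := mul_left_cancel₀ (mul_ne_zero h2 h2) (by linear_combination this)
  refine ⟨(f.B u₁ u₂)⁻¹, ?_⟩
  field_simp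
  linear_combination hx - h3

end Cfsg.Agent.R3S
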