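import Cfsg.Agent.Lib.R3S.T3

/-!
Line spreads compatible with a symplectic form.
-/

set_option autoImplicit false

namespace Cfsg.Agent.R3S

open Module Cfsg.Agent.Forms Cfsg.Agent.Forms.Form Cfsg.Agent.Cls Cfsg.Agent.Deg Cfsg.Agent.MI

variable {F : Type*} [Field F] {V : Type*} [AddCommGroup V] [Module F V]
  {f : Form (Param.sp F) V} {u y z v w e r u₁ u₂ u₃ : V} {l m l₁ l₂ l₃ : F}
  {X : Type*} [MulAction f.Isom X] {ω : X} {g a : f.Isom} {p : V → V}

variable (ω) in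
/-- same double coset of the stabiliser -/
def DC (g g' : f.Isom) : Prop := ∃ h h' : f.Isom, h • ω = ω ∧ h' • ω = ω ∧ g' = h * g * h'

variable (f ω) in
/-- at most three double cosets -/
def Rk : Prop := ∀ g₀ g₁ g₂ g₃ : f.Isom,
  DC ω g₀ g₁ ∨ DC ω g₀ g₂ ∨ DC ω g₀ g₃ ∨ DC ω g₁ g₂ ∨ DC ω g₁ g₃ ∨ DC ω g₂ g₃

theorem finrank_pair (hz : z ≠ 0) (h : y ∉ F ∙ z) : finrank F (Submodule.span F {z, y}) = 2 := by
  have : LinearIndependent F ![z, y] := (LinearIndependent.pair_iff' hz).2 fun a e =>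
    h (Submodule.mem_span_singleton.2 ⟨a, e⟩)
  have h1 := finrank_span_eq_card this
  rwa [Matrix.range_cons, Matrix.range_cons, Matrix.range_empty, Set.union_empty,
    Set.singleton_union] at h1

theorem finrank_pair_le (z y : V) : finrank F (Submodule.span F {z, y}) ≤ 2 := by
  classical
  have := finrank_span_finset_le_card (R := F) ({z, y} : Finset V)
  rw [Set.finrank, Finset.coe_pair] at this
  exact this.trans Finset.card_le_two

theorem span_pair_eq [FiniteDimensional F V] (hz : z ≠ 0) (h : y ∉ F ∙ z)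
    (h1 : z ∈ Submodule.span F {u, v}) (h2 : y ∈ Submodule.span F {u, v}) :
    Submodule.span F {z, y} = Submodule.span F {u, v} :=
  Submodule.eq_of_le_of_finrank_le (Submodule.span_le.2 (Set.pair_subset h1 h2))
    (by rw [finrank_pair hz h]; exact finrank_pair_le _ _)

theorem le_or_le_of_union {S A B : Submodule F V} (h : ∀ x ∈ S, x ∈ A ∨ x ∈ B) : S ≤ A ∨ S ≤ B := by
  by_contra hc
  push Not at hc
  obtain ⟨a, ha, ha'⟩ := SetLike.not_le_iff_exists.1 hc.1
  obtain ⟨b, hb, hb'⟩ := SetLike.not_le_iff_exists.1 hc.2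
  have h1 := (h a ha).resolve_left ha'
  have h2 := (h b hb).resolve_right hb'
  rcases h _ (S.add_mem ha hb) with h3 | h3
  · exact ha' ((Submodule.add_mem_iff_left _ h2).1 h3)
  · exact hb' ((Submodule.add_mem_iff_right _ h1).1 h3)

theorem exists_orth_of_lt [FiniteDimensional F V] (hf : f.Nondeg) {S T : Submodule F V}
    (h : finrank F S < finrank F T) : ∃ y ∈ T, y ≠ 0 ∧ y ∈ f.orth S := by
  have h1 := Submodule.finrank_sup_add_finrank_inf_eq T (f.orth S)
  have h2 := hf.finrank_add_orth S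
  have h3 := Submodule.finrank_le (T ⊔ f.orth S)
  obtain ⟨y, hy, hy0⟩ := Submodule.exists_mem_ne_zero_of_ne_bot (p := T ⊓ f.orth S) fun e => by
    rw [e, finrank_bot] at h1; omega
  exact ⟨y, hy.1, hy0, hy.2⟩

variable (F p) in
/-- the line of the spread through a vector -/
abbrev Fz (z : V) : Submodule F V := Submodule.span F {z, p z}

theorem self_mem_Fz (z : V) : z ∈ Fz F p z := Submodule.subset_span (by simp)

theorem p_mem_Fz (z : V) : p z ∈ Fz F p z := Submodule.subset_span (by simp)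

variable (f p) in
structure Spr : Prop where
  zero : p 0 = 0
  ind : ∀ z, z ≠ 0 → p z ∉ F ∙ z
  mem : ∀ z z', z' ∈ Fz F p z → p z' ∈ Fz F p z
  sym : ∀ u v, u ∈ f.orth (Fz F p v) → p u ∈ f.orth (Fz F p v)

variable (p) in
/-- unions of spread lines -/
def PCl (Y : Submodule F V) : Prop := ∀ z ∈ Y, p z ∈ Y

theorem PCl.le {Y : Submodule F V} (h : PCl p Y) (hz : z ∈ Y) : Fz F p z ≤ Y :=
  Submodule.span_le.2 (Set.pair_subset hz (h z hz))

theorem PCl.inf {Y Y' : Submodule F V} (h : PCl p Y) (h' : PCl p Y') : PCl p (Y ⊓ Y') :=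
  fun z hz => ⟨h z hz.1, h' z hz.2⟩

namespace Spr

variable (S : Spr f p)
include S

theorem Fz_zero : Fz F p 0 = ⊥ := by simp [Fz, S.zero]

theorem finrank_Fz (hz : z ≠ 0) : finrank F (Fz F p z) = 2 := finrank_pair hz (S.ind z hz)

theorem orth_cl {Y : Submodule F V} (h : PCl p Y) : PCl p (f.orth Y) := fun z hz y hy =>
  S.sym z y (f.orth_le (h.le hy) hz) y (self_mem_Fz y)

theorem orth_comm (h : u ∈ f.orth (Fz F p v)) : v ∈ f.orth (Fz F p u) :=
  (f.le_orth_comm.1 (PCl.le (S.sym · v) h)) (self_mem_Fz v)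

variable [FiniteDimensional F V]

theorem Fz_eq (h : y ∈ Fz F p z) (hy : y ≠ 0) : Fz F p y = Fz F p z :=
  span_pair_eq hy (S.ind y hy) h (S.mem z y h)

theorem sup_cl (hf : f.Nondeg) (u v : V) : PCl p (Fz F p u ⊔ Fz F p v) := by
  rw [← hf.orth_orth (Fz F p u ⊔ Fz F p v), f.orth_sup]
  exact S.orth_cl ((S.orth_cl (S.mem u)).inf (S.orth_cl (S.mem v)))

theorem finrank_sup (hu : u ≠ 0) (hv : v ∉ Fz F p u) :
    finrank F (Fz F p u ⊔ Fz F p v : Submodule F V) = 4 := by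
  have hv0 : v ≠ 0 := by rintro rfl; exact hv (zero_mem _)
  have h1 := Submodule.finrank_sup_add_finrank_inf_eq (Fz F p u) (Fz F p v)
  rw [S.finrank_Fz hu, S.finrank_Fz hv0, (Submodule.eq_bot_iff (Fz F p u ⊓ Fz F p v)).2
    fun x hx => by_contra fun h0 => hv (by rw [← S.Fz_eq hx.1 h0, S.Fz_eq hx.2 h0]; exact self_mem_Fz v), finrank_bot] at h1
  exact h1

omit S in
theorem finrank_sup_le (u v : V) : finrank F (Fz F p u ⊔ Fz F p v : Submodule F V) ≤ 4 :=
  (Submodule.finrank_add_le_finrank_add_finrank _ _).trans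
    (add_le_add (finrank_pair_le _ _) (finrank_pair_le _ _))

/-- a polarity has absolute points -/
theorem exists_abs [Finite F] (hf : f.Nondeg) (h5 : 5 ≤ finrank F V) :
    ∃ z, z ≠ 0 ∧ f.B z (p z) = 0 := by
  classical
  by_contra hc
  push Not at hc
  have : Finite V := Module.finite_of_finite F
  cases nonempty_fintype V
  cases nonempty_fintype F
  let M : Matrix V V F := fun u v => if u ∈ f.orth (Fz F p v) then 1 else 0
  have h1 : M * M = 0 := by
    ext u v
    have e : ∀ y, M u y * M y v = if y ∈ f.orth (Fz F p u ⊔ Fz F p v) then 1 else 0 := fun y => by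
      simp only [M, f.orth_sup, Submodule.mem_inf]
      by_cases h : u ∈ f.orth (Fz F p y)
      · simp [h, S.orth_comm h]
      · simp [h, show y ∉ f.orth (Fz F p u) from fun h' => h (S.orth_comm h')]
    rw [Matrix.mul_apply, Finset.sum_congr rfl fun y _ => e y, Finset.sum_boole,
      ← Fintype.card_subtype, Module.card_eq_pow_finrank (K := F), Nat.cast_pow,
      FiniteField.cast_card_eq_zero, zero_pow, Matrix.zero_apply]
    have := hf.finrank_add_orth (Fz F p u ⊔ Fz F p v)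
    have := finrank_sup_le (F := F) (p := p) u v
    omega
  have h2 := (Matrix.isNilpotent_trace_of_isNilpotent (M := M) ⟨2, by rw [pow_two, h1]⟩).eq_zero
  rw [Matrix.trace, Finset.sum_eq_single (f := M.diag) 0 (fun z _ hz => if_neg fun h =>
    hc z hz (h _ (p_mem_Fz z))) (by simp)] at h2
  exact one_ne_zero ((if_pos (zero_mem _)).symm.trans h2)

end Spr

variable (p) in
/-- vectors on the common lines of the spread and its image -/
def Cm (g : f.Isom) : Set V := {y | (Fz F p y).map (g.1 : V →ₗ[F] V) = Fz F p (g.1 y)}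

theorem mem_Cm_of_fix (h : ∀ x ∈ Fz F p y, g.1 x = x) : y ∈ Cm p g := by
  change _ = _
  rw [Submodule.map_span, Set.image_pair, LinearEquiv.coe_coe, h _ (self_mem_Fz y), h _ (p_mem_Fz y)]

theorem Cm_mul {h h' : f.Isom} (a1 : ∀ y, y ∈ Cm p h) (a2 : ∀ y, y ∈ Cm p h') :
    Cm p (h * g * h') = h'.1 ⁻¹' Cm p g := by
  ext y
  change (Fz F p y).map (((h.1 : V →ₗ[F] V).comp (g.1 : V →ₗ[F] V)).comp (h'.1 : V →ₗ[F] V)) =
    Fz F p (h.1 (g.1 (h'.1 y))) ↔
    (Fz F p (h'.1 y)).map _ = _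
  rw [Submodule.map_comp, Submodule.map_comp, a2 y, ← a1 (g.1 (h'.1 y))]
  exact (Submodule.map_injective_of_injective h.1.injective).eq_iff

variable [FiniteDimensional F V]

theorem Spr.mem_of_Cm (S : Spr f p) (hf : f.Nondeg) (hu : u ≠ 0) (hv : v ∉ Fz F p u)
    (h1 : ∀ x, g.1 x - x ∈ Submodule.span F {u, v})
    (h2 : ∀ x, g.1 x = x → f.B x u = 0 ∧ f.B x v = 0) (hy : y ∈ Cm p g) :
    y ∈ f.orth (Fz F p u ⊔ Fz F p v) ∨ y ∈ Fz F p u ⊔ Fz F p v := by
  have hU : Submodule.span F {u, v} ≤ Fz F p u ⊔ Fz F p v := Submodule.span_le.2 (Set.pair_subset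
    (Submodule.mem_sup_left (self_mem_Fz u)) (Submodule.mem_sup_right (self_mem_Fz v)))
  have hm : ∀ x ∈ Fz F p y, g.1 x ∈ Fz F p (g.1 y) := fun x hx =>
    hy ▸ Submodule.mem_map_of_mem (f := (g.1 : V →ₗ[F] V)) hx
  by_cases hfix : ∀ x ∈ Fz F p y, g.1 x = x
  · left
    rw [f.orth_sup]
    exact ⟨S.orth_comm (mem_orth'.2 fun x hx => (h2 x (hfix x hx)).1),
      S.orth_comm (mem_orth'.2 fun x hx => (h2 x (hfix x hx)).2)⟩
  right
  by_cases hfix' : ∃ x ∈ Fz F p y, x ≠ 0 ∧ g.1 x = x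
  · obtain ⟨x, x1, x2, x3⟩ := hfix'
    have e : Fz F p (g.1 y) = Fz F p y := by rw [← S.Fz_eq x1 x2, ← S.Fz_eq (x3 ▸ hm x x1) x2]
    push Not at hfix
    obtain ⟨w, w1, w2⟩ := hfix
    have := (S.sup_cl hf u v).le (hU (h1 w))
    rw [S.Fz_eq (sub_mem (e ▸ hm w w1) w1) (sub_ne_zero.2 w2)] at this
    exact this (self_mem_Fz y)
  push Not at hfix'
  by_cases hy0 : y = 0
  · exact hy0 ▸ zero_mem _
  have e1 := span_pair_eq (sub_ne_zero.2 (hfix' y (self_mem_Fz y) hy0)) (y := g.1 (p y) - p y)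
    (fun h => by
      obtain ⟨c, hc⟩ := Submodule.mem_span_singleton.1 h
      refine hfix' (p y - c • y) (sub_mem (p_mem_Fz y) (Submodule.smul_mem _ _ (self_mem_Fz y)))
        (fun e => S.ind y hy0 (Submodule.mem_span_singleton.2 ⟨c, (sub_eq_zero.1 e).symm⟩)) ?_
      rw [map_sub, map_smul]
      linear_combination (norm := module) -hc) (h1 y) (h1 (p y))
  have e2 : Submodule.span F {u, v} ≤ Fz F p y ⊔ Fz F p (g.1 y) := by
    rw [← e1]
    exact Submodule.span_le.2 (Set.pair_subset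
      (sub_mem (Submodule.mem_sup_right (self_mem_Fz _)) (Submodule.mem_sup_left (self_mem_Fz _)))
      (sub_mem (Submodule.mem_sup_right (hm _ (p_mem_Fz _))) (Submodule.mem_sup_left (p_mem_Fz _))))
  have e3 := Submodule.eq_of_le_of_finrank_le (sup_le
    ((S.sup_cl hf _ _).le (e2 (Submodule.subset_span (by simp : u ∈ ({u, v} : Set V)))))
    ((S.sup_cl hf _ _).le (e2 (Submodule.subset_span (by simp : v ∈ ({u, v} : Set V))))))
    (by rw [S.finrank_sup hu hv]; exact Spr.finrank_sup_le _ _)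
  rw [e3]
  exact Submodule.mem_sup_left (self_mem_Fz y)

theorem Spr.Cm_two (S : Spr f p) (hf : f.Nondeg) (hu : u ≠ 0) (hv : v ∉ Fz F p u) :
    (∀ y ∈ f.orth (Fz F p u ⊔ Fz F p v), y ∈ Cm p (str f u 1 * str f v 1)) ∧
    ∀ y ∈ Cm p (str f u 1 * str f v 1),
      y ∈ f.orth (Fz F p u ⊔ Fz F p v) ∨ y ∈ Fz F p u ⊔ Fz F p v := by
  refine ⟨fun y hy => mem_Cm_of_fix fun x hx => ?_, fun y hy => S.mem_of_Cm hf hu hv (fun x => ?_)
    (fun x hx => ?_) hy⟩
  · have := (S.orth_cl (S.sup_cl hf u v)).le hy hx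
    exact pair_fix _ _ x (this _ (Submodule.mem_sup_left (self_mem_Fz u)))
      (this _ (Submodule.mem_sup_right (self_mem_Fz v)))
  · refine Submodule.mem_span_pair.2 ⟨f.B x u + f.B x v * f.B v u, f.B x v, ?_⟩
    simp only [Isom.mul_apply, str_apply, B_add_left, B_smul_left]
    module
  · simp only [Isom.mul_apply, str_apply, B_add_left, B_smul_left, one_mul] at hx
    have h1 : f.B x v = 0 := by
      by_contra h
      refine hv ((Submodule.smul_mem_iff _ h).1 ?_)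
      rw [show f.B x v • v = -(f.B x u + f.B x v * f.B v u) • u by
        linear_combination (norm := module) hx]
      exact Submodule.smul_mem _ _ (self_mem_Fz u)
    refine ⟨?_, h1⟩
    simpa [h1, hu] using hx

theorem Spr.Cm_one (S : Spr f p) (hu : u ≠ 0) (ti : f.B u (p u) = 0) :
    Cm p (str f u 1) = f.orth (Fz F p u) := by
  ext y
  refine ⟨fun hy => S.orth_comm (mem_orth'.2 fun x hx => by_contra fun h => ?_), fun hy =>
    mem_Cm_of_fix fun x hx => str_orth ((S.orth_cl (S.mem u)).le hy hx _ (self_mem_Fz u))⟩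
  have hm : ∀ x ∈ Fz F p y, (str f u 1).1 x ∈ Fz F p ((str f u 1).1 y) := fun x hx =>
    hy ▸ Submodule.mem_map_of_mem (f := ((str f u 1).1 : V →ₗ[F] V)) hx
  have hy0 : y ≠ 0 := by
    rintro rfl
    rw [S.Fz_zero, Submodule.mem_bot] at hx
    simp [hx] at h
  obtain ⟨w, w1, w2, w3⟩ : ∃ w ∈ Fz F p y, w ≠ 0 ∧ f.B w u = 0 := by
    by_cases h1 : f.B y u = 0
    · exact ⟨y, self_mem_Fz y, hy0, h1⟩
    · refine ⟨f.B y u • p y - f.B (p y) u • y, sub_mem (Submodule.smul_mem _ _ (p_mem_Fz y))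
        (Submodule.smul_mem _ _ (self_mem_Fz y)), fun e => S.ind y hy0 ?_, by simp [mul_comm]⟩
      rw [← Submodule.smul_mem_iff _ h1, sub_eq_zero.1 e]
      exact Submodule.smul_mem _ _ (Submodule.mem_span_singleton_self y)
  have e : Fz F p ((str f u 1).1 y) = Fz F p y := by
    rw [← S.Fz_eq w1 w2, ← S.Fz_eq (str_orth (l := 1) w3 ▸ hm w w1) w2]
  have h1 := sub_mem (e ▸ hm x hx) hx
  rw [str_apply, add_sub_cancel_left, one_mul, Submodule.smul_mem_iff _ h] at h1
  rw [← S.Fz_eq h1 hu] at hx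
  obtain ⟨s, t, rfl⟩ := Submodule.mem_span_pair.1 hx
  simp [sp_B_self, f.B_eq_zero_symm ti] at h

theorem Spr.false_of_ti [Finite F] (S : Spr f p) (hf : f.Nondeg) (h5 : 5 ≤ finrank F V)
    (ti : ∀ z, f.B z (p z) = 0) (hH : ∀ h : f.Isom, h • ω = ω → ∀ y, y ∈ Cm p h) (rk : Rk f ω) :
    False := by
  have : Finite V := Module.finite_of_finite F
  have ti' : ∀ z, Fz F p z ≤ f.orth (Fz F p z) := fun z =>
    PCl.le (S.sym · z) (mem_orth_pair.2 ⟨f.sp_B_self z, ti z⟩)
  have : Nontrivial V := (finrank_pos_iff (R := F)).1 (by omega)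
  obtain ⟨u, hu⟩ := exists_ne (0 : V)
  have d1 := hf.finrank_add_orth (Fz F p u)
  rw [S.finrank_Fz hu] at d1
  obtain ⟨v, v1, v2⟩ := SetLike.not_le_iff_exists.1 (show ¬ f.orth (Fz F p u) ≤ Fz F p u from
    fun h => by have := Submodule.finrank_mono h; rw [S.finrank_Fz hu] at this; omega)
  obtain ⟨w, hw⟩ := hf.exists_ne_zero hu
  have w1 : w ∉ f.orth (Fz F p u) := fun h => hw (f.B_eq_zero_symm (h u (self_mem_Fz u)))
  have w2 : w ∉ Fz F p u := fun h => w1 (ti' u h)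
  have d2 := hf.finrank_add_orth (Fz F p u ⊔ Fz F p v)
  rw [S.finrank_sup hu v2] at d2
  have t2 : Fz F p u ⊔ Fz F p v ≤ f.orth (Fz F p u ⊔ Fz F p v) := by
    have := PCl.le (S.sym · u) v1
    rw [f.orth_sup]
    exact sup_le (le_inf (ti' u) (f.le_orth_comm.1 this)) (le_inf this (ti' v))
  have c0 : Cm p (1 : f.Isom) = (⊤ : Submodule F V) :=
    Set.eq_univ_of_forall fun y => mem_Cm_of_fix fun _ _ => rfl
  have c1 := S.Cm_one hu (ti u)
  have c2 : Cm p (str f u 1 * str f v 1) = f.orth (Fz F p u ⊔ Fz F p v) :=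
    Set.ext fun y => ⟨fun h => ((S.Cm_two hf hu v2).2 y h).elim id fun h => t2 h,
      (S.Cm_two hf hu v2).1 y⟩
  have key : ∀ {g g' : f.Isom} {A : Submodule F V}, DC ω g g' → Cm p g = A → f.orth A ≤ A →
      ∃ B : Submodule F V, Cm p g' = B ∧ f.orth B ≤ B ∧ finrank F B = finrank F A := by
    rintro g _ A ⟨h, h', a1, a2, rfl⟩ e1 e2
    refine ⟨A.map (h'⁻¹.1 : V →ₗ[F] V), ?_, ?_, LinearEquiv.finrank_map_eq _ _⟩
    · rw [Cm_mul (hH h a1) (hH h' a2), e1]
      ext y
      exact ⟨fun hy => ⟨_, hy, Isom.inv_apply h' y⟩, by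
        rintro ⟨x, hx, rfl⟩
        change h'.1 (h'⁻¹.1 x) ∈ A
        rwa [Isom.apply_inv]⟩
    · rw [← Isom.map_orth]
      exact Submodule.map_mono e2
  have no3 : ∀ B : Submodule F V, Cm p (str f u 1 * str f w 1) = B → f.orth B ≤ B → False := by
    intro B e1 e2
    obtain ⟨k1, k2⟩ := S.Cm_two hf hu w2
    rw [e1] at k1 k2
    have wm : w ∈ Fz F p u ⊔ Fz F p w := Submodule.mem_sup_right (self_mem_Fz w)
    rcases le_or_le_of_union k2 with h | h
    · exact w1 (f.orth_le le_sup_left (h (e2 (f.le_orth_comm.1 h wm))))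
    · have d3 := hf.finrank_add_orth (Fz F p u ⊔ Fz F p w)
      rw [S.finrank_sup hu w2] at d3
      obtain ⟨y, y1, y2⟩ := Submodule.exists_mem_ne_zero_of_ne_bot
        (p := f.orth (Fz F p u ⊔ Fz F p w)) fun e => by rw [e, finrank_bot] at d3; omega
      have y3 := (S.orth_cl (S.sup_cl hf u w)).le y1
      have y4 : y ∉ Fz F p u := fun h' => by
        rw [S.Fz_eq h' y2] at y3
        exact w1 (f.le_orth_comm.1 y3 wm)
      have e3 := Submodule.eq_of_le_of_finrank_le (sup_le le_sup_left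
        ((S.sup_cl hf u w).le (h (k1 y y1)))) (by rw [S.finrank_sup hu w2, S.finrank_sup hu y4])
      rw [← e3] at wm
      exact w1 (sup_le (ti' u) (y3.trans (f.orth_le le_sup_left)) wm)
  have o1 : f.orth (f.orth (Fz F p u)) ≤ f.orth (Fz F p u) := by rw [hf.orth_orth]; exact ti' u
  have o2 : f.orth (f.orth (Fz F p u ⊔ Fz F p v)) ≤ f.orth (Fz F p u ⊔ Fz F p v) := by
    rw [hf.orth_orth]; exact t2
  rcases rk 1 (str f u 1) (str f u 1 * str f v 1) (str f u 1 * str f w 1) with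
    h | h | h | h | h | h
  · obtain ⟨B, b1, -, b2⟩ := key h c0 le_top
    rw [← SetLike.coe_injective (c1.symm.trans b1), finrank_top] at b2
    omega
  · obtain ⟨B, b1, -, b2⟩ := key h c0 le_top
    rw [← SetLike.coe_injective (c2.symm.trans b1), finrank_top] at b2
    omega
  · obtain ⟨B, b1, b2, -⟩ := key h c0 le_top
    exact no3 B b1 b2
  · obtain ⟨B, b1, -, b2⟩ := key h c1 o1
    rw [← SetLike.coe_injective (c2.symm.trans b1)] at b2
    omega
  · obtain ⟨B, b1, b2, -⟩ := key h c1 o1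
    exact no3 B b1 b2
  · obtain ⟨B, b1, b2, -⟩ := key h c2 o2
    exact no3 B b1 b2

end Cfsg.Agent.R3S
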