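import Cfsg.Agent.Lib.R3S.T4

/-!
All transvections in one double coset: the spread cases.
-/

set_option autoImplicit false

namespace Cfsg.Agent.R3S

open Module Cfsg.Agent.Forms Cfsg.Agent.Forms.Form Cfsg.Agent.Cls Cfsg.Agent.Deg Cfsg.Agent.MI

variable {F : Type*} [Field F] {V : Type*} [AddCommGroup V] [Module F V]
  {f : Form (Param.sp F) V} {u y z z' v w e r u₁ u₂ u₃ : V} {l l' m l₁ l₂ l₃ : F}
  {X : Type*} [MulAction f.Isom X] {ω : X} {g a : f.Isom} {p : V → V}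

theorem NoTr.ne_zero (hN : NoTr f ω) (hz : z ≠ 0) (hl : l ≠ 0)
    (h : str f z l • ω = str f z' l' • ω) : z' ≠ 0 ∧ l' ≠ 0 := by
  constructor
  · rintro rfl
    rw [str_zero_left, one_smul] at h
    exact (hN z l h).elim hz hl
  · rintro rfl
    rw [str_zero, one_smul] at h
    exact (hN z l h).elim hz hl

theorem NoTr.eq_of_smul (hN : NoTr f ω) (hz : z ≠ 0) {c : F}
    (h : str f z l • ω = str f (c • z) l' • ω) : l = c * c * l' := by
  have := eqv_mem h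
  rw [str_smul, str_mul] at this
  exact neg_add_eq_zero.1 ((hN _ _ this).resolve_left hz)

theorem eqv_map (hg : g • ω = ω) (h : str f z l • ω = str f z' l' • ω) :
    str f (g.1 z) l • ω = str f (g.1 z') l' • ω := by
  rw [← smul_str hg, ← smul_str hg, h]

theorem eqv_fix (hg : g • ω = ω) (hz : g.1 z = z) (h : str f z l • ω = str f z' l' • ω) :
    str f z l • ω = str f (g.1 z') l' • ω := by
  rw [← eqv_map hg h, hz]

theorem B_eq_zero_of_mem (h : f.B u v = 0) (h1 : y ∈ Submodule.span F {u, v})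
    (h2 : z ∈ Submodule.span F {u, v}) : f.B y z = 0 := by
  obtain ⟨s, t, rfl⟩ := Submodule.mem_span_pair.1 h1
  obtain ⟨s', t', rfl⟩ := Submodule.mem_span_pair.1 h2
  simp [h, f.B_eq_zero_symm h, sp_B_self]

theorem eq_zero_of_mem_orth (hb : f.B u₁ u₂ ≠ 0) (h : y ∈ Submodule.span F {u₁, u₂})
    (h1 : f.B y u₁ = 0) (h2 : f.B y u₂ = 0) : y = 0 := by
  obtain ⟨s, t, rfl⟩ := Submodule.mem_span_pair.1 h
  simp only [B_add_left, B_smul_left, sp_B_self, mul_zero, zero_add, add_zero, mul_eq_zero, hb,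
    B_ne_symm hb, or_false] at h1 h2
  simp [h1, h2]

theorem pair_sub_mem (l₁ l₂ : F) (x : V) :
    (str f u₁ l₁ * str f u₂ l₂).1 x - x ∈ Submodule.span F {u₁, u₂} := by
  refine Submodule.mem_span_pair.2 ⟨l₁ * (f.B x u₁ + l₂ * f.B x u₂ * f.B u₂ u₁), l₂ * f.B x u₂, ?_⟩
  simp only [Isom.mul_apply, str_apply, B_add_left, B_smul_left]
  module

theorem orth_of_pair_fix (hu : u₁ ≠ 0) (h2 : u₂ ∉ F ∙ u₁) (n1 : l₁ ≠ 0) (n2 : l₂ ≠ 0) {x : V}
    (hx : (str f u₁ l₁ * str f u₂ l₂).1 x = x) : f.B x u₁ = 0 ∧ f.B x u₂ = 0 := by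
  simp only [Isom.mul_apply, str_apply, B_add_left, B_smul_left] at hx
  have h1 : f.B x u₂ = 0 := by
    by_contra h
    refine h2 ((Submodule.smul_mem_iff _ (mul_ne_zero n2 h)).1 ?_)
    rw [show (l₂ * f.B x u₂) • u₂ = -(l₁ * (f.B x u₁ + l₂ * f.B x u₂ * f.B u₂ u₁)) • u₁ by
      linear_combination (norm := module) hx]
    exact Submodule.smul_mem _ _ (Submodule.mem_span_singleton_self _)
  refine ⟨?_, h1⟩
  simpa [h1, hu, n1] using hx

variable (f ω) in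
/-- subspaces closed under passing to an equivalent transvection -/
def ECl (Y : Submodule F V) : Prop :=
  ∀ z ∈ Y, ∀ l z' l', z ≠ 0 → l ≠ 0 → str f z l • ω = str f z' l' • ω → z' ∈ Y

theorem ECl.inf {Y Y' : Submodule F V} (h : ECl f ω Y) (h' : ECl f ω Y') : ECl f ω (Y ⊓ Y') :=
  fun z hz l z' l' a b c => ⟨h z hz.1 l z' l' a b c, h' z hz.2 l z' l' a b c⟩

theorem ECl.map {Y : Submodule F V} (h : ECl f ω Y) (hg : g • ω = ω) :
    ECl f ω (Y.map (g.1 : V →ₗ[F] V)) := by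
  rintro _ ⟨z, hz, rfl⟩ l z' l' a b c
  have := eqv_map (inv_smul_eq_iff.2 hg.symm) c
  rw [LinearEquiv.coe_coe, Isom.inv_apply] at this
  exact ⟨_, h z hz l _ l' (fun e => a (by simp [e])) b this, Isom.apply_inv g z'⟩

variable (f ω) in
structure R0 : Prop where
  nd : f.Nondeg
  two : (2 : F) ≠ 0
  dim : 5 ≤ finrank F V
  no : NoTr f ω
  one : ∀ z l z' l', z ≠ 0 → l ≠ 0 → z' ≠ 0 → l' ≠ 0 →
    ∃ h : f.Isom, h • ω = ω ∧ h • str f z l • ω = str f z' l' • ω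
  max : IsCoatom (MulAction.stabilizer f.Isom ω)
  rk : Rk f ω

namespace R0

variable (R : R0 f ω)
include R

theorem exists_map (hz : z ≠ 0) (hl : l ≠ 0) (hz' : z' ≠ 0) (hl' : l' ≠ 0) :
    ∃ h : f.Isom, h • ω = ω ∧ str f (h.1 z) l • ω = str f z' l' • ω := by
  obtain ⟨h, h1, h2⟩ := R.one z l z' l' hz hl hz' hl'
  exact ⟨h, h1, by rw [← smul_str h1, h2]⟩

variable [Finite F]

theorem partner (hz : z ≠ 0) (hl : l ≠ 0) :
    ∃ z' l', str f z l • ω = str f z' l' • ω ∧ ¬ IsSquare (l * l') ∧ z' ∉ F ∙ z := by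
  obtain ⟨a, ha⟩ := FiniteField.exists_nonsquare (F := F) fun h =>
    R.two (by simpa [h] using (ringChar.Nat.cast_ringChar (R := F)))
  have a0 : a ≠ 0 := by rintro rfl; exact ha IsSquare.zero
  have hs : ¬ IsSquare (l * (a * l)) := fun ⟨b, hb⟩ => ha ⟨b / l, by
    field_simp
    linear_combination hb⟩
  obtain ⟨h, -, h2⟩ := R.exists_map hz (mul_ne_zero a0 hl) hz hl
  refine ⟨_, _, h2.symm, hs, fun hm => hs ?_⟩
  obtain ⟨c, hc⟩ := Submodule.mem_span_singleton.1 hm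
  rw [← hc] at h2
  exact ⟨c * (a * l), by linear_combination (a * l) * R.no.eq_of_smul hz h2.symm⟩

variable [FiniteDimensional F V]

theorem exists_spr (hC : ∀ u₁ l₁ u₂ l₂, u₁ ≠ 0 → l₁ ≠ 0 → str f u₁ l₁ • ω = str f u₂ l₂ • ω →
    u₂ ∉ F ∙ u₁ → ECl f ω (f.orth (Submodule.span F {u₁, u₂}))) :
    ∃ p : V → V, Spr f p ∧ (∀ h : f.Isom, h • ω = ω → ∀ y, y ∈ Cm p h) ∧
      ∀ z, z ≠ 0 → p z ∉ F ∙ z ∧ ∃ l, str f z 1 • ω = str f (p z) l • ω := by
  have h0 : ∀ z : V, ∃ z', (z = 0 → z' = 0) ∧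
      (z ≠ 0 → z' ∉ F ∙ z ∧ ∃ l, str f z 1 • ω = str f z' l • ω) := fun z => by
    by_cases hz : z = 0
    · exact ⟨0, fun _ => rfl, fun h => absurd hz h⟩
    · obtain ⟨z', l', h1, -, h2⟩ := R.partner hz one_ne_zero
      exact ⟨z', fun h => absurd h hz, fun _ => ⟨h2, l', h1⟩⟩
  choose p p0 p1 using h0
  have h1 : ∀ u₁ l₁ u₂ l₂, u₁ ≠ 0 → l₁ ≠ 0 → str f u₁ l₁ • ω = str f u₂ l₂ • ω →
      u₂ ∉ F ∙ u₁ → ECl f ω (Submodule.span F {u₁, u₂}) := by
    intro u₁ l₁ u₂ l₂ a1 a2 a3 a4 z hz l z' l' b1 b2 b3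
    rw [← R.nd.orth_orth (Submodule.span F {u₁, u₂})]
    intro y hy
    by_cases hy0 : y = 0
    · simp [hy0]
    obtain ⟨c1, m, c2⟩ := p1 y hy0
    have c3 := hC _ _ _ _ a1 a2 a3 a4 y hy 1 _ m hy0 one_ne_zero c2
    exact (mem_orth_pair.1 (hC _ _ _ _ hy0 one_ne_zero c2 c1 z
      (mem_orth_pair.2 ⟨mem_orth'.1 hy z hz, mem_orth'.1 c3 z hz⟩) l z' l' b1 b2 b3)).1
  have h2 : ∀ {Y : Submodule F V}, ECl f ω Y → PCl p Y := fun hY z hz => by
    by_cases hz0 : z = 0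
    · rw [p0 z hz0]; exact zero_mem _
    · obtain ⟨-, l, h⟩ := p1 z hz0
      exact hY z hz 1 _ l hz0 one_ne_zero h
  refine ⟨p, ⟨p0 0 rfl, fun z hz => (p1 z hz).1, fun z z' h => ?_, fun u v h => ?_⟩,
    fun h hh y => ?_, p1⟩
  · by_cases hz : z = 0
    · rw [Fz, p0 z hz, hz] at h ⊢
      rw [p0 z' (by simpa using h)]
      exact zero_mem _
    · obtain ⟨c1, l, c2⟩ := p1 z hz
      exact h2 (h1 _ _ _ _ hz one_ne_zero c2 c1) z' h
  · by_cases hv : v = 0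
    · simp [Fz, p0 0 rfl, hv]
    · obtain ⟨c1, l, c2⟩ := p1 v hv
      exact h2 (hC _ _ _ _ hv one_ne_zero c2 c1) u h
  · change _ = _
    rw [Submodule.map_span, Set.image_pair, LinearEquiv.coe_coe]
    by_cases hy : y = 0
    · simp [Fz, hy, p0 0 rfl]
    obtain ⟨c1, l, c2⟩ := p1 y hy
    have y0 : h.1 y ≠ 0 := by simpa using hy
    have c3 : h.1 (p y) ∉ F ∙ h.1 y := fun e => by
      obtain ⟨c, hc⟩ := Submodule.mem_span_singleton.1 e
      exact c1 (Submodule.mem_span_singleton.2 ⟨c, h.1.injective (by rw [map_smul, hc])⟩)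
    have m1 : h.1 y ∈ Submodule.span F {h.1 y, h.1 (p y)} := Submodule.subset_span (by simp)
    exact (span_pair_eq y0 (p1 _ y0).1 m1
      (h2 (h1 _ _ _ _ y0 one_ne_zero (eqv_map hh c2) c3) _ m1)).symm

theorem false_of_cross (n1 : l₁ ≠ 0) (e : str f u₁ l₁ • ω = str f u₂ l₂ • ω)
    (hs : ¬ IsSquare (l₁ * l₂)) (hb : f.B u₁ u₂ ≠ 0) : False := by
  have u0 : u₁ ≠ 0 := by rintro rfl; simp at hb
  have n2 := (R.no.ne_zero u0 n1 e).2
  have key : ∀ z l, z ≠ 0 → l ≠ 0 → ∃ a b, f.B a b ≠ 0 ∧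
      ∀ z' l', str f z l • ω = str f z' l' • ω → z' ∈ Submodule.span F {a, b} := by
    intro z l hz hl
    obtain ⟨h, h1, h2⟩ := R.exists_map u0 n1 hz hl
    refine ⟨h.1 u₁, h.1 u₂, by rwa [Isom.map_B], fun z' l' h3 => by_contra fun h4 => hs ?_⟩
    exact R.no.isSquare R.nd R.two (eqv_map h1 e) (h2.trans h3) n1 n2 (R.no.ne_zero hz hl h3).2
      (by rwa [Isom.map_B]) h4
  have key2 : ∀ z l z' l', z ≠ 0 → l ≠ 0 → str f z l • ω = str f z' l' • ω → z' ∉ F ∙ z →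
      f.B z z' ≠ 0 ∧ ∀ y m, str f z l • ω = str f y m • ω → y ∈ Submodule.span F {z, z'} := by
    intro z l z' l' hz hl h1 h2
    obtain ⟨a, b, h3, h4⟩ := key z l hz hl
    have h5 := span_pair_eq hz h2 (h4 z l rfl) (h4 z' l' h1)
    rw [← h5] at h4
    refine ⟨fun h6 => h3 (B_eq_zero_of_mem h6 ?_ ?_), h4⟩ <;> rw [h5] <;>
      exact Submodule.subset_span (by simp)
  obtain ⟨p, S, -, hp⟩ := R.exists_spr fun v₁ m₁ v₂ m₂ a1 a2 a3 a4 z hz l z' l' b1 b2 b3 => by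
    obtain ⟨z1, z2⟩ := mem_orth_pair.1 hz
    by_cases h : z' ∈ F ∙ z
    · exact (Submodule.span_singleton_le_iff_mem _ _).2 hz h
    obtain ⟨c1, c2⟩ := key2 z l z' l' b1 b2 b3 h
    have c3 := c2 _ _ (eqv_fix (eqv_mem a3) (pair_fix _ _ z z1 z2) b3)
    have c4 := pair_sub_mem (f := f) (u₁ := v₁) (u₂ := v₂) (-m₁) m₂ z'
    obtain ⟨s, t, hst⟩ := Submodule.mem_span_pair.1
      (sub_mem c3 (Submodule.subset_span (by simp : z' ∈ ({z, z'} : Set V))))
    rw [← hst] at c4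
    have c5 := hz _ c4
    simp only [B_add_right, sp_B_smul_right, sp_B_self, mul_zero, zero_add, mul_eq_zero, c1,
      or_false] at c5
    rw [c5, zero_smul, add_zero] at hst c4
    rw [eq_zero_of_mem_orth (key2 _ _ _ _ a1 a2 a3 a4).1 c4 (by simp [z1]) (by simp [z2])] at hst
    exact mem_orth_pair.2 (orth_of_pair_fix a1 a4 (neg_ne_zero.2 a2) (R.no.ne_zero a1 a2 a3).2
      (sub_eq_zero.1 hst.symm))
  obtain ⟨z, hz, h⟩ := S.exists_abs R.nd R.dim
  obtain ⟨c1, l, c2⟩ := hp z hz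
  exact (key2 _ _ _ _ hz one_ne_zero c2 c1).1 h

theorem false_of_perp (hP : ∀ z l z' l', z ≠ 0 → l ≠ 0 → str f z l • ω = str f z' l' • ω →
    f.B z z' = 0) : False := by
  obtain ⟨p, S, hH, hp⟩ := R.exists_spr fun u₁ l₁ u₂ l₂ a1 a2 a3 a4 z hz l z' l' b1 b2 b3 => by
    obtain ⟨z1, z2⟩ := mem_orth_pair.1 hz
    obtain ⟨a5, a6⟩ := R.no.ne_zero a1 a2 a3
    obtain ⟨b4, b5⟩ := R.no.ne_zero b1 b2 b3
    have hb := hP _ _ _ _ a1 a2 a3
    have hb' := f.B_eq_zero_symm hb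
    have c1 := eqv_fix (eqv_mem a3) (pair_fix _ _ z z1 z2) b3
    have c2 := hP _ _ _ _ b4 b5 (b3.symm.trans c1)
    simp only [Isom.mul_apply, str_apply, B_add_left, B_add_right, B_smul_left, sp_B_smul_right,
      sp_B_self, hb'] at c2
    by_contra hc
    have n1 : f.B z' u₁ ≠ 0 := fun e => hc (mem_orth_pair.2 ⟨e, by
      rw [e] at c2
      exact mul_self_eq_zero.1 (mul_left_cancel₀ a6 (by linear_combination c2))⟩)
    have n2 : f.B z' u₂ ≠ 0 := fun e => by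
      rw [e] at c2
      exact mul_ne_zero a2 (mul_ne_zero n1 n1) (by linear_combination -c2)
    set β₁ := f.B z' u₁ with h₁
    set β₂ := f.B z' u₂ with h₂
    have r0 : β₂ • u₁ - β₁ • u₂ ≠ 0 := fun e => a4 (by
      rw [← Submodule.smul_mem_iff _ n1, ← sub_eq_zero.1 e]
      exact Submodule.smul_mem _ _ (Submodule.mem_span_singleton_self _))
    have d1 : IsE (str f u₁ (-l₁) * str f u₂ l₂) (β₂ • u₁ - β₁ • u₂)
        ((-l₁ / (2 * β₂ * β₂)) • (β₂ • u₁ + β₁ • u₂)) 0 := by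
      refine ⟨by simp [hb, hb', sp_B_self], f.sp_isLam _ _, fun w => ?_⟩
      have two := R.two
      simp only [Isom.mul_apply, str_apply, B_add_left, B_add_right, B_smul_left, sp_B_smul_right,
        B_sub_right, hb', Param.sp_ε]
      match_scalars
      · ring
      · field_simp
        linear_combination (2 * f.B w u₂) * c2
      · field_simp
        ring
    have d2 := d1.conj (str f z' (-l'))
    rw [str_orth (w := β₂ • u₁ - β₁ • u₂) (by
      rw [B_sub_left, B_smul_left, B_smul_left, f.sp_symm z' u₁, f.sp_symm z' u₂]; ring)] at d2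
    have d3 := (Fx.comm (f.sp_Q _) ⟨_, d1, eqv_mem a3⟩ ⟨_, d2, by
      rw [mul_smul, mul_smul, str_inv, neg_neg, ← b3, smul_str (eqv_mem a3), pair_fix _ _ z z1 z2,
        b3, ← str_inv, inv_smul_smul]⟩)
    have d4 := R.no.of_fx r0 d3
    simp only [str_apply, B_add_left, B_add_right, B_smul_left, sp_B_smul_right, sp_B_self, hb, hb',
      f.sp_symm z', ← h₁, ← h₂] at d4
    have two := R.two
    field_simp at d4
    refine mul_ne_zero (mul_ne_zero two two) (mul_ne_zero two (mul_ne_zero b5 (mul_ne_zero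
      (mul_ne_zero a2 (mul_ne_zero n1 n2)) (mul_ne_zero a2 (mul_ne_zero n1 n2))))) ?_
    linear_combination d4
  refine S.false_of_ti R.nd R.dim (fun z => ?_) hH R.rk
  by_cases hz : z = 0
  · simp [hz]
  · obtain ⟨-, l, h⟩ := hp z hz
    exact hP _ _ _ _ hz one_ne_zero h

end R0

end Cfsg.Agent.R3S
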