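import Cfsg.Agent.Lib.R3S.T5

/-!
All transvections in one double coset: the remaining case.
-/

set_option autoImplicit false

namespace Cfsg.Agent.R3S

open Module Cfsg.Agent.Forms Cfsg.Agent.Forms.Form Cfsg.Agent.Cls Cfsg.Agent.Deg Cfsg.Agent.MI

variable {F : Type*} [Field F] {V : Type*} [AddCommGroup V] [Module F V]
  {f : Form (Param.sp F) V} {u y z z' v w e r u₁ u₂ u₃ v₁ v₂ : V} {l l' m l₁ l₂ l₃ m₁ m₂ : F}
  {X : Type*} [MulAction f.Isom X] {ω : X} {g a : f.Isom} {p : V → V}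

theorem isE_pair (h : f.B w r = 0) (l : F) :
    IsE (str f (-w + r) (-l) * str f (w + r) l) r ((2 * l) • w) 0 := by
  refine ⟨by simp [h], f.sp_isLam _ _, fun x => ?_⟩
  simp only [Isom.mul_apply, str_apply, B_add_left, B_add_right, B_smul_left, sp_B_smul_right,
    B_neg_right, h, f.B_eq_zero_symm h, sp_B_self, Param.sp_ε]
  module

theorem str_four (h : f.B w r = 0) {i : F} (hi : i * i = -1) (l : F) :
    str f (i • w + r) (-l) * str f (w + r) l * (str f (-(i • w) + r) (-l) * str f (-w + r) l) =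
      str f w (4 * l) := Isom.ext fun x => by
  simp only [Isom.mul_apply, str_apply, B_add_left, B_add_right, B_smul_left, sp_B_smul_right,
    B_neg_right, h, f.B_eq_zero_symm h, sp_B_self, B_neg_left]
  match_scalars
  · ring
  · linear_combination (-2 * l * f.B x w) * hi
  · ring

theorem mem_span_of_B [FiniteDimensional F V] (hb : f.B u₁ u₂ ≠ 0) (hw : w ≠ 0)
    (h1 : w ∈ Submodule.span F {u₁, u₂}) (h2 : y ∈ Submodule.span F {u₁, u₂}) (h : f.B w y = 0) :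
    y ∈ F ∙ w := by_contra fun hc => hb (B_eq_zero_of_mem h
      (by rw [span_pair_eq hw hc h1 h2]; exact Submodule.subset_span (by simp))
      (by rw [span_pair_eq hw hc h1 h2]; exact Submodule.subset_span (by simp)))

theorem left_mem_span (u v : V) : u ∈ Submodule.span F {u, v} := Submodule.subset_span (by simp)

theorem right_mem_span (u v : V) : v ∈ Submodule.span F {u, v} := Submodule.subset_span (by simp)

variable (f ω) in
/-- equivalent transvections of different type commute -/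
def CrossPerp : Prop := ∀ z l z' l', z ≠ 0 → l ≠ 0 → str f z l • ω = str f z' l' • ω →
  ¬ IsSquare (l * l') → f.B z z' = 0

variable (f ω) in
/-- equivalent transvections which do not commute -/
def NP (u₁ u₂ : V) : Prop :=
  f.B u₁ u₂ ≠ 0 ∧ ∃ l₁ l₂, l₁ ≠ 0 ∧ str f u₁ l₁ • ω = str f u₂ l₂ • ω

theorem NP.map (h : NP f ω u₁ u₂) (hg : g • ω = ω) : NP f ω (g.1 u₁) (g.1 u₂) :=
  let ⟨hb, l₁, l₂, h1, h2⟩ := h
  ⟨by rwa [Isom.map_B], l₁, l₂, h1, eqv_map hg h2⟩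

namespace R0

variable (R : R0 f ω) [Finite F] [FiniteDimensional F V] (hX : CrossPerp f ω)
include R hX

omit [FiniteDimensional F V] in
theorem third (n1 : l₁ ≠ 0) (e : str f u₁ l₁ • ω = str f u₂ l₂ • ω) (hb : f.B u₁ u₂ ≠ 0) :
    ∃ u₃ l₃, str f u₁ l₁ • ω = str f u₃ l₃ • ω ∧ f.B u₁ u₃ = 0 ∧ f.B u₂ u₃ = 0 ∧
      u₃ ∉ Submodule.span F {u₁, u₂} := by
  have u0 : u₁ ≠ 0 := by rintro rfl; simp at hb
  obtain ⟨a1, a2⟩ := R.no.ne_zero u0 n1 e
  obtain ⟨u₃, l₃, h1, h2, -⟩ := R.partner u0 n1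
  have p1 := hX _ _ _ _ u0 n1 h1 h2
  obtain ⟨d, hd⟩ : IsSquare (l₁ * l₂) := by_contra fun h => hb (hX _ _ _ _ u0 n1 e h)
  have p2 := hX _ _ _ _ a1 a2 (e.symm.trans h1) fun ⟨c, hc⟩ => h2 ⟨c * d / l₂, by
    field_simp
    linear_combination (l₂ * l₃) * hd + d * d * hc⟩
  exact ⟨u₃, l₃, h1, p1, p2, fun h => (R.no.ne_zero u0 n1 h1).1
    (eq_zero_of_mem_orth hb h (f.B_eq_zero_symm p1) (f.B_eq_zero_symm p2))⟩

theorem exists_rot (h : NP f ω u₁ u₂) : ∃ g : f.Isom, g • ω = ω ∧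
    (∀ y, f.B y u₁ = 0 → f.B y u₂ = 0 → g.1 y = y) ∧
    ∀ w ∈ Submodule.span F {u₁, u₂}, g.1 w ∈ Submodule.span F {u₁, u₂} ∧ g.1 (g.1 w) = -w := by
  obtain ⟨hb, l₁, l₂, n1, e⟩ := h
  have u0 : u₁ ≠ 0 := by rintro rfl; simp at hb
  obtain ⟨u₃, l₃, h1, p1, p2, h3⟩ := R.third hX n1 e hb
  have hx := R.no.eq_neg_two R.nd R.two e h1 n1 (R.no.ne_zero u0 n1 e).2 (R.no.ne_zero u0 n1 h1).2
    hb h3 p1 p2
  refine ⟨_, eqv_mem e, pair_fix _ _, fun w hw => ⟨(Submodule.sub_mem_iff_left _ hw).1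
    (pair_sub_mem _ _ w), ?_⟩⟩
  obtain ⟨s, t, rfl⟩ := Submodule.mem_span_pair.1 hw
  have := cayley₀ R.nd hb (pair_fix (f := f) (-l₁) l₂) s t
  rw [tw_pair₁ hb, show 2 - -l₁ * l₂ * f.B u₁ u₂ ^ 2 = 0 by linear_combination hx, zero_smul,
    sub_zero] at this
  exact eq_neg_of_add_eq_zero_left this

theorem np_or (h : NP f ω u₁ u₂) (hz : z ∈ f.orth (Submodule.span F {u₁, u₂})) (z0 : z ≠ 0)
    (l0 : l ≠ 0) (e : str f z l • ω = str f z' l' • ω) :
    z' ∈ f.orth (Submodule.span F {u₁, u₂}) ∨ z' ∈ Submodule.span F {u₁, u₂} := by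
  obtain ⟨g, g1, g2, g3⟩ := R.exists_rot hX h
  obtain ⟨z1, z2⟩ := mem_orth_pair.1 hz
  obtain ⟨s, t, r, r1, r2, rfl⟩ := exists_dec h.1 z'
  have hw : s • u₁ + t • u₂ ∈ Submodule.span F {u₁, u₂} := Submodule.mem_span_pair.2 ⟨s, t, rfl⟩
  generalize s • u₁ + t • u₂ = w at hw e
  have hr : r ∈ f.orth (Submodule.span F {u₁, u₂}) := mem_orth_pair.2 ⟨r1, r2⟩
  by_cases w0 : w = 0
  · left; rwa [w0, zero_add]
  by_cases r0 : r = 0
  · right; rwa [r0, add_zero]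
  exfalso
  have l1 := (R.no.ne_zero z0 l0 e).2
  have e1 := eqv_fix g1 (g2 z z1 z2) e
  rw [map_add, g2 r r1 r2] at e1
  have e2 := eqv_fix g1 (g2 z z1 z2) e1
  rw [map_add, g2 r r1 r2, (g3 w hw).2] at e2
  have e3 := eqv_fix g1 (g2 z z1 z2) e2
  rw [map_add, g2 r r1 r2, map_neg] at e3
  have b1 := mem_orth'.1 hr w hw
  have b2 := mem_orth'.1 hr _ (g3 w hw).1
  have c1 := R.no.of_fx r0 (Fx.comm (f.sp_Q r) ⟨_, isE_pair b1 l', eqv_mem (e2.symm.trans e)⟩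
    ⟨_, isE_pair b2 l', eqv_mem (e3.symm.trans e1)⟩)
  simp only [B_smul_left, sp_B_smul_right, f.sp_symm w (g.1 w)] at c1
  have t := R.two
  have c2 : f.B w (g.1 w) = 0 := mul_left_cancel₀ (mul_ne_zero t (mul_ne_zero (mul_ne_zero t l1)
    (mul_ne_zero t l1))) (by linear_combination -c1)
  obtain ⟨i, hi⟩ := Submodule.mem_span_singleton.1 (mem_span_of_B h.1 w0 hw (g3 w hw).1 c2)
  have c3 : i * i = -1 := by
    have := (g3 w hw).2
    rw [← hi, map_smul, ← hi, smul_smul, ← neg_one_smul F w] at this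
    exact smul_left_injective F w0 this
  rw [← hi] at e1 e3
  have c4 := R.no w (4 * l') (by
    rw [← str_four b1 c3, mul_smul, eqv_mem (e3.symm.trans e2), eqv_mem (e1.symm.trans e)])
  exact mul_ne_zero (mul_ne_zero t t) l1 (by linear_combination c4.resolve_left w0)

theorem np_aux (h : NP f ω u₁ u₂) (h' : NP f ω v₁ v₂)
    (n1 : ¬ Submodule.span F {u₁, u₂} ≤ Submodule.span F {v₁, v₂})
    (n2 : ¬ Submodule.span F {u₁, u₂} ≤ f.orth (Submodule.span F {v₁, v₂}))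
    (hz : z ∈ f.orth (Submodule.span F {u₁, u₂})) (hz' : z ∈ f.orth (Submodule.span F {v₁, v₂}))
    (z0 : z ≠ 0) (l0 : l ≠ 0) (e : str f z l • ω = str f z' l' • ω) :
    z' ∈ f.orth (Submodule.span F {u₁, u₂}) := by
  refine (R.np_or hX h hz z0 l0 e).resolve_right fun hw => ?_
  obtain ⟨g, g1, g2, g3⟩ := R.exists_rot hX h
  obtain ⟨z1, z2⟩ := mem_orth_pair.1 hz
  obtain ⟨w0, l1⟩ := R.no.ne_zero z0 l0 e
  have e1 := eqv_fix g1 (g2 z z1 z2) e
  have i1 : g.1 z' ∉ F ∙ z' := fun hm => by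
    obtain ⟨i, hi⟩ := Submodule.mem_span_singleton.1 hm
    have c3 : i * i = -1 := by
      have := (g3 z' hw).2
      rw [← hi, map_smul, ← hi, smul_smul, ← neg_one_smul F z'] at this
      exact smul_left_injective F w0 this
    rw [← hi] at e1
    have := R.no.eq_of_smul w0 (e.symm.trans e1)
    exact mul_ne_zero R.two l1 (by linear_combination this + l' * c3)
  have i2 := span_pair_eq w0 i1 hw (g3 z' hw).1
  have i3 : f.B z' (g.1 z') ≠ 0 := fun e => i1 (mem_span_of_B h.1 w0 hw (g3 z' hw).1 e)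
  rw [← i2] at n1 n2
  rcases R.np_or hX h' hz' z0 l0 e with a | a <;> rcases R.np_or hX h' hz' z0 l0 e1 with b | b
  · exact n2 (Submodule.span_le.2 (Set.pair_subset a b))
  · exact i3 (a _ b)
  · exact i3 (mem_orth'.1 b _ a)
  · exact n1 (Submodule.span_le.2 (Set.pair_subset a b))

theorem np_eq_or (h : NP f ω u₁ u₂) (h' : NP f ω v₁ v₂) :
    Submodule.span F {u₁, u₂} = Submodule.span F {v₁, v₂} ∨
      Submodule.span F {u₁, u₂} ≤ f.orth (Submodule.span F {v₁, v₂}) := by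
  classical
  by_contra hc
  push Not at hc
  have fr : ∀ {a b : V}, NP f ω a b → finrank F (Submodule.span F {a, b}) = 2 := fun h =>
    finrank_pair (by rintro rfl; exact h.1 (by simp))
      (not_mem_span_of_B (f.B_eq_zero_symm (f.sp_B_self _)) (B_ne_symm h.1))
  have n1 : ¬ Submodule.span F {u₁, u₂} ≤ Submodule.span F {v₁, v₂} := fun e =>
    hc.1 (Submodule.eq_of_le_of_finrank_le e (by rw [fr h, fr h']))
  have n1' : ¬ Submodule.span F {v₁, v₂} ≤ Submodule.span F {u₁, u₂} := fun e =>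
    hc.1 (Submodule.eq_of_le_of_finrank_le e (by rw [fr h, fr h'])).symm
  have n2' : ¬ Submodule.span F {v₁, v₂} ≤ f.orth (Submodule.span F {u₁, u₂}) := fun e =>
    hc.2 (f.le_orth_comm.1 e)
  have u0 : u₁ ≠ 0 := by rintro rfl; exact h.1 (by simp)
  set W := Submodule.span F {u₁, u₂} with hW
  set W' := Submodule.span F {v₁, v₂} with hW'
  have cY : ECl f ω (f.orth W ⊓ f.orth W') := fun z hz l z' l' a b c =>
    ⟨R.np_aux hX h h' n1 hc.2 hz.1 hz.2 a b c, R.np_aux hX h' h n1' n2' hz.2 hz.1 a b c⟩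
  have Y0 : f.orth W ⊓ f.orth W' ≠ ⊥ := fun e => by
    have a1 := R.nd.finrank_add_orth (W ⊔ W')
    have a2 := Submodule.finrank_add_le_finrank_add_finrank W W'
    have := R.dim
    rw [f.orth_sup, e, finrank_bot] at a1
    rw [fr h, fr h'] at a2
    omega
  have ex : ∃ n, ∃ A : Submodule F V, ECl f ω A ∧ A ≠ ⊥ ∧ finrank F A = n := ⟨_, _, cY, Y0, rfl⟩
  obtain ⟨A₀, A1, A2, A3⟩ := Nat.find_spec ex
  have hmin : ∀ A : Submodule F V, ECl f ω A → A ≠ ⊥ → Nat.find ex ≤ finrank F A :=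
    fun A a b => Nat.find_min' ex ⟨A, a, b, rfl⟩
  obtain ⟨z₀, z1, z2⟩ := Submodule.exists_mem_ne_zero_of_ne_bot A2
  have hA : ∀ z, z ≠ 0 → ∃ A : Submodule F V, ECl f ω A ∧ z ∈ A ∧ finrank F A = Nat.find ex := by
    intro z hz
    obtain ⟨k, k1, k2⟩ := R.exists_map z2 one_ne_zero hz one_ne_zero
    exact ⟨_, A1.map k1, A1.map k1 _ (Submodule.mem_map_of_mem z1) _ _ _ (by simpa using z2)
      one_ne_zero k2, by rw [LinearEquiv.finrank_map_eq, A3]⟩
  have hle : ∀ A B : Submodule F V, ECl f ω A → finrank F A = Nat.find ex → ECl f ω (A ⊓ B) →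
      ∀ y, y ≠ 0 → y ∈ A → y ∈ B → A ≤ B := fun A B a1 a2 a3 y y0 y1 y2 =>
    inf_eq_left.1 (Submodule.eq_of_le_of_finrank_le inf_le_left (a2 ▸ hmin _ a3
      (Submodule.ne_bot_iff _ |>.2 ⟨y, ⟨y1, y2⟩, y0⟩)))
  obtain ⟨A, B1, B2, B3⟩ := hA u₁ u0
  obtain ⟨hb, l₁, l₂, l0, e⟩ := h
  have WA : W ≤ A := Submodule.span_le.2 (Set.pair_subset B2 (B1 _ B2 _ _ _ u0 l0 e))
  have d3 : 2 < Nat.find ex := by
    obtain ⟨u₃, l₃, h1, -, -, h3⟩ := R.third hX l0 e hb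
    rw [← B3, ← fr ⟨hb, l₁, l₂, l0, e⟩]
    exact Submodule.finrank_lt_finrank_of_lt (lt_of_le_of_ne WA fun e' =>
      h3 (e'.ge (B1 _ B2 _ _ _ u0 l0 h1)))
  have key : ∀ y ∈ f.orth W, y ∈ A ∨ y ∈ f.orth W ⊓ f.orth W' := fun y hy => by
    refine or_iff_not_imp_left.2 fun hyA => ?_
    have y0 : y ≠ 0 := by rintro rfl; exact hyA (zero_mem _)
    obtain ⟨C, C1, C2, C3⟩ := hA y y0
    have c1 : C ≤ f.orth W := hle C _ C1 C3 (fun z hz l z' l' a b c => ⟨C1 z hz.1 l z' l' a b c,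
      (R.np_or hX ⟨hb, l₁, l₂, l0, e⟩ hz.2 a b c).resolve_right fun hm => hyA
        (hle C A C1 C3 (C1.inf B1) z' (R.no.ne_zero a b c).1 (C1 z hz.1 l z' l' a b c) (WA hm) C2)⟩)
      y y0 C2 hy
    obtain ⟨x, x1, x2, x3⟩ := exists_orth_of_lt R.nd (S := W') (T := C) (by rw [fr h', C3]; exact d3)
    exact hle C _ C1 C3 (C1.inf cY) x x2 x1 ⟨c1 x1, x3⟩ C2
  rcases le_or_le_of_union key with k | k
  · have k1 : A = ⊤ := eq_top_iff.2 fun x _ => by
      obtain ⟨s, t, r, r1, r2, rfl⟩ := exists_dec hb x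
      exact add_mem (WA (Submodule.mem_span_pair.2 ⟨s, t, rfl⟩)) (k (mem_orth_pair.2 ⟨r1, r2⟩))
    have k2 := hmin _ cY Y0
    rw [← B3, k1] at k2
    have k3 := Submodule.eq_of_le_of_finrank_le le_top k2
    exact hb ((k3.ge (Submodule.mem_top (x := u₁))).1 _ (right_mem_span u₁ u₂))
  · exact n1' (R.nd.orth_le_orth_iff.1 (k.trans inf_le_right))

theorem not_np (h : NP f ω u₁ u₂) : False := by
  let D : Set V := {v | ∃ a b, NP f ω a b ∧ v ∈ Submodule.span F {a, b}}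
  let K : Subgroup f.Isom :=
    { carrier := {g | ∀ v, g.1 v ∈ D ↔ v ∈ D}
      one_mem' := fun v => Iff.rfl
      mul_mem' := fun ha hb v => (ha _).trans (hb v)
      inv_mem' := fun {a} ha v => by rw [← ha, Isom.apply_inv] }
  have a1 : ∀ g : f.Isom, g • ω = ω → ∀ v ∈ D, g.1 v ∈ D := by
    rintro g hg v ⟨a, b, h1, h2⟩
    obtain ⟨s, t, rfl⟩ := Submodule.mem_span_pair.1 h2
    exact ⟨_, _, h1.map hg, Submodule.mem_span_pair.2 ⟨s, t, by simp⟩⟩
  have a2 : ∀ l, ∀ v ∈ D, (str f u₁ l).1 v ∈ D := by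
    rintro l v ⟨a, b, h1, h2⟩
    refine ⟨a, b, h1, ?_⟩
    rcases R.np_eq_or hX h h1 with e | e
    · rw [str_apply]
      exact add_mem h2 (Submodule.smul_mem _ _ (e ▸ left_mem_span u₁ u₂))
    · rwa [str_orth (mem_orth'.1 (e (left_mem_span u₁ u₂)) v h2)]
  have u0 : u₁ ≠ 0 := by rintro rfl; exact h.1 (by simp)
  have a3 : K = ⊤ := R.max.2 K (lt_of_le_of_ne (fun g hg v => ⟨fun hv => by
      simpa only [Isom.inv_apply] using a1 g⁻¹ (inv_mem hg) _ hv, a1 g hg v⟩) fun e =>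
    (R.no u₁ 1 (e.ge (show str f u₁ 1 ∈ K from fun v => ⟨fun hv => by
      simpa only [← str_inv, Isom.inv_apply] using a2 (-1) _ hv, a2 1 v⟩))).elim u0 one_ne_zero)
  obtain ⟨y, -, y0, y1⟩ := exists_orth_of_lt R.nd (S := Submodule.span F {u₁, u₂}) (T := ⊤) (by
    have := finrank_pair_le (F := F) u₁ u₂
    have := R.dim
    rw [finrank_top]; omega)
  obtain ⟨y1, y2⟩ := mem_orth_pair.1 y1
  have b0 : f.B (u₁ + y) u₂ ≠ 0 := by simpa [y2] using h.1
  obtain ⟨g, hg⟩ := R.nd.witt_one u0 (y := u₁ + y) (by rintro e; simp [e] at b0)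
    (by simp only [sp_B_self]) (by simp only [sp_Q])
  obtain ⟨a, b, h1, h2⟩ := ((a3.ge (Subgroup.mem_top g)) u₁).2 ⟨_, _, h, left_mem_span u₁ u₂⟩
  rw [hg] at h2
  rcases R.np_eq_or hX h h1 with e | e
  · rw [← e, Submodule.add_mem_iff_right _ (left_mem_span u₁ u₂)] at h2
    exact y0 (eq_zero_of_mem_orth h.1 h2 y1 y2)
  · exact b0 (mem_orth'.1 (e (right_mem_span u₁ u₂)) _ h2)

omit hX in
theorem false : False :=
  R.false_of_perp fun z l z' l' a b c => by_contra fun h => R.not_np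
    (fun _ _ _ _ _ b c d => by_contra fun h => R.false_of_cross b c d h) ⟨h, l, l', b, c⟩

end R0

end Cfsg.Agent.R3S
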