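import Cfsg.Agent.Lib.R3S.T6

/-!
Small actions of symplectic groups in which no transvection has a fixed point.
-/

set_option autoImplicit false

namespace Cfsg.Agent.R3S

open Module Cfsg.Agent.Forms Cfsg.Agent.Forms.Form Cfsg.Agent.Cls Cfsg.Agent.Deg Cfsg.Agent.MI

variable {F : Type*} [Field F] {V : Type*} [AddCommGroup V] [Module F V]
  {f : Form (Param.sp F) V} {u y z v w e : V} {l : F}
  {X : Type*} [MulAction f.Isom X] {ω : X} {g : f.Isom}

variable (f) in
/-- minus the identity -/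
def negI : f.Isom := ⟨LinearEquiv.neg F, sp_isIsom fun x y => by simp⟩

theorem negI_apply (x : V) : (negI f).1 x = -x := rfl

theorem card_mul_le_of_so [Finite X] {ι : Type*} [Finite ι] (φ : ι → X)
    (h1 : ∀ i j, SO f u (φ i) (φ j) → i = j) {m : ℕ} (h2 : ∀ i, m ≤ {x | SO f u (φ i) x}.ncard)
    {T : Set X} (h3 : ∀ i x, SO f u (φ i) x → x ∈ T) : Nat.card ι * m ≤ T.ncard := by
  cases nonempty_fintype ι
  have := Nat.card_le_card_of_injective (fun p : Σ i, {x | SO f u (φ i) x} => (⟨p.2, h3 _ _ p.2.2⟩ : T))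
    (by
      rintro ⟨i, x, hx⟩ ⟨j, y, hy⟩ h
      obtain rfl : x = y := congrArg Subtype.val h
      obtain rfl := h1 i j (SO.trans (f.sp_Q u) hx (SO.symm (f.sp_Q u) hy))
      rfl)
  rw [Nat.card_sigma] at this
  refine le_trans ?_ this
  rw [Nat.card_eq_fintype_card, ← smul_eq_mul, ← Finset.card_univ]
  exact Finset.card_nsmul_le_sum _ _ _ fun i _ => h2 i

theorem NoTr.perp_of_Sb (h2 : (2 : F) ≠ 0) (hN : NoTr f ω) (hu : u ≠ 0) (h : v ∈ Sb f u ω)
    (h' : w ∈ Sb f u ω) : f.B v w = 0 := by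
  have := comm_mem_tau (f.sp_Q u) h h'
  rw [hN.tau_eq hu, AddSubgroup.mem_bot, f.sp_symm v w] at this
  exact mul_left_cancel₀ h2 (by linear_combination -this)

variable [Finite F] [Finite V]

theorem card_le_of_ann (hf : f.Nondeg) (c : Chr (Param.sp F)) {S : AddSubgroup V}
    (h : S ≤ c.ann f S) {n : ℕ} (hn : Nat.card V = n * n) : Nat.card S ≤ n := by
  have h1 := c.card_mul_card_ann hf S
  have h2 := AddSubgroup.card_le_of_le h
  by_contra h3
  nlinarith

theorem NoTr.card_orbit (hf : f.Nondeg) (hN : NoTr f ω) (hu : u ≠ 0) :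
    {x | SO f u ω x}.ncard * Nat.card (Sb f u ω) = Nat.card V := by
  have := card_orbit_aux (f.sp_Q u) ω
  rwa [hN.tau_eq hu, AddSubgroup.card_bot, mul_one, card_Lam_sp, mul_comm (Nat.card (f.orth _)),
    card_perp hf hu] at this

variable (f X) in
structure R1 (j : ℕ) : Prop where
  nd : f.Nondeg
  two : (2 : F) ≠ 0
  dim : finrank F V = 2 * j + 6
  no : ∀ x : X, NoTr f x
  small : Nat.card X ≤ Nat.card V
  neg : ∀ x : X, negI f • x = x

namespace R1

variable [Finite X] {j : ℕ} (R : R1 f X j)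
include R

omit [Finite X] [Finite V] in
theorem card_V : Nat.card V = Nat.card F ^ (j + 3) * Nat.card F ^ (j + 3) := by
  have : FiniteDimensional F V := .of_finrank_pos (by rw [R.dim]; omega)
  rw [Module.natCard_eq_pow_finrank (K := F), R.dim]; ring

omit [Finite X] in
theorem card_Sb (hu : u ≠ 0) (x : X) : Nat.card (Sb f u x) ≤ Nat.card F ^ (j + 3) := by
  obtain ⟨c⟩ := exists_chr_sp F
  exact card_le_of_ann R.nd c (fun a ha => Chr.mem_ann_of_B fun v hv =>
    (R.no x).perp_of_Sb R.two hu hv ha) R.card_V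

theorem lower (hu : u ≠ 0) (hy : y ∈ Sb f u ω) :
    Nat.card F * Nat.card F ^ (j + 3) ≤ {x : X | y ∈ Sb f u x}.ncard := by
  have hq : 0 < Nat.card F := Nat.card_pos
  have hcl : ∀ x x' : X, y ∈ Sb f u x → SO f u x x' → x' ∈ {x : X | y ∈ Sb f u x} :=
    fun x x' a b => b.Sb_le (f.sp_Q u) a
  by_cases h : ∀ s ∈ Sb f u ω, ∃ a b : F, a • u + b • y = s
  · have h1 : Nat.card (Sb f u ω) ≤ Nat.card F * Nat.card F :=
      (Set.ncard_le_ncard (s := (Sb f u ω : Set V)) (t := {a | ∃ s t : F, s • u + t • y = a})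
        h).trans (ncard_span_pair_le u y)
    have h2 := (R.no ω).card_orbit R.nd hu
    have h3 := Set.ncard_le_ncard (s := {x | SO f u ω x}) fun x => hcl ω x hy
    rw [R.card_V] at h2
    refine le_trans (Nat.le_of_mul_le_mul_right ?_ (Nat.mul_pos hq hq)) h3
    refine le_trans ?_ (Nat.mul_le_mul_left _ h1)
    rw [h2, show Nat.card F * Nat.card F ^ (j + 3) * (Nat.card F * Nat.card F) =
      Nat.card F ^ (j + 3) * Nat.card F ^ 3 by ring]
    exact Nat.mul_le_mul_left _ (Nat.pow_le_pow_right hq (by omega))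
  push Not at h
  obtain ⟨s, s1, s2⟩ := h
  obtain ⟨z, z1, z2, z3⟩ : ∃ z, f.B z u = 0 ∧ f.B z y = 0 ∧ f.B s z ≠ 0 := by
    by_contra hc
    push Not at hc
    obtain ⟨a, b, h⟩ := mem_span_pair_of_perp R.nd hc
    exact s2 a b h
  have m : ∀ a : F, ∀ v ∈ Sb f u ω, (str f z a).1 v ∈ Sb f u (str f z a • ω) := fun a v hv =>
    mem_Sb_fix (str_orth (f.B_eq_zero_symm z1)) hv
  refine card_mul_le_of_so (fun a : F => str f z a • ω) (fun a b hab => ?_) (fun a => ?_)
    fun a x hx => hcl _ x (str_orth (l := a) (f.B_eq_zero_symm z2) ▸ m a y hy) hx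
  · have := (R.no _).perp_of_Sb R.two hu (hab.Sb_le (f.sp_Q u) (m a s s1)) (m b s s1)
    simp only [str_apply, B_add_left, B_add_right, B_smul_left, sp_B_smul_right, sp_B_self,
      f.sp_symm s z] at this
    exact mul_right_cancel₀ (mul_ne_zero z3 z3) (by linear_combination -this)
  · have h2 := (R.no (str f z a • ω)).card_orbit R.nd hu
    rw [R.card_V] at h2
    exact Nat.le_of_mul_le_mul_right (h2.ge.trans (Nat.mul_le_mul_left _ (R.card_Sb hu _)))
      (pow_pos hq _)

theorem reg (hu : u ≠ 0) (ω : X) : Reg f u ω := by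
  classical
  refine ⟨fun y₀ h₀ => by_contra fun h₁ => ?_, (R.no ω).tau_eq hu⟩
  cases nonempty_fintype X
  have c₀ : y₀ ∈ Cs f u := ⟨orth_of_mem_Sb (f.sp_Q u) h₀, f.sp_Q _, h₁⟩
  have key := Finset.card_mul_le_card_mul (s := (Cs f u).toFinite.toFinset) (t := Finset.univ)
    (fun y (x : X) => y ∈ Sb f u x) (m := Nat.card F * Nat.card F ^ (j + 3))
    (n := Nat.card F ^ (j + 3) - Nat.card F) (fun y hy => by
      obtain ⟨k, k1, k2⟩ := sp_class R.nd hu c₀ ((Set.Finite.mem_toFinset _).1 hy) one_ne_zero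
        one_ne_zero
      rw [one_smul] at k1 k2
      refine (R.lower hu (k2 ▸ mem_Sb_fix k1 h₀)).trans (le_of_eq ?_)
      rw [← Set.ncard_coe_finset]
      congr 1
      ext x
      simp) fun x _ => by
      refine Nat.le_sub_of_add_le (le_trans ?_ (R.card_Sb hu x))
      rw [← ncard_span hu, ← Set.ncard_coe_finset, ← Set.ncard_union_eq (Set.disjoint_left.2
        fun a ha hb => by
          simp only [Finset.coe_bipartiteBelow, Set.Finite.mem_toFinset, Set.mem_ofPred_eq] at ha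
          exact ha.1.2.2 hb)]
      refine Set.ncard_le_ncard (t := (Sb f u x : Set V)) ?_
      rintro a (ha | ha)
      · simp only [Finset.coe_bipartiteBelow, Set.mem_ofPred_eq] at ha
        exact ha.2
      · obtain ⟨s, rfl⟩ := Submodule.mem_span_singleton.1 ha
        exact smul_self_mem_Sb s
  rw [← Set.ncard_eq_toFinset_card, Finset.card_univ, ← Nat.card_eq_fintype_card] at key
  have h2 := card_Cs_sp (f := f) hu
  have h3 := card_perp R.nd hu
  have h4 := R.small
  rw [R.card_V] at h3 h4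
  have hq : 1 < Nat.card F := Finite.one_lt_card
  have h5 : Nat.card F < Nat.card F ^ (j + 3) := lt_self_pow₀ hq (by omega)
  generalize Nat.card F ^ (j + 3) = Q at *
  obtain ⟨d, rfl⟩ := Nat.exists_eq_add_of_lt h5
  rw [show Nat.card F + d + 1 - Nat.card F = d + 1 by omega] at key
  generalize Nat.card F = q at *
  have h6 := key.trans (Nat.mul_le_mul_right _ h4)
  rw [← h2] at h3
  have h7 : (Cs f u).ncard * q ≤ (q + d + 1) * (d + 1) :=
    Nat.le_of_mul_le_mul_right (c := q + d + 1) (by nlinarith) (by omega)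
  nlinarith

theorem card_so (hu : u ≠ 0) (x : X) : Nat.card F ^ (2 * j + 5) ≤ {x' | SO f u x x'}.ncard := by
  have h1 := (R.no x).card_orbit R.nd hu
  have h2 : Nat.card (Sb f u x) ≤ Nat.card F :=
    (Set.ncard_le_ncard (s := (Sb f u x : Set V)) (t := (F ∙ u : Submodule F V))
      (R.reg hu x).1).trans (ncard_span hu).le
  refine Nat.le_of_mul_le_mul_right (le_trans ?_ (Nat.mul_le_mul_left _ h2)) Nat.card_pos
  rw [h1, R.card_V]
  exact le_of_eq (by ring)

end R1

variable (f) in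
/-- stabiliser of a vector and of an orbit of its Eichler group -/
def Nb (u : V) (x : X) : Subgroup f.Isom where
  carrier := {g | g.1 u = u ∧ SO f u x (g • x)}
  one_mem' := ⟨rfl, by rw [one_smul]; exact SO.refl u x⟩
  mul_mem' {a b} ha hb := ⟨by rw [Isom.mul_apply, hb.1, ha.1], by
    rw [mul_smul]
    exact ha.2.trans (f.sp_Q u) (hb.2.map (a := 1) (by rw [ha.1, one_smul]) one_ne_zero)⟩
  inv_mem' {a} ha := by
    have h : a⁻¹.1 u = u := by rw [← ha.1, Isom.inv_apply, ha.1]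
    refine ⟨h, ?_⟩
    have := ha.2.map (a := 1) (k := a⁻¹) (by rw [h, one_smul]) one_ne_zero
    rw [inv_smul_smul] at this
    exact this.symm (f.sp_Q u)

namespace R1

variable [Finite X] {j : ℕ} (R : R1 f X j)
include R

theorem str_mem (he : f.HypPair u e) (z1 : f.B z u = 0) (x : X) (l : F) :
    str f z l ∈ Nb f u x := by
  have hu : u ≠ 0 := by rintro rfl; simpa using he.Bue
  have hq : 0 < Nat.card F := Nat.card_pos
  let R₀ : Subgroup (Par f z) :=
    { carrier := {a | f.B a.v u = 0 ∧ f.B a.v e = 0}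
      one_mem' := ⟨f.B_zero_left _, f.B_zero_left _⟩
      mul_mem' := fun {a b} ha hb => by
        change f.B (a.v + b.v) u = 0 ∧ f.B (a.v + b.v) e = 0
        simp [ha.1, ha.2, hb.1, hb.2]
      inv_mem' := fun {a} ha => by
        change f.B (-a.v) u = 0 ∧ f.B (-a.v) e = 0
        simp [ha.1, ha.2] }
  let K : Subgroup (Par f z) := R₀ ⊓ (Nb f u x).comap (Par.hom (f.sp_Q z))
  have fx : ∀ a ∈ R₀, (Par.hom (f.sp_Q z) a).1 u = u := fun a ha =>
    f.eichler_apply_of_orth _ _ _ (f.sp_Q z) a.orth a.lam (f.B_eq_zero_symm z1) (f.B_eq_zero_symm ha.1)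
  have i1 := card_mul_le_of_so (u := u) (fun c : R₀ ⧸ K.subgroupOf R₀ =>
    Par.hom (f.sp_Q z) c.out.1 • x) (fun c d h => by
      rw [← c.out_eq', ← d.out_eq', QuotientGroup.eq]
      refine ⟨(c.out⁻¹ * d.out).2, fx _ (c.out⁻¹ * d.out).2, ?_⟩
      have := h.map (a := 1) (k := Par.hom (f.sp_Q z) c.out⁻¹.1)
        (by rw [fx _ c.out⁻¹.2, one_smul]) one_ne_zero
      rwa [← mul_smul, ← mul_smul, ← map_mul, ← map_mul, Subgroup.coe_inv, inv_mul_cancel, map_one,
        one_smul] at this) (fun c => R.card_so hu _) (T := Set.univ) fun _ _ _ => trivial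
  have i2 := (K.subgroupOf R₀).card_eq_card_quotient_mul_card_subgroup
  rw [Nat.card_congr (Subgroup.subgroupOfEquivOfLe (inf_le_left : K ≤ R₀)).toEquiv] at i2
  have i3 := card_subgroup_par R₀ (f.orth (Submodule.span F {z, u, e})).toAddSubgroup ⊤
    (fun v => ⟨fun h => ⟨⟨v, 0, mem_orth_span.1 h z (by simp), f.sp_isLam _ _⟩,
      ⟨mem_orth_span.1 h u (by simp), mem_orth_span.1 h e (by simp)⟩, rfl⟩, by
        rintro ⟨a, ha, rfl⟩
        refine mem_orth_span.2 ?_
        rintro _ (rfl | rfl | rfl)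
        exacts [a.orth, ha.1, ha.2]⟩)
    fun l => ⟨fun _ => ⟨⟨0, l, f.B_zero_left _, f.sp_isLam _ _⟩,
      ⟨f.B_zero_left _, f.B_zero_left _⟩, rfl, rfl⟩, fun _ => trivial⟩
  have i4 : Nat.card F ^ (2 * j + 3) ≤
      Nat.card (f.orth (Submodule.span F {z, u, e})).toAddSubgroup := by
    change _ ≤ Nat.card (f.orth (Submodule.span F {z, u, e}))
    rw [Module.natCard_eq_pow_finrank (K := F) (V := f.orth (Submodule.span F {z, u, e}))]
    have := R.nd.finrank_add_orth (Submodule.span F {z, u, e})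
    have := finrank_span_triple_le (F := F) z u e
    have := R.dim
    exact Nat.pow_le_pow_right hq (by omega)
  let A : AddSubgroup V :=
    { carrier := {v | ∃ a ∈ K, a.v = v}
      zero_mem' := ⟨1, one_mem _, rfl⟩
      add_mem' := by
        rintro _ _ ⟨a, ha, rfl⟩ ⟨b, hb, rfl⟩
        exact ⟨a * b, mul_mem ha hb, rfl⟩
      neg_mem' := by
        rintro _ ⟨a, ha, rfl⟩
        exact ⟨a⁻¹, inv_mem ha, rfl⟩ }
  let T : AddSubgroup F :=
    { carrier := {l | ∃ a ∈ K, a.v = 0 ∧ a.l = l}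
      zero_mem' := ⟨1, one_mem _, rfl, rfl⟩
      add_mem' := by
        rintro _ _ ⟨a, ha, a0, rfl⟩ ⟨b, hb, b0, rfl⟩
        refine ⟨a * b, mul_mem ha hb, ?_, ?_⟩
        · change a.v + b.v = 0
          rw [a0, b0, add_zero]
        · change a.l + b.l + f.B b.v a.v = _
          simp [a0]
      neg_mem' := by
        rintro _ ⟨a, ha, a0, rfl⟩
        refine ⟨a⁻¹, inv_mem ha, ?_, ?_⟩
        · change -a.v = 0
          rw [a0, neg_zero]
        · change (Param.sp F).ε * (Param.sp F).σ a.l = _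
          simp }
  have i5 := card_subgroup_par K A T (fun _ => Iff.rfl) fun _ => Iff.rfl
  by_contra hc
  have l0 : (l : F ⧸ T) ≠ 0 := fun e => hc (by
    obtain ⟨a, ha, a0, rfl⟩ := (QuotientAddGroup.eq_zero_iff _).1 e
    rw [(isE_str z a.l).eq ((isE_eichler (f.sp_Q z) a.orth a.lam).congr a0 rfl)]
    exact ha.2)
  have i6 : Nat.card T < Nat.card F := by
    rw [← AddSubgroup.card_top (G := F)]
    exact lt_of_le_of_ne (AddSubgroup.card_le_of_le le_top) fun e => l0
      ((QuotientAddGroup.eq_zero_iff _).2 ((AddSubgroup.eq_of_le_of_card_ge le_top e.ge).ge trivial))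
  cases nonempty_fintype (F ⧸ T)
  obtain ⟨ψ, hψ⟩ := AddChar.exists_apply_ne_zero.2 l0
  let c : Chr (Param.sp F) := ⟨ψ.compAddMonoidHom ((QuotientAddGroup.mk' T).comp
    (AddMonoidHom.mulLeft 2)), fun e => hψ (by
      simpa [mul_div_cancel₀ _ R.two] using DFunLike.congr_fun e (l / 2)), fun a ha => by
      simp only [Param.sp_ε, Param.sp_σ, neg_mul, one_mul, AddChar.map_neg_eq_inv, ha, inv_one]⟩
  have c1 : ∀ v ∈ A, ∀ w ∈ A, c.ψ (f.B v w) = 1 := by
    rintro _ ⟨a, ha, rfl⟩ _ ⟨b, hb, rfl⟩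
    have : 2 * f.B a.v b.v ∈ T := by
      refine ⟨b * a * (a * b)⁻¹, mul_mem (mul_mem hb ha) (inv_mem (mul_mem ha hb)), ?_, ?_⟩
      · change b.v + a.v + -(a.v + b.v) = 0
        abel
      · change b.l + a.l + f.B a.v b.v + (Param.sp F).ε * (Param.sp F).σ (a.l + b.l + f.B b.v a.v) +
          f.B (-(a.v + b.v)) (b.v + a.v) = _
        simp only [Param.sp_ε, Param.sp_σ, B_neg_left, B_add_left, B_add_right, sp_B_self,
          f.sp_symm a.v b.v]
        ring
    change ψ ((2 * f.B a.v b.v : F) : F ⧸ T) = 1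
    rw [(QuotientAddGroup.eq_zero_iff _).2 this, AddChar.map_zero_eq_one]
  have A1 : ∀ v ∈ A, f.B v u = 0 ∧ f.B v e = 0 := by
    rintro _ ⟨a, ha, rfl⟩
    exact ha.1
  have i7 := card_le_of_ann R.nd c (S := A ⊔ (F ∙ u).toAddSubgroup) (fun v hv w hw => by
    obtain ⟨v₁, a1, v₂, a2, rfl⟩ := AddSubgroup.mem_sup.1 hv
    obtain ⟨w₁, b1, w₂, b2, rfl⟩ := AddSubgroup.mem_sup.1 hw
    obtain ⟨s, rfl⟩ := Submodule.mem_span_singleton.1 a2
    obtain ⟨t, rfl⟩ := Submodule.mem_span_singleton.1 b2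
    simpa [sp_B_self, (A1 _ b1).1, f.B_eq_zero_symm (A1 _ a1).1] using c1 _ b1 _ a1) R.card_V
  have i8 := Nat.card_le_card_of_injective (fun p : A × F =>
    (⟨p.1 + p.2 • u, AddSubgroup.add_mem_sup p.1.2 (Submodule.smul_mem _ _
      (Submodule.mem_span_singleton_self u))⟩ : (A ⊔ (F ∙ u).toAddSubgroup : AddSubgroup V))) (by
      rintro ⟨⟨v, hv⟩, s⟩ ⟨⟨w, hw⟩, t⟩ h
      have h1 : v + s • u = w + t • u := congrArg Subtype.val h
      obtain rfl : s = t := by
        simpa [(A1 _ hv).2, (A1 _ hw).2, he.Bue] using congrArg (fun x => f.B x e) h1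
      obtain rfl : v = w := add_right_cancel h1
      rfl)
  rw [Nat.card_prod] at i8
  rw [Set.ncard_univ] at i1
  rw [AddSubgroup.card_top] at i3
  have j1 : Nat.card (R₀ ⧸ K.subgroupOf R₀) ≤ Nat.card F :=
    Nat.le_of_mul_le_mul_right (i1.trans (R.small.trans (by rw [R.card_V]; exact le_of_eq (by ring))))
      (pow_pos hq _)
  have j2 : Nat.card F ^ (2 * j + 3) ≤ Nat.card K := Nat.le_of_mul_le_mul_left (c := Nat.card F) (by
    refine le_trans ?_ (Nat.mul_le_mul_right _ j1)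
    rw [← i2, i3, mul_comm]
    exact Nat.mul_le_mul_right _ i4) hq
  have j3 : Nat.card A * Nat.card T < Nat.card A * Nat.card F :=
    Nat.mul_lt_mul_of_pos_left i6 Nat.card_pos
  have j4 : Nat.card F ^ (j + 3) ≤ Nat.card F ^ (2 * j + 3) := Nat.pow_le_pow_right hq (by omega)
  omega

theorem mem_Nb (he : f.HypPair u e) (x : X) {k : f.Isom} (k1 : k.1 u = u) (k2 : k.1 e = e) :
    k ∈ Nb f u x := by
  set Y := f.orth (Submodule.span F {u, e}) with hY
  have hg := he.restrict_orth_nondeg R.nd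
  have o : ∀ w ∈ Submodule.span F {u, e}, w ∈ f.orth (LinearMap.range Y.subtype) := fun w hw => by
    rw [Submodule.range_subtype]; exact f.le_orth_orth _ hw
  have ext : ∀ (a : (f.restrict Y).Isom) (b : f.Isom), b.1 u = u → b.1 e = e →
      (∀ y : Y, b.1 y = a.1 y) → R.nd.extHom hg Y.subtype (f.isIsom_subtype Y) a = b :=
    fun a b b1 b2 b3 => hyp_ext he
      (by rw [b1, R.nd.extHom_apply_right _ _ _ _ (o _ (left_mem_span u e))])
      (by rw [b2, R.nd.extHom_apply_right _ _ _ _ (o _ (right_mem_span u e))]) fun y h1 h2 =>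
        (R.nd.extHom_apply_left hg Y.subtype (f.isIsom_subtype Y) a
          ⟨y, mem_orth_pair.2 ⟨h1, h2⟩⟩).trans (b3 ⟨y, mem_orth_pair.2 ⟨h1, h2⟩⟩).symm
  have top := HasTr.sp_eq_top hg (N := (Nb f u x).comap
    (R.nd.extHom hg Y.subtype (f.isIsom_subtype Y))) fun d l hd hl => by
      obtain ⟨d1, d2⟩ := mem_orth_pair.1 d.2
      rw [Subgroup.mem_comap, ext _ (str f d l) (str_orth (f.B_eq_zero_symm d1))
        (str_orth (f.B_eq_zero_symm d2)) fun y => by simp [str_apply, tr_apply]]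
      exact R.str_mem he d1 x l
  have inv : ∀ y ∈ Y, k.1 y ∈ Y := fun y hy => by
    obtain ⟨y1, y2⟩ := mem_orth_pair.1 hy
    exact mem_orth_pair.2 ⟨by rw [← k1, Isom.map_B, y1], by rw [← k2, Isom.map_B, y2]⟩
  rw [← ext (Isom.restrict k Y inv) k k1 k2 fun y => rfl]
  exact top.ge (Subgroup.mem_top _)

theorem false (x : X) : False := by
  have d := R.dim
  have : Nontrivial V := (finrank_pos_iff (R := F)).1 (by omega)
  obtain ⟨u, hu⟩ := exists_ne (0 : V)
  obtain ⟨e, he⟩ := R.nd.exists_hypPair (f.sp_Q u) hu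
  have n1 : (-1 : F) ≠ 0 := neg_ne_zero.2 one_ne_zero
  have n2 : (Param.sp F).σ (-1) ≠ 1 := fun h => R.two (by
    rw [Param.sp_σ] at h; linear_combination -h)
  obtain ⟨x', -, hc⟩ := levi_central (ω := x) he n1 n2 (fun v hv _ => by
    obtain ⟨s, rfl⟩ := Submodule.mem_span_singleton.1
      ((Submodule.smul_mem_iff _ (sub_ne_zero.2 n2)).1 ((R.reg hu x).1 _ hv))
    exact smul_self_mem_Sb s) (by
      have := (R.mem_Nb he x (k := he.hscale (-1) n1 * negI f)
        (by rw [Isom.mul_apply, negI_apply, map_neg, he.hscale_u]; simp)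
        (by rw [Isom.mul_apply, negI_apply, map_neg, he.hscale_e]; simp)).2
      rwa [mul_smul, R.neg] at this)
  obtain ⟨z, -, z0, hz⟩ := exists_orth_of_lt R.nd (S := Submodule.span F {u, e}) (T := ⊤) (by
    have := finrank_pair_le (F := F) u e
    rw [finrank_top]; omega)
  obtain ⟨z1, z2⟩ := mem_orth_pair.1 hz
  exact Lam_sp_ne_bot ((tau_of_central' R.nd he R.two (by omega) z1 z2 fun k k1 k2 =>
    hc k k1 k2 (R.mem_Nb he x k1 k2).2).symm.trans ((R.no x').tau_eq z0))

end R1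

end Cfsg.Agent.R3S
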