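import Cfsg.Agent.Lib.R3S.T7

/-!
Subgroups containing transvections: centres of transvections.
-/

set_option autoImplicit false

namespace Cfsg.Agent.R3S

open Module Cfsg.Agent.Forms Cfsg.Agent.Forms.Form Cfsg.Agent.Cls Cfsg.Agent.Deg Cfsg.Agent.MI

variable {F : Type*} [Field F] {V : Type*} [AddCommGroup V] [Module F V]
  {f : Form (Param.sp F) V} {u y z v w e r u₁ u₂ a b c d : V} {l : F}
  {X : Type*} [MulAction f.Isom X] {ω : X} {g : f.Isom}

variable (f ω) in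
/-- centres of transvections fixing the point -/
def O (u : V) : Prop := u ≠ 0 ∧ ∃ l, l ≠ 0 ∧ str f u l • ω = ω

theorem str_map (hg : g • ω = ω) (h : str f u l • ω = ω) : str f (g.1 u) l • ω = ω := by
  rw [← smul_str hg, h, hg]

theorem O.map (h : O f ω u) (hg : g • ω = ω) : O f ω (g.1 u) :=
  let ⟨h0, l, h1, h2⟩ := h
  ⟨by simpa using h0, l, h1, str_map hg h2⟩

theorem O.smul (h : O f ω u) {s : F} (hs : s ≠ 0) : O f ω (s • u) :=
  let ⟨h0, l, h1, h2⟩ := h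
  ⟨smul_ne_zero hs h0, l / (s * s), div_ne_zero h1 (mul_ne_zero hs hs), by
    rwa [str_smul, mul_div_cancel₀ _ (mul_ne_zero hs hs)]⟩

theorem O.of_smul {s : F} (h : O f ω (s • u)) : O f ω u := by
  have hs : s ≠ 0 := by rintro rfl; exact h.1 (zero_smul _ _)
  simpa [hs] using h.smul (inv_ne_zero hs)

theorem O.of_mem (h : O f ω u) (hz : z ∈ F ∙ u) (z0 : z ≠ 0) : O f ω z := by
  obtain ⟨s, rfl⟩ := Submodule.mem_span_singleton.1 hz
  exact h.smul (by rintro rfl; exact z0 (zero_smul _ _))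

theorem mem_of_mul_mem [Finite F] {A : AddSubgroup F} {k : F} (hk : k ≠ 0)
    (h : ∀ a ∈ A, k * a ∈ A) {a : F} (ha : k * a ∈ A) : a ∈ A := by
  obtain ⟨b, hb⟩ := (Finite.injective_iff_surjective (f := fun a : A => (⟨k * a, h a a.2⟩ : A))).1
    (fun a b e => Subtype.ext (mul_left_cancel₀ hk (congrArg Subtype.val e))) ⟨_, ha⟩
  exact mul_left_cancel₀ hk (congrArg Subtype.val hb) ▸ b.2

theorem mem_of_two_mul [Finite F] {A : AddSubgroup F} (h2 : (2 : F) ≠ 0) {a : F} (ha : 2 * a ∈ A) :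
    a ∈ A := mem_of_mul_mem h2 (fun a h => by rw [two_mul]; exact add_mem h h) ha

theorem odd_card [Finite F] (h2 : (2 : F) ≠ 0) : Odd (Nat.card F) := by
  cases nonempty_fintype F
  rw [Nat.card_eq_fintype_card, Nat.odd_iff]
  exact FiniteField.odd_card_of_char_ne_two fun h =>
    h2 (by simpa [h] using (ringChar.Nat.cast_ringChar (R := F)))

variable [Finite F] [FiniteDimensional F V]

theorem exists_neg_vec (hf : f.Nondeg) (h2 : (2 : F) ≠ 0) (h₁ : O f ω u₁) (h₂ : O f ω u₂)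
    (hb : f.B u₁ u₂ ≠ 0) : ∃ g : f.Isom, (g • ω = ω ∧ ∀ y, f.B y u₁ = 0 → f.B y u₂ = 0 → g.1 y = y) ∧
      g.1 u₁ = -u₁ := by
  classical
  have : Finite V := Module.finite_of_finite F
  cases nonempty_fintype V
  cases nonempty_fintype F
  let L : Subgroup f.Isom :=
    { carrier := {g | g • ω = ω ∧ ∀ y, f.B y u₁ = 0 → f.B y u₂ = 0 → g.1 y = y}
      one_mem' := ⟨one_smul _ _, fun _ _ _ => rfl⟩
      mul_mem' := fun ha hb => ⟨by rw [mul_smul, hb.1, ha.1], fun y p q => by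
        rw [Isom.mul_apply, hb.2 y p q, ha.2 y p q]⟩
      inv_mem' := fun {a} ha => ⟨inv_smul_eq_iff.2 ha.1.symm, fun y p q => by
        conv_lhs => rw [← ha.2 y p q, Isom.inv_apply]⟩ }
  let C : Subgroup Fˣ :=
    { carrier := {c | ∃ g ∈ L, g.1 u₁ = (c : F) • u₁}
      one_mem' := ⟨1, one_mem _, by simp⟩
      mul_mem' := by
        rintro a b ⟨g, g1, g2⟩ ⟨h, h1, h2⟩
        exact ⟨h * g, mul_mem h1 g1, by rw [Isom.mul_apply, g2, map_smul, h2, smul_smul]; rfl⟩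
      inv_mem' := by
        rintro a ⟨g, g1, g2⟩
        refine ⟨g⁻¹, inv_mem g1, ?_⟩
        conv_rhs => rw [← Isom.inv_apply g u₁, g2, map_smul, smul_smul, Units.inv_mul, one_smul] }
  by_contra hc
  have n1 : (-1 : Fˣ) ∉ C := fun ⟨g, g1, g2⟩ => hc ⟨g, g1, by simpa using g2⟩
  obtain ⟨u0, l₀, l1, l2⟩ := h₁
  obtain ⟨-, m, m1, m2⟩ := h₂
  let S : Finset V := Finset.univ.filter fun v => (∃ g ∈ L, g.1 u₁ = v) ∧ v ∉ F ∙ u₁
  let Λ : Finset F := Finset.univ.filter fun l => l ∈ tau f u₁ ω ∧ l ≠ 0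
  have mW : ∀ g ∈ L, g.1 u₁ ∈ Submodule.span F {u₁, u₂} := fun g hg => by
    obtain ⟨s, t, h⟩ := exists_of_fix hf hg.2 u₁
    exact Submodule.mem_span_pair.2 ⟨s + 1, t, by linear_combination (norm := module) -h⟩
  have nB : ∀ y ∈ S, f.B u₁ y ≠ 0 := fun y hy e => by
    obtain ⟨⟨g, g1, rfl⟩, h⟩ := (Finset.mem_filter.1 hy).2
    exact h (mem_span_of_B hb u0 (left_mem_span _ _) (mW g g1) e)
  have nm : ∀ {y : V} {s : F}, y ∉ F ∙ u₁ → s ≠ 0 → u₁ + s • y ∉ F ∙ u₁ := fun h hs h' =>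
    h ((Submodule.smul_mem_iff _ hs).1
      ((Submodule.add_mem_iff_right _ (Submodule.mem_span_singleton_self _)).1 h'))
  have k1 := Finset.card_le_mul_card_image_of_maps_to (s := S ×ˢ Λ) (t := S)
    (f := fun p => (str f p.1 p.2).1 u₁) (fun p hp => by
      obtain ⟨p1, p2⟩ := Finset.mem_product.1 hp
      have p3 := nB _ p1
      obtain ⟨⟨g, g1, g2⟩, h⟩ := (Finset.mem_filter.1 p1).2
      obtain ⟨p4, p5⟩ := (Finset.mem_filter.1 p2).2
      refine Finset.mem_filter.2 ⟨Finset.mem_univ _, ⟨_, ⟨g2 ▸ str_map g1.1 (mem_tau_iff.1 p4),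
        fun y p q => str_orth (mem_orth_pair.2 ⟨p, q⟩ _ (g2 ▸ mW g g1))⟩, rfl⟩, ?_⟩
      rw [str_apply]
      exact nm h (mul_ne_zero p5 p3)) (Nat.card C) fun v _ => by
      rcases (Finset.filter (fun p : V × F => (str f p.1 p.2).1 u₁ = v)
        (S ×ˢ Λ)).eq_empty_or_nonempty with h | ⟨⟨y₀, l₀⟩, h₀⟩
      · rw [h]; exact Nat.zero_le _
      have key : ∀ p ∈ Finset.filter (fun p : V × F => (str f p.1 p.2).1 u₁ = v) (S ×ˢ Λ),
          ∃ c : C, p.1 = (c.1 : F) • y₀ ∧ p.2 * (c.1 * c.1) = l₀ := by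
        rintro ⟨y, l⟩ h
        simp only [Finset.mem_filter, Finset.mem_product] at h h₀
        have b1 := mul_ne_zero (Finset.mem_filter.1 h.1.2).2.2 (nB _ h.1.1)
        have b0 := mul_ne_zero (Finset.mem_filter.1 h₀.1.2).2.2 (nB _ h₀.1.1)
        have e := h.2.trans h₀.2.symm
        rw [str_apply, str_apply, add_right_inj] at e
        have e1 : y = (l₀ * f.B u₁ y₀ / (l * f.B u₁ y)) • y₀ := by
          rw [div_eq_inv_mul, mul_smul, ← e, inv_smul_smul₀ b1]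
        obtain ⟨⟨g, g1, g2⟩, -⟩ := (Finset.mem_filter.1 h.1.1).2
        obtain ⟨⟨k, k1, k2⟩, -⟩ := (Finset.mem_filter.1 h₀.1.1).2
        refine ⟨⟨Units.mk0 _ (div_ne_zero b0 b1), k⁻¹ * g, mul_mem (inv_mem k1) g1, ?_⟩, e1, ?_⟩
        · rw [Isom.mul_apply, g2]
          conv_lhs => rw [e1, map_smul, ← k2, Isom.inv_apply, k2]
          rfl
        · have e2 := congrArg (fun x => f.B u₁ x) e
          simp only [sp_B_smul_right] at e2
          have := nB _ h.1.1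
          have := (Finset.mem_filter.1 h.1.2).2.2
          simp only [Units.val_mk0]
          field_simp
          linear_combination (-l₀) * e2
      choose! φ hφ using key
      rw [Nat.card_eq_fintype_card]
      exact Finset.card_le_card_of_injOn φ (fun _ _ => Finset.mem_univ _) fun p hp p' hp' e =>
        Prod.ext (by rw [(hφ p hp).1, (hφ p' hp').1, e]) (mul_right_cancel₀
          (mul_ne_zero (φ p).1.ne_zero (φ p).1.ne_zero) (by rw [(hφ p hp).2, e, (hφ p' hp').2]))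
  have S0 : 0 < S.card := Finset.card_pos.2 ⟨(str f u₂ m).1 u₁, Finset.mem_filter.2
    ⟨Finset.mem_univ _, ⟨_, ⟨m2, fun y _ q => str_orth q⟩, rfl⟩, by
      rw [str_apply]
      exact nm (not_mem_span_of_B (f.sp_B_self u₁) (B_ne_symm hb)) (mul_ne_zero m1 hb)⟩⟩
  rw [Finset.card_product, mul_comm] at k1
  have k2 : Nat.card C ≤ Λ.card := by
    rw [Nat.card_eq_fintype_card]
    refine Finset.card_le_card_of_injOn (fun c => c.1 * c.1 * l₀) (fun c _ => ?_) fun c _ c' _ e => ?_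
    · obtain ⟨g, g1, g2⟩ := c.2
      refine Finset.mem_filter.2 ⟨Finset.mem_univ _, mem_tau_iff.2 ?_,
        mul_ne_zero (mul_ne_zero c.1.ne_zero c.1.ne_zero) l1⟩
      rw [← str_smul, ← g2]
      exact str_map g1.1 l2
    · rcases mul_self_eq_mul_self_iff.1 (mul_right_cancel₀ l1 e) with h | h
      · exact Subtype.ext (Units.ext h)
      · refine absurd ?_ n1
        rw [show (-1 : Fˣ) = c.1 * c'.1⁻¹ from Units.ext (by simp [h])]
        exact mul_mem c.2 (inv_mem c'.2)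
  have k3 : Λ.card + 1 = Nat.card (tau f u₁ ω) := by
    rw [← Finset.card_insert_of_notMem (a := 0) (by simp [Λ]), ← Nat.card_eq_finsetCard]
    exact Nat.card_congr (Equiv.subtypeEquivRight fun l => by
      by_cases h : l = 0 <;> simp [Λ, h])
  have k4 := (odd_card h2).of_dvd_nat (tau f u₁ ω).card_addSubgroup_dvd_card
  have k5 : 2 ∣ Nat.card C := by
    rw [le_antisymm k2 (Nat.le_of_mul_le_mul_right k1 S0)]
    rw [← k3] at k4
    exact (Nat.odd_add_one.1 k4 |> Nat.not_odd_iff_even.1).two_dvd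
  obtain ⟨c, hc⟩ := exists_prime_orderOf_dvd_card' 2 k5
  have c1 : (c.1 : F) * c.1 = 1 := by
    have := congrArg (fun x : C => (x.1 : F)) (pow_orderOf_eq_one c)
    rw [hc, pow_two] at this
    exact this
  rcases mul_self_eq_one_iff.1 c1 with h | h
  · rw [show c = 1 from Subtype.ext (Units.ext h), orderOf_one] at hc
    omega
  · exact n1 ((show c.1 = -1 from Units.ext h) ▸ c.2)

theorem exists_neg (hf : f.Nondeg) (h2 : (2 : F) ≠ 0) (h₁ : O f ω u₁) (h₂ : O f ω u₂)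
    (hb : f.B u₁ u₂ ≠ 0) : ∃ g : f.Isom, g • ω = ω ∧ ∀ w ∈ Submodule.span F {u₁, u₂},
      ∀ r ∈ f.orth (Submodule.span F {u₁, u₂}), g.1 (w + r) = -w + r := by
  obtain ⟨g, ⟨g1, g2⟩, g3⟩ := exists_neg_vec hf h2 h₁ h₂ hb
  obtain ⟨s, t, h⟩ := exists_of_fix hf g2 u₂
  have h3 := Isom.map_B g u₁ u₂
  rw [sub_eq_iff_eq_add] at h
  rw [g3, h] at h3
  simp only [B_neg_left, B_add_right, sp_B_smul_right, sp_B_self] at h3
  obtain rfl : t = -2 := mul_right_cancel₀ hb (by linear_combination -h3)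
  have h4 : g * g = str f u₁ (2 * (s / f.B u₁ u₂)) := Isom.ext fun x => by
    obtain ⟨α, β, r, r1, r2, rfl⟩ := exists_dec hb x
    simp only [Isom.mul_apply, map_add, map_smul, map_neg, g3, h, g2 r r1 r2, str_apply, B_add_left,
      B_smul_left, sp_B_self, r1, f.sp_symm u₁ u₂]
    match_scalars <;> field_simp <;> ring
  have h5 := mem_tau_iff.1 (neg_mem (mem_of_two_mul h2 (mem_tau_iff.2
    (show str f u₁ (2 * (s / f.B u₁ u₂)) • ω = ω by rw [← h4, mul_smul, g1, g1]))))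
  refine ⟨g * str f u₁ (-(s / f.B u₁ u₂)), by rw [mul_smul, h5, g1], fun w hw r hr => ?_⟩
  obtain ⟨α, β, rfl⟩ := Submodule.mem_span_pair.1 hw
  obtain ⟨r1, r2⟩ := mem_orth_pair.1 hr
  simp only [Isom.mul_apply, map_add, map_smul, g3, h, g2 r r1 r2, str_apply, B_add_left,
    B_smul_left, sp_B_self, r1, f.sp_symm u₁ u₂]
  match_scalars <;> field_simp <;> ring

omit [Finite F] [FiniteDimensional F V] in
theorem exists_dec' (hb : f.B u₁ u₂ ≠ 0) (x : V) : ∃ w ∈ Submodule.span F {u₁, u₂},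
    ∃ r ∈ f.orth (Submodule.span F {u₁, u₂}), x = w + r :=
  let ⟨s, t, r, r1, r2, h⟩ := exists_dec hb x
  ⟨_, Submodule.mem_span_pair.2 ⟨s, t, rfl⟩, r, mem_orth_pair.2 ⟨r1, r2⟩, h⟩

theorem O.of_secant (hf : f.Nondeg) (h2 : (2 : F) ≠ 0) (hc : O f ω c) (hd : O f ω d)
    (hb : f.B c d ≠ 0) (hz : z ∈ Submodule.span F {c, d}) (z0 : z ≠ 0) (ha : O f ω a)
    (h1 : f.B z a = 0) (h3 : a ∉ f.orth (Submodule.span F {c, d})) : O f ω z := by
  obtain ⟨w, hw, r, hr, rfl⟩ := exists_dec' hb a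
  rw [B_add_right, mem_orth'.1 hr z hz, add_zero] at h1
  have w0 : w ≠ 0 := by rintro rfl; exact h3 (by rwa [zero_add])
  refine O.of_mem (u := w) ?_ (mem_span_of_B hb w0 hw hz (f.B_eq_zero_symm h1)) z0
  by_cases r0 : r = 0
  · rwa [r0, add_zero] at ha
  by_cases hβ : f.B c w = 0
  · exact hc.of_mem (mem_span_of_B hb hc.1 (left_mem_span _ _) hw hβ) w0
  obtain ⟨g, g1, g2⟩ := exists_neg hf h2 hc hd hb
  obtain ⟨-, l, l0, l1⟩ := ha
  obtain ⟨-, m, m0, m1⟩ := hc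
  have l2 := str_map g1 l1
  rw [g2 w hw r hr] at l2
  have b1 := mem_orth'.1 hr w hw
  have b2 := mem_orth'.1 hr c (left_mem_span _ _)
  have s1 : l ∈ Cy f r w ω := mem_of_two_mul h2
    (Fx.mem_Sb ⟨_, isE_pair b1 l, eqv_mem (l2.trans l1.symm)⟩)
  have s2 : ∀ v ∈ Sb f r ω, (m * f.B v c) • c ∈ Sb f r ω := fun v hv => by
    have := mem_Sb_fix (k := str f c m) (str_orth (f.B_eq_zero_symm b2)) hv
    rwa [m1, str_apply, add_mem_cancel_left hv] at this
  have s3 : ∀ v ∈ Sb f r ω, (l * f.B v (w + r)) • w ∈ Sb f r ω := fun v hv => by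
    have := mem_Sb_fix (k := str f (w + r) l) (str_orth (by
      simp [sp_B_self, f.B_eq_zero_symm b1])) hv
    rwa [l1, str_apply, add_mem_cancel_left hv, smul_add,
      add_mem_cancel_right (smul_self_mem_Sb _)] at this
  have k0 : -(l * m * f.B c w * f.B c w) ≠ 0 :=
    neg_ne_zero.2 (mul_ne_zero (mul_ne_zero (mul_ne_zero l0 m0) hβ) hβ)
  have s4 : l / -(l * m * f.B c w * f.B c w) ∈ Cy f r w ω := mem_of_mul_mem k0 (fun α hα => by
    have := s3 _ (s2 _ (mem_Cy.1 hα))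
    simp only [B_smul_left, B_add_right, b2, f.sp_symm c w] at this
    rw [mem_Cy]
    convert this using 2
    ring) (by rwa [mul_div_cancel₀ _ k0])
  have s5 := comm_mem_tau (f.sp_Q r) (mem_Cy.1 s4) (s2 _ (mem_Cy.1 s1))
  simp only [B_smul_left, sp_B_smul_right, f.sp_symm c w] at s5
  have s6 : str f r (-(2 * l)) • ω = ω := mem_tau_iff.1 (by
    rw [show -(2 * l) = -(m * (l * -f.B c w) * (l / -(l * m * f.B c w * f.B c w) * f.B c w) -
      l / -(l * m * f.B c w * f.B c w) * (m * (l * -f.B c w) * -f.B c w)) by field_simp; ring]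
    exact neg_mem s5)
  refine ⟨w0, 2 * l, mul_ne_zero h2 l0, ?_⟩
  rw [show str f w (2 * l) = str f (w + r) l * (str f (-w + r) l * str f r (-(2 * l))) from
    Isom.ext fun x => by
      simp only [Isom.mul_apply, str_apply, B_add_left, B_add_right, B_smul_left, B_neg_right, b1,
        f.B_eq_zero_symm b1, sp_B_self, B_neg_left]
      module, mul_smul, mul_smul, s6, l2, l1]

theorem hyp_of_ti (hf : f.Nondeg) (h2 : (2 : F) ≠ 0) (h3 : 3 ≤ finrank F V)
    (hs : ∀ x, x ≠ 0 → ∃ a, O f ω a ∧ f.B x a ≠ 0)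
    (hi : ∀ a b, O f ω a → O f ω b → f.B a b = 0 → ∀ z ∈ Submodule.span F {a, b}, z ≠ 0 → O f ω z)
    (ha : O f ω a) (hc : O f ω c) (hb : f.B a c ≠ 0) (hz : z ∈ Submodule.span F {a, c})
    (z0 : z ≠ 0) : O f ω z := by
  obtain ⟨g, g1, g2⟩ := exists_neg hf h2 ha hc hb
  have key : ∀ w ∈ Submodule.span F {a, c}, ∀ r ∈ f.orth (Submodule.span F {a, c}),
      O f ω (w + r) → (w ≠ 0 → O f ω w) ∧ (r ≠ 0 → O f ω r) := fun w hw r hr h => by
    have h' := h.map g1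
    rw [g2 w hw r hr] at h'
    have := hi _ _ h h' (by simp [sp_B_self, hr w hw, mem_orth'.1 hr w hw])
    exact ⟨this w (Submodule.mem_span_pair.2 ⟨2⁻¹, -2⁻¹, by match_scalars <;> field_simp <;> ring⟩),
      this r (Submodule.mem_span_pair.2 ⟨2⁻¹, 2⁻¹, by match_scalars <;> field_simp <;> ring⟩)⟩
  have pr : ∀ y ∈ f.orth (Submodule.span F {a, c}), y ≠ 0 →
      ∃ r ∈ f.orth (Submodule.span F {a, c}), O f ω r ∧ f.B y r ≠ 0 := fun y hy y0 => by
    obtain ⟨b, b1, b2⟩ := hs y y0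
    obtain ⟨w, hw, r, hr, rfl⟩ := exists_dec' hb b
    rw [B_add_right, hy w hw, zero_add] at b2
    exact ⟨r, hr, (key w hw r hr b1).2 (by rintro rfl; simp at b2), b2⟩
  obtain ⟨y, -, y0, hy⟩ := exists_orth_of_lt hf (S := Submodule.span F {a, c}) (T := ⊤) (by
    have := finrank_pair_le (F := F) a c
    rw [finrank_top]; omega)
  obtain ⟨r₁, p1, p2, -⟩ := pr y hy y0
  obtain ⟨r₂, q1, q2, q3⟩ := pr r₁ p1 p2.1
  obtain ⟨α, τ, rfl⟩ := Submodule.mem_span_pair.1 hz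
  by_cases α0 : α = 0
  · exact hc.of_mem (Submodule.mem_span_singleton.2 ⟨τ, by simp [α0]⟩) z0
  by_cases τ0 : τ = 0
  · exact ha.of_mem (Submodule.mem_span_singleton.2 ⟨α, by simp [τ0]⟩) z0
  obtain ⟨p3, p4⟩ := mem_orth_pair.1 p1
  obtain ⟨q4, q5⟩ := mem_orth_pair.1 q1
  have ne : ∀ {x y : V}, f.B x y ≠ 0 → x ≠ 0 := fun h e => h (by simp [e])
  have x1 := hi a r₁ ha p2 (f.B_eq_zero_symm p3) (α • a + r₁)
    (Submodule.mem_span_pair.2 ⟨α, 1, by simp⟩) (ne (y := c) (by simp [α0, hb, p4]))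
  have x2 := hi c r₂ hc q2 (f.B_eq_zero_symm q5) (τ • c + (-(α * τ * f.B a c) / f.B r₁ r₂) • r₂)
    (Submodule.mem_span_pair.2 ⟨τ, _, rfl⟩) (ne (y := a) (by simp [τ0, B_ne_symm hb, q4]))
  have x3 := hi _ _ x1 x2 (by
    simp only [B_add_left, B_add_right, B_smul_left, sp_B_smul_right, p4, f.B_eq_zero_symm q4]
    field_simp
    ring) _ (add_mem (left_mem_span _ _) (right_mem_span _ _))
    (ne (y := c) (by simp [α0, hb, p4, q5, sp_B_self]))
  rw [add_add_add_comm] at x3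
  exact (key _ hz _ (add_mem p1 (Submodule.smul_mem _ _ q1)) x3).1 z0

end Cfsg.Agent.R3S
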