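import Cfsg.Agent.Lib.R3S.T8

/-!
Subgroups containing transvections with three double cosets and two orbits on points.
-/

set_option autoImplicit false

namespace Cfsg.Agent.R3S

open Module Cfsg.Agent.Forms Cfsg.Agent.Forms.Form Cfsg.Agent.Cls Cfsg.Agent.Deg Cfsg.Agent.MI

variable {F : Type*} [Field F] {V : Type*} [AddCommGroup V] [Module F V]
  {f : Form (Param.sp F) V} {u x y z v w e r u₁ u₂ a b c d : V} {l : F}
  {X : Type*} [MulAction f.Isom X] {ω : X} {g : f.Isom}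

theorem three_apply {z₁ z₂ z₃ : V} (h12 : f.B z₂ z₁ = 0) (h13 : f.B z₃ z₁ = 0)
    (h23 : f.B z₃ z₂ = 0) (c₁ c₂ c₃ : F) (x : V) :
    (str f z₁ c₁ * str f z₂ c₂ * str f z₃ c₃).1 x =
      x + ((c₁ * f.B x z₁) • z₁ + (c₂ * f.B x z₂) • z₂ + (c₃ * f.B x z₃) • z₃) := by
  simp only [Isom.mul_apply, str_apply, B_add_left, B_smul_left, h12, h13, h23]
  module

theorem Rk.chain [Finite V] (rk : Rk f ω) {D : Set V}
    (hD : ∀ g : f.Isom, g • ω = ω → ∀ v ∈ D, g.1 v ∈ D) {z₁ z₂ z₃ : V} (h12 : f.B z₂ z₁ = 0)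
    (h13 : f.B z₃ z₁ = 0) (h23 : f.B z₃ z₂ = 0)
    (h : ∀ c₁ c₂ c₃ : F, c₁ * c₂ = 0 ∨ c₁ * c₂ = 1 → ∀ x ∈ D,
      x + ((c₁ * f.B x z₁) • z₁ + (c₂ * f.B x z₂) • z₂ + (c₃ * f.B x z₃) • z₃) ∈ D →
      c₁ * f.B x z₁ = 0 ∧ c₂ * f.B x z₂ = 0 ∧ c₃ * f.B x z₃ = 0)
    {x₁ x₂ x₃ : V} (m1 : x₁ ∈ D) (m2 : x₂ ∈ D) (m3 : x₃ ∈ D) (a1 : f.B x₁ z₁ ≠ 0)
    (b1 : f.B x₂ z₁ = 0) (b2 : f.B x₂ z₂ ≠ 0) (c1 : f.B x₃ z₁ = 0) (c2 : f.B x₃ z₂ = 0)
    (c3 : f.B x₃ z₃ ≠ 0) : False := by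
  let I : f.Isom → ℕ := fun g => {x ∈ D | g.1 x ∈ D}.ncard
  have iff : ∀ g : f.Isom, g • ω = ω → ∀ v, g.1 v ∈ D ↔ v ∈ D := fun g hg v =>
    ⟨fun h => by simpa only [Isom.inv_apply] using hD g⁻¹ (inv_smul_eq_iff.2 hg.symm) _ h, hD g hg v⟩
  have hI : ∀ g g', DC ω g g' → I g = I g' := by
    rintro g _ ⟨h, h', a, b, rfl⟩
    refine (Set.ncard_preimage_of_injective_subset_range h'.1.injective
      (by rw [h'.1.surjective.range_eq]; exact Set.subset_univ _)).symm.trans (congrArg _ ?_)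
    ext x
    simp only [Set.mem_preimage, Set.mem_ofPred_eq, Isom.mul_apply, iff h a, iff h' b]
  have e : ∀ c₁ c₂ c₃ : F, c₁ * c₂ = 0 ∨ c₁ * c₂ = 1 →
      I (str f z₁ c₁ * str f z₂ c₂ * str f z₃ c₃) =
        {x ∈ D | c₁ * f.B x z₁ = 0 ∧ c₂ * f.B x z₂ = 0 ∧ c₃ * f.B x z₃ = 0}.ncard :=
    fun c₁ c₂ c₃ hc => by
      refine congrArg Set.ncard (Set.ext fun x => and_congr_right fun hx => ?_)
      rw [three_apply h12 h13 h23]
      exact ⟨h _ _ _ hc x hx, fun ⟨p, q, r⟩ => by simpa [p, q, r] using hx⟩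
  have l1 : I (str f z₁ 1 * str f z₂ 0 * str f z₃ 0) < I (str f z₁ 0 * str f z₂ 0 * str f z₃ 0) := by
    rw [e _ _ _ (by simp), e _ _ _ (by simp)]
    exact Set.ncard_lt_ncard ⟨fun x hx => ⟨hx.1, by simp⟩, fun h => a1 (by
      simpa using (h (show x₁ ∈ _ from ⟨m1, by simp⟩)).2)⟩
  have l2 : I (str f z₁ 1 * str f z₂ 1 * str f z₃ 0) < I (str f z₁ 1 * str f z₂ 0 * str f z₃ 0) := by
    rw [e _ _ _ (by simp), e _ _ _ (by simp)]
    exact Set.ncard_lt_ncard ⟨fun x hx => ⟨hx.1, hx.2.1, by simp⟩, fun h => b2 (by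
      simpa using (h (show x₂ ∈ _ from ⟨m2, by simp [b1]⟩)).2.2)⟩
  have l3 : I (str f z₁ 1 * str f z₂ 1 * str f z₃ 1) < I (str f z₁ 1 * str f z₂ 1 * str f z₃ 0) := by
    rw [e _ _ _ (by simp), e _ _ _ (by simp)]
    exact Set.ncard_lt_ncard ⟨fun x hx => ⟨hx.1, hx.2.1, hx.2.2.1, by simp⟩, fun h => c3 (by
      simpa using (h (show x₃ ∈ _ from ⟨m3, by simp [c1, c2]⟩)).2.2.2)⟩
  rcases rk (str f z₁ 0 * str f z₂ 0 * str f z₃ 0) (str f z₁ 1 * str f z₂ 0 * str f z₃ 0)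
    (str f z₁ 1 * str f z₂ 1 * str f z₃ 0) (str f z₁ 1 * str f z₂ 1 * str f z₃ 1) with
    h | h | h | h | h | h <;> have := hI _ _ h <;> omega

variable (f ω) in
/-- points in the same orbit of the stabiliser -/
def Cj (x y : V) : Prop := ∃ (h : f.Isom) (c : F), h • ω = ω ∧ c ≠ 0 ∧ h.1 x = c • y

variable (f ω) in
/-- invariant subspaces -/
def Inv (U : Submodule F V) : Prop := ∀ g : f.Isom, g • ω = ω → ∀ v ∈ U, g.1 v ∈ U

theorem Inv.mem_iff {U : Submodule F V} (hU : Inv f ω U) (h : Cj f ω x y) : x ∈ U ↔ y ∈ U := by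
  obtain ⟨k, c, h1, h2, h3⟩ := h
  rw [← Submodule.smul_mem_iff (x := y) _ h2, ← h3]
  exact ⟨hU k h1 x, fun h => by
    simpa only [Isom.inv_apply] using hU k⁻¹ (inv_smul_eq_iff.2 h1.symm) _ h⟩

theorem Cj.O_iff (h : Cj f ω x y) : O f ω x ↔ O f ω y := by
  obtain ⟨k, c, h1, h2, h3⟩ := h
  exact ⟨fun h => (h3 ▸ h.map h1).of_smul, fun h => by
    simpa only [← h3, Isom.inv_apply] using (h.smul h2).map (inv_smul_eq_iff.2 h1.symm)⟩

variable (f ω) in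
structure RA : Prop where
  nd : f.Nondeg
  two : (2 : F) ≠ 0
  dim : 5 ≤ finrank F V
  rk : Rk f ω
  orb : ∀ x y z, x ≠ 0 → y ≠ 0 → z ≠ 0 → Cj f ω x y ∨ Cj f ω x z ∨ Cj f ω y z

namespace RA

variable [Finite V] (R : RA f ω)
include R

theorem not_lagr {U : Submodule F V} (hU : Inv f ω U) (h : f.orth U = U) : False := by
  have d1 := R.nd.finrank_add_orth U
  have d2 := R.dim
  rw [h] at d1
  have ti : ∀ {x y}, x ∈ U → y ∈ U → f.B x y = 0 := fun hx hy => h.ge hx _ hy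
  obtain ⟨e₁, a1, a2⟩ := Submodule.exists_mem_ne_zero_of_ne_bot (p := U) fun e => by
    rw [e, finrank_bot] at d1; omega
  obtain ⟨f₁, a3⟩ := R.nd.exists_eq_one a2
  have a4 : f.B e₁ f₁ ≠ 0 := by simp [a3]
  obtain ⟨e₂, b1, b2, b3⟩ := exists_orth_of_lt R.nd (S := F ∙ f₁) (T := U) (by
    have := finrank_span_le_card (R := F) ({f₁} : Set V)
    simp only [Set.toFinset_singleton, Finset.card_singleton] at this
    omega)
  rw [mem_orth_singleton] at b3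
  obtain ⟨f₂, b4, b5⟩ := R.nd.exists_orth_eq_one (S := Submodule.span F {e₁, f₁}) (x := e₂)
    fun hm => b2 (eq_zero_of_mem_orth a4 hm (ti b1 a1) b3)
  have b6 := b4 _ (left_mem_span _ _)
  have b7 := b4 _ (right_mem_span _ _)
  obtain ⟨e₃, c1, c2, c3⟩ := exists_orth_of_lt R.nd (S := Submodule.span F {f₁, f₂}) (T := U) (by
    have := finrank_pair_le (F := F) f₁ f₂
    omega)
  obtain ⟨c3, c4⟩ := mem_orth_pair.1 c3
  obtain ⟨f₃, c5, c6⟩ := R.nd.exists_orth_eq_one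
    (S := Submodule.span F {e₁, f₁} ⊔ Submodule.span F {e₂, f₂}) (x := e₃) fun hm => by
      obtain ⟨p, hp, q, hq, e⟩ := Submodule.mem_sup.1 hm
      have o : ∀ y ∈ Submodule.span F {e₂, f₂}, y ∈ f.orth (Submodule.span F {e₁, f₁}) :=
        Submodule.span_le.2 (Set.pair_subset (mem_orth_pair.2 ⟨ti b1 a1, b3⟩) (mem_orth'.2 b4))
      have p0 : p = 0 := by
        have := sub_mem (mem_orth_pair.2 ⟨ti c1 a1, c3⟩) (o q hq)
        rw [← e, add_sub_cancel_right, mem_orth_pair] at this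
        exact eq_zero_of_mem_orth a4 hp this.1 this.2
      rw [p0, zero_add] at e
      exact c2 (eq_zero_of_mem_orth (by simp [b5]) (e ▸ hq) (ti c1 b1) c4)
  have c7 := c5 _ (Submodule.mem_sup_left (left_mem_span _ _))
  have c8 := c5 _ (Submodule.mem_sup_left (right_mem_span _ _))
  have c9 := c5 _ (Submodule.mem_sup_right (left_mem_span _ _))
  have c10 := c5 _ (Submodule.mem_sup_right (right_mem_span _ _))
  refine R.rk.chain (D := U) hU (f.B_eq_zero_symm b7) (f.B_eq_zero_symm c8) (f.B_eq_zero_symm c10)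
    (fun s₁ s₂ s₃ _ x hx hm => ?_) a1 b1 c1 a4 b3 (by simp [b5]) c3 c4 (by simp [c6])
  have hm' := (Submodule.add_mem_iff_right _ hx).1 hm
  exact ⟨by simpa [a3, b6, c7] using ti a1 hm', by simpa [b3, b5, c9] using ti b1 hm',
    by simpa [c3, c4, c6] using ti c1 hm'⟩

theorem irred {U : Submodule F V} (hU : Inv f ω U) (h0 : U ≠ ⊥) : U = ⊤ := by
  by_contra h1
  have io : ∀ {U : Submodule F V}, Inv f ω U → Inv f ω (f.orth U) := fun hU g hg v hv w hw => by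
    rw [Isom.B_left]
    exact hv _ (hU _ (inv_smul_eq_iff.2 hg.symm) w hw)
  obtain ⟨x, x1, x2⟩ := Submodule.exists_mem_ne_zero_of_ne_bot h0
  by_cases h2 : U ⊓ f.orth U = ⊥
  · obtain ⟨y, y1, y2⟩ := Submodule.exists_mem_ne_zero_of_ne_bot (p := f.orth U) fun e => h1 (by
      rw [← R.nd.orth_orth U, e, orth_bot])
    have z := (Submodule.eq_bot_iff _).1 h2
    have n1 : y ∉ U := fun h => y2 (z y ⟨h, y1⟩)
    have n2 : x + y ∉ U := fun h => n1 ((Submodule.add_mem_iff_right _ x1).1 h)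
    have n3 : x + y ∉ f.orth U := fun h => x2 (z x ⟨x1, (Submodule.add_mem_iff_left _ y1).1 h⟩)
    rcases R.orb x y (x + y) x2 y2 (fun e => n2 (e ▸ zero_mem _)) with h | h | h
    · exact n1 ((hU.mem_iff h).1 x1)
    · exact n2 ((hU.mem_iff h).1 x1)
    · exact n3 (((io hU).mem_iff h).1 y1)
  have i0 : Inv f ω (U ⊓ f.orth U) := fun g hg v hv => ⟨hU g hg v hv.1, io hU g hg v hv.2⟩
  have t0 : U ⊓ f.orth U ≤ f.orth (U ⊓ f.orth U) := inf_le_right.trans (f.orth_le inf_le_left)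
  generalize U ⊓ f.orth U = A at h2 i0 t0
  refine R.not_lagr i0 (le_antisymm (fun y hy => by_contra fun y1 => ?_) t0)
  obtain ⟨x, x1, x2⟩ := Submodule.exists_mem_ne_zero_of_ne_bot h2
  obtain ⟨z, hz⟩ := R.nd.exists_ne_zero x2
  have z1 : z ∉ f.orth A := fun h => hz (mem_orth'.1 h x x1)
  rcases R.orb x y z x2 (fun e => y1 (e ▸ zero_mem _)) (fun e => z1 (e ▸ zero_mem _)) with h | h | h
  · exact y1 ((i0.mem_iff h).1 x1)
  · exact z1 (t0 ((i0.mem_iff h).1 x1))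
  · exact z1 (((io i0).mem_iff h).1 hy)

theorem exists_O (hu : O f ω u) (x : V) (hx : x ≠ 0) : ∃ a, O f ω a ∧ f.B x a ≠ 0 := by
  by_contra hc
  push Not at hc
  have := R.irred (U := f.orth (Submodule.span F {a | O f ω a})) (fun g hg v hv => mem_orth_span.2
    fun w hw => by
      rw [Isom.B_left]
      exact mem_orth_span.1 hv _ (hw.map (inv_smul_eq_iff.2 hg.symm)))
    ((Submodule.ne_bot_iff _).2 ⟨x, mem_orth_span.2 hc, hx⟩)
  exact hu.1 (R.nd.right u fun y => mem_orth_span.1 (this.ge (Submodule.mem_top (x := y))) u hu)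

omit [Finite V] in
theorem cj (hu : O f ω u) (hy : y ≠ 0) (hz : z ≠ 0) (hy' : ¬ O f ω y) (hz' : ¬ O f ω z) :
    Cj f ω y z :=
  ((R.orb u y z hu.1 hy hz).resolve_left fun h => hy' (h.O_iff.1 hu)).resolve_left
    fun h => hz' (h.O_iff.1 hu)

theorem hyp [Finite F] (ha : O f ω a) (hc : O f ω c) (hb : f.B a c ≠ 0)
    (hz : z ∈ Submodule.span F {a, c}) (z0 : z ≠ 0) : O f ω z := by
  by_contra hn
  refine hn (hyp_of_ti R.nd R.two (by have := R.dim; omega) (R.exists_O ha)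
    (fun a' b' a1 b1 p y hy y0 => by_contra fun y1 => ?_) ha hc hb hz z0)
  obtain ⟨h, s, h1, h2, h3⟩ := R.cj ha z0 y0 hn y1
  have hb' : f.B (h.1 a) (h.1 c) ≠ 0 := by rwa [Isom.map_B]
  have hm : y ∈ Submodule.span F {h.1 a, h.1 c} := by
    obtain ⟨α, β, rfl⟩ := Submodule.mem_span_pair.1 hz
    rw [← Submodule.smul_mem_iff _ h2, ← h3]
    exact Submodule.mem_span_pair.2 ⟨α, β, by simp⟩
  have key : ∀ x, O f ω x → x ∈ Submodule.span F {a', b'} →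
      x ∈ f.orth (Submodule.span F {h.1 a, h.1 c}) := fun x x1 x2 => by_contra fun x3 =>
    y1 (O.of_secant R.nd R.two (ha.map h1) (hc.map h1) hb' hm y0 x1 (B_eq_zero_of_mem p hy x2) x3)
  obtain ⟨k1, k2⟩ := mem_orth_pair.1 (Submodule.span_le.2 (Set.pair_subset
    (key _ a1 (left_mem_span _ _)) (key _ b1 (right_mem_span _ _))) hy)
  exact y0 (eq_zero_of_mem_orth hb' hm k1 k2)

end RA

end Cfsg.Agent.R3S
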